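import Mathlib

/-!
# Degrees excluded by divisibility for ²E₆(q) (owner: helper35)
-/

set_option autoImplicit false

namespace Cfsg.Agent.TwE6Deg

/-- The order of ²E₆(q), times `gcd(3, q + 1)`. -/
def bigOrder (q : ℕ) : ℕ :=
  q ^ 36 * (q ^ 2 - 1) * (q ^ 5 + 1) * (q ^ 6 - 1) * (q ^ 8 - 1) * (q ^ 9 + 1) * (q ^ 12 - 1)

/-- The target bound. -/
def target (q : ℕ) : ℕ := q * (q ^ 6 - q ^ 3 + 1) * (q ^ 4 + 1)

/-- The degree in which the Levi invariants vanish. -/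
def bareDeg (q : ℕ) : ℕ :=
  (q - 1) * q ^ 10 + (q - 1) * (q ^ 9 + q ^ 8 + q ^ 6 + q ^ 5 + q ^ 4 + q ^ 3 + q + 1)

theorem cast_bigOrder {q : ℕ} (hq : 1 ≤ q) : (bigOrder q : ℤ) = (q : ℤ) ^ 36 *
    (((q : ℤ) ^ 2 - 1) * ((q : ℤ) ^ 5 + 1) * ((q : ℤ) ^ 6 - 1) * ((q : ℤ) ^ 8 - 1) * ((q : ℤ) ^ 9 + 1) *
      ((q : ℤ) ^ 12 - 1)) := by
  have h : ∀ e : ℕ, ((q ^ e - 1 : ℕ) : ℤ) = (q : ℤ) ^ e - 1 := fun e => by
    rw [Nat.cast_sub (Nat.one_le_pow _ _ hq)]; push_cast; rfl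
  simp only [bigOrder, Nat.cast_mul, h, Nat.cast_pow, Nat.cast_add, Nat.cast_one]
  ring

theorem cast_target {q : ℕ} (hq : 1 ≤ q) :
    (target q : ℤ) = (q : ℤ) ^ 11 - (q : ℤ) ^ 8 + (q : ℤ) ^ 7 + (q : ℤ) ^ 5 - (q : ℤ) ^ 4 + q := by
  simp only [target, Nat.cast_mul, Nat.cast_add, Nat.cast_pow, Nat.cast_one,
    Nat.cast_sub (Nat.pow_le_pow_right hq (by norm_num : 3 ≤ 6))]
  ring

theorem dvd_of_coprime_pow {Q P : ℤ} {q : ℕ} (hc : IsCoprime Q (q : ℤ)) (h : Q ∣ (q : ℤ) ^ 36 * P) : Q ∣ P :=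
  (hc.pow_right).dvd_of_dvd_mul_left h

theorem not_dvd_of_small {R Q : ℤ} (h : Q ∣ R) (hR : R ≠ 0) (hlt : |R| < Q) : False := by
  have h1 := Int.le_of_dvd (abs_pos.2 hR) ((dvd_abs _ _).2 h)
  omega

theorem target_sub_one {q : ℕ} (hq : 2 ≤ q) {n : ℕ} (hn : n + 1 = target q) : ¬ n ∣ bigOrder q := by
  intro h
  rcases Nat.lt_or_ge q 124 with hlt | hge
  · have hall : ∀ m < 124, 2 ≤ m → bigOrder m % (target m - 1) ≠ 0 := by decide +kernel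
    exact hall q hlt hq (by rw [show target q - 1 = n by omega]; exact Nat.mod_eq_zero_of_dvd h)
  have h' : (n : ℤ) ∣ (bigOrder q : ℤ) := Int.natCast_dvd_natCast.2 h
  rw [cast_bigOrder (by omega)] at h'
  have hn' : (n : ℤ) = (target q : ℤ) - 1 := by omega
  rw [cast_target (by omega)] at hn'
  have hq' : (124 : ℤ) ≤ q := by exact_mod_cast hge
  set x : ℤ := (q : ℤ)
  have hfac : (n : ℤ) = (x ^ 4 - x ^ 2 + 1) * (x ^ 7 + x ^ 5 - x ^ 4 + x ^ 3 - x ^ 2 + x - 1) := by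
    rw [hn']; ring
  set Q := x ^ 7 + x ^ 5 - x ^ 4 + x ^ 3 - x ^ 2 + x - 1 with hQ
  have hd : Q ∣ x ^ 36 * _ := (Dvd.intro_left _ hfac.symm).trans h'
  have hc : IsCoprime Q x := ⟨-1, x ^ 6 + x ^ 4 - x ^ 3 + x ^ 2 - x + 1, by rw [hQ]; ring⟩
  have hR : Q ∣ 61 * x ^ 6 - 62 * x ^ 5 + 73 * x ^ 4 - 67 * x ^ 3 + 40 * x ^ 2 - 3 * x - 19 := by
    have := dvd_sub (dvd_of_coprime_pow hc hd) (Dvd.intro_left (x ^ 35 - 2 * x ^ 33 + x ^ 32 + x ^ 31 - x ^ 30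
      - x ^ 28 + x ^ 27 + x ^ 26 - 2 * x ^ 25 + x ^ 24 - x ^ 23 - 2 * x ^ 22 + 6 * x ^ 21 - 2 * x ^ 20 - 5 * x ^ 19
      + 5 * x ^ 18 - 2 * x ^ 17 + 2 * x ^ 16 + x ^ 15 - 8 * x ^ 14 + 10 * x ^ 13 - 2 * x ^ 12 - 9 * x ^ 11
      + 16 * x ^ 10 - 12 * x ^ 9 - 4 * x ^ 8 + 20 * x ^ 7 - 21 * x ^ 6 + 10 * x ^ 5 + 6 * x ^ 4 - 26 * x ^ 3
      + 38 * x ^ 2 - 23 * x - 20) (rfl : _ * Q = _ * Q))
    refine this.trans (dvd_of_eq ?_)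
    rw [hQ]; ring
  have h5 : 124 * x ^ 5 ≤ x ^ 6 := by nlinarith [pow_nonneg (by linarith : (0 : ℤ) ≤ x) 5]
  have h4 : 124 * x ^ 4 ≤ x ^ 5 := by nlinarith [pow_nonneg (by linarith : (0 : ℤ) ≤ x) 4]
  have h3 : 124 * x ^ 3 ≤ x ^ 4 := by nlinarith [pow_nonneg (by linarith : (0 : ℤ) ≤ x) 3]
  have h2 : 124 * x ^ 2 ≤ x ^ 3 := by nlinarith [pow_nonneg (by linarith : (0 : ℤ) ≤ x) 2]
  have h1 : 124 * x ≤ x ^ 2 := by nlinarith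
  have h6 : 124 * x ^ 6 ≤ x ^ 7 := by nlinarith [pow_nonneg (by linarith : (0 : ℤ) ≤ x) 6]
  refine not_dvd_of_small hR (by intro e; linarith) ?_
  rw [abs_of_pos (by linarith), hQ]
  linarith

theorem target_sub_two {q : ℕ} (hq : 2 ≤ q) (hpp : IsPrimePow q) {n : ℕ} (hn : n + 2 = target q) :
    ¬ n ∣ bigOrder q := by
  intro h
  rcases Nat.lt_or_ge q 560 with hlt | hge
  · have hall : ∀ m < 560, 2 ≤ m → bigOrder m % (target m - 2) ≠ 0 := by decide +kernel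
    exact hall q hlt hq (by rw [show target q - 2 = n by omega]; exact Nat.mod_eq_zero_of_dvd h)
  have h' : (n : ℤ) ∣ (bigOrder q : ℤ) := Int.natCast_dvd_natCast.2 h
  rw [cast_bigOrder (by omega)] at h'
  have hn' : (n : ℤ) = (target q : ℤ) - 2 := by omega
  rw [cast_target (by omega)] at hn'
  have hq' : (560 : ℤ) ≤ q := by exact_mod_cast hge
  have hcase : Odd (q : ℤ) ∨ (4 : ℤ) ∣ q := by
    obtain ⟨p, k, hp, hk, rfl⟩ := (isPrimePow_nat_iff q).1 hpp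
    rcases hp.eq_two_or_odd' with rfl | hodd
    · right
      rcases k with _ | _ | k
      · omega
      · norm_num at hge
      · exact ⟨2 ^ k, by push_cast; ring⟩
    · left
      exact_mod_cast hodd.pow
  set x : ℤ := (q : ℤ)
  set Q := x ^ 10 + x ^ 9 + x ^ 8 + x ^ 6 + x ^ 5 + 2 * x ^ 4 + x ^ 3 + x ^ 2 + x + 2 with hQ
  have hfac : (n : ℤ) = (x - 1) * Q := by rw [hn', hQ]; ring
  set P := (x ^ 2 - 1) * (x ^ 5 + 1) * (x ^ 6 - 1) * (x ^ 8 - 1) * (x ^ 9 + 1) * (x ^ 12 - 1) with hP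
  have hd : Q ∣ x ^ 36 * P := (Dvd.intro_left _ hfac.symm).trans h'
  have h2P : Q ∣ 2 * P := by
    rcases hcase with ⟨y, hy⟩ | ⟨y, hy⟩
    · refine Dvd.dvd.mul_left (dvd_of_coprime_pow ?_ hd) 2
      -- `Q = 2 + x·(…)`, and `x` is odd
      refine ⟨-y, 1 + y * (x ^ 9 + x ^ 8 + x ^ 7 + x ^ 5 + x ^ 4 + 2 * x ^ 3 + x ^ 2 + x + 1), ?_⟩
      rw [hQ]; linear_combination hy
    · obtain ⟨H, hH⟩ : ∃ H, Q = 2 * H :=
        ⟨2 * y * (x ^ 9 + x ^ 8 + x ^ 7 + x ^ 5 + x ^ 4 + 2 * x ^ 3 + x ^ 2 + x + 1) + 1, by rw [hQ, hy]; ring⟩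
      have hc : IsCoprime H x := by
        refine ⟨1 - 2 * y * (x ^ 9 + x ^ 8 + x ^ 7 + x ^ 5 + x ^ 4 + 2 * x ^ 3 + x ^ 2 + x + 1),
          y * (x ^ 9 + x ^ 8 + x ^ 7 + x ^ 5 + x ^ 4 + 2 * x ^ 3 + x ^ 2 + x + 1) ^ 2, ?_⟩
        have : H = 2 * y * (x ^ 9 + x ^ 8 + x ^ 7 + x ^ 5 + x ^ 4 + 2 * x ^ 3 + x ^ 2 + x + 1) + 1 := by
          refine mul_left_cancel₀ (two_ne_zero' ℤ) ?_
          rw [← hH, hQ, hy]; ring
        rw [this, hy]; ring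
      rw [hH] at hd ⊢
      exact mul_dvd_mul_left 2 (dvd_of_coprime_pow hc ((dvd_mul_left _ _).trans hd))
  have hR : Q ∣ 2 * (139 * x ^ 9 - 107 * x ^ 8 + 85 * x ^ 7 + 2 * x ^ 6 + 27 * x ^ 5 + 57 * x ^ 4 + 90 * x ^ 3
      - 135 * x ^ 2 + 195 * x - 29) := by
    have := dvd_sub h2P (Dvd.intro_left (2 * (x ^ 32 - x ^ 31 - x ^ 30 + 2 * x ^ 29 - 2 * x ^ 28 + x ^ 27
      - 2 * x ^ 25 + 4 * x ^ 24 - 3 * x ^ 23 + x ^ 22 + 3 * x ^ 21 - 6 * x ^ 20 + 3 * x ^ 19 + 5 * x ^ 18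
      - 10 * x ^ 17 + 5 * x ^ 16 + 3 * x ^ 15 - 12 * x ^ 14 + 19 * x ^ 13 - 15 * x ^ 12 - 2 * x ^ 11 + 29 * x ^ 10
      - 43 * x ^ 9 + 27 * x ^ 8 + 18 * x ^ 7 - 64 * x ^ 6 + 66 * x ^ 5 - 19 * x ^ 4 - 56 * x ^ 3 + 112 * x ^ 2
      - 105 * x + 15)) (rfl : _ * Q = _ * Q))
    refine this.trans (dvd_of_eq ?_)
    rw [hQ, hP]; ring
  have p : ∀ k : ℕ, 560 * x ^ k ≤ x ^ (k + 1) := fun k => by
    rw [pow_succ, mul_comm 560]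
    exact mul_le_mul_of_nonneg_left hq' (pow_nonneg (by linarith) _)
  have := p 9; have := p 8; have := p 7; have := p 6; have := p 5; have := p 4; have := p 3; have := p 2
  have := p 1; have := p 0
  simp only [Nat.reduceAdd, pow_one, pow_zero] at *
  refine not_dvd_of_small hR (by intro e; linarith) ?_
  rw [abs_of_pos (by linarith), hQ]
  linarith

theorem bareDeg_not_dvd {q : ℕ} (hq : 2 ≤ q) : ¬ bareDeg q ∣ bigOrder q := by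
  intro h
  rcases Nat.lt_or_ge q 4325 with hlt | hge
  · have hall : ∀ i < 66, ∀ j < 66, 2 ≤ 66 * i + j → bigOrder (66 * i + j) % bareDeg (66 * i + j) ≠ 0 := by
      decide +kernel
    have := hall (q / 66) (by omega) (q % 66) (by omega)
    rw [Nat.div_add_mod] at this
    exact this hq (Nat.mod_eq_zero_of_dvd h)
  have h' : (bareDeg q : ℤ) ∣ (bigOrder q : ℤ) := Int.natCast_dvd_natCast.2 h
  rw [cast_bigOrder (by omega)] at h'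
  have hq' : (4325 : ℤ) ≤ q := by exact_mod_cast hge
  have hb : (bareDeg q : ℤ) = ((q : ℤ) - 1) * ((q : ℤ) ^ 10 + (q : ℤ) ^ 9 + (q : ℤ) ^ 8 + (q : ℤ) ^ 6 +
      (q : ℤ) ^ 5 + (q : ℤ) ^ 4 + (q : ℤ) ^ 3 + q + 1) := by
    simp only [bareDeg, Nat.cast_add, Nat.cast_mul, Nat.cast_pow, Nat.cast_one,
      Nat.cast_sub (show 1 ≤ q by omega)]
    ring
  set x : ℤ := (q : ℤ)
  set Q := x ^ 10 + x ^ 9 + x ^ 8 + x ^ 6 + x ^ 5 + x ^ 4 + x ^ 3 + x + 1 with hQ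
  set P := (x ^ 2 - 1) * (x ^ 5 + 1) * (x ^ 6 - 1) * (x ^ 8 - 1) * (x ^ 9 + 1) * (x ^ 12 - 1) with hP
  have hc : IsCoprime Q x := ⟨1, -(x ^ 9 + x ^ 8 + x ^ 7 + x ^ 5 + x ^ 4 + x ^ 3 + x ^ 2 + 1), by rw [hQ]; ring⟩
  have hd : Q ∣ P := dvd_of_coprime_pow hc ((Dvd.intro_left _ hb.symm).trans h')
  have hR : Q ∣ 2162 * x ^ 9 - 98 * x ^ 8 + 208 * x ^ 7 + 1182 * x ^ 6 - 159 * x ^ 5 + 1892 * x ^ 4 + 611 * x ^ 3
      - 546 * x ^ 2 + 1304 * x + 851 := by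
    have := dvd_sub hd (Dvd.intro_left (x ^ 32 - x ^ 31 - x ^ 30 + 2 * x ^ 29 - 2 * x ^ 28 + x ^ 27 + x ^ 26
      - 4 * x ^ 25 + 5 * x ^ 24 - x ^ 23 - 5 * x ^ 22 + 10 * x ^ 21 - 10 * x ^ 20 - x ^ 19 + 20 * x ^ 18
      - 30 * x ^ 17 + 17 * x ^ 16 + 17 * x ^ 15 - 56 * x ^ 14 + 69 * x ^ 13 - 25 * x ^ 12 - 70 * x ^ 11
      + 157 * x ^ 10 - 150 * x ^ 9 - x ^ 8 + 245 * x ^ 7 - 411 * x ^ 6 + 293 * x ^ 5 + 172 * x ^ 4 - 760 * x ^ 3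
      + 999 * x ^ 2 - 454 * x - 850) (rfl : _ * Q = _ * Q))
    refine this.trans (dvd_of_eq ?_)
    rw [hQ, hP]; ring
  have p : ∀ k : ℕ, 4325 * x ^ k ≤ x ^ (k + 1) := fun k => by
    rw [pow_succ, mul_comm 4325]
    exact mul_le_mul_of_nonneg_left hq' (pow_nonneg (by linarith) _)
  have := p 9; have := p 8; have := p 7; have := p 6; have := p 5; have := p 4; have := p 3; have := p 2
  have := p 1; have := p 0
  simp only [Nat.reduceAdd, pow_one, pow_zero] at *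
  refine not_dvd_of_small hR (by intro e; linarith) ?_
  rw [abs_of_pos (by linarith), hQ]
  linarith

end Cfsg.Agent.TwE6Deg
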