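import Cfsg.Agent.TwE6Deg.Braid2
import Cfsg.Agent.TwE6Deg.Arith
import Cfsg.Agent.ChevTw.TwE6Diag
import Cfsg.Agent.ChevTw.TwE6Perfect
import Cfsg.Agent.ChevTwOrd.E6
import Cfsg.Agent.Char.Integrality

/-!
# The least degree of a non-linear irreducible representation of ²E₆(q) (owner: helper35)
-/

set_option autoImplicit false
set_option linter.unusedSectionVars false

namespace Cfsg.Agent.TwE6Deg

open Cfsg.Lie Cfsg.Agent.ChevGrp Cfsg.Agent.ChevTw
open Module (finrank)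

variable {K : Type*} [Field K] [Fintype K] {q : ℕ} (hq : IsPrimePow q) (hK : Fintype.card K = q ^ 2)

/-- An irreducible representation with trivial action has dimension at most one. -/
theorem finrank_le_one {G : Type*} [Group G] {V : Type*} [AddCommGroup V] [Module ℂ V] [FiniteDimensional ℂ V]
    {ρ : Representation ℂ G V} [ρ.IsIrreducible] (h : ∀ g, ρ g = 1) : finrank ℂ V ≤ 1 := by
  rcases subsingleton_or_nontrivial V with hV | hV
  · rw [Module.finrank_zero_of_subsingleton]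
    exact zero_le_one
  obtain ⟨v, hv⟩ := exists_ne (0 : V)
  let W : Subrepresentation ρ := ⟨Submodule.span ℂ {v}, fun g w hw => by
    rw [h g]
    exact hw⟩
  rcases eq_bot_or_eq_top W with hW | hW
  · exfalso
    have h2 : (Submodule.span ℂ {v} : Submodule ℂ V) = ⊥ := congrArg Subrepresentation.toSubmodule hW
    exact hv (by simpa using h2)
  · have h2 : (Submodule.span ℂ {v} : Submodule ℂ V) = ⊤ := congrArg Subrepresentation.toSubmodule hW
    rw [← finrank_top ℂ V, ← h2]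
    exact (finrank_span_le_card ({v} : Set V)).trans (by simp)

include hq hK in
/-- A faithful action: only the identity acts trivially. -/
theorem eq_one_of_trivial {V : Type*} [AddCommGroup V] [Module ℂ V] [FiniteDimensional ℂ V]
    (ρ : Representation ℂ ↥(twistedE6 K q) V) [ρ.IsIrreducible] (h2 : 2 ≤ finrank ℂ V)
    {g : ↥(twistedE6 K q)} (hg : ρ g = 1) : g = 1 := by
  haveI := (ChevTwOrd.simple_E6 hq hK (thm_S1104 hq hK)).1
  have hn : (MonoidHom.ker ρ).Normal := MonoidHom.normal_ker _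
  rcases hn.eq_bot_or_eq_top with h | h
  · exact Subgroup.mem_bot.1 (h ▸ hg)
  · have := finrank_le_one (ρ := ρ) fun x => (show x ∈ MonoidHom.ker ρ from h ▸ Subgroup.mem_top x)
    omega

set_option maxHeartbeats 1000000 in
include hq hK in
/-- The bound. -/
theorem min_degree {V : Type*} [AddCommGroup V] [Module ℂ V] [FiniteDimensional ℂ V]
    (ρ : Representation ℂ ↥(twistedE6 K q) V) [ρ.IsIrreducible] (h2 : 2 ≤ finrank ℂ V) :
    q * (q ^ 6 - q ^ 3 + 1) * (q ^ 4 + 1) ≤ finrank ℂ V := by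
  classical
  have hq2 : 2 ≤ q := hq.one_lt
  obtain ⟨ψ, hψ⟩ : ∃ ψ : AddChar (FqT hq hK) ℂ, ψ ≠ 0 := by
    obtain ⟨ψ, hψ⟩ := AddChar.exists_apply_ne_zero.2 (one_ne_zero (α := FqT hq hK))
    exact ⟨ψ, fun h => hψ (by rw [h]; rfl)⟩
  have hzne : fixZ hq hK ρ ≠ ⊤ := by
    intro h
    have hz : ρ (zEl hq hK (r := 71) (by simp) 1) = 1 := LinearMap.ext fun x => by
      have hx : x ∈ fixZ hq hK ρ := h ▸ Submodule.mem_top
      exact (mem_fixZ hq hK ρ).1 hx 1
    have h1 := congrArg Subtype.val (eq_one_of_trivial hq hK ρ h2 hz)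
    obtain ⟨len, hR⟩ := (rulesE6 K).root
    refine absurd ((glSys (rulesE6 K)).x_root_inj hR data71.1 (s := 46) (dataFix 46 (by simp)).1 (u := (0 : K))
      one_ne_zero ?_) (by decide)
    exact h1.trans (xzero (dataFix 46 (by simp)).1).symm
  set n := mult hq hK ρ ψ
  have hn : Mult hq hK n := mult_mult hq hK ρ ψ
  set N := sliceN hq hK n
  have hne0 : ∑ v ∈ (MdF hq hK).filter (fun v => v 0 ≠ 0), n v = (q - 1) * q ^ 9 * N := by
    have h := box_sum hq hK hn (box hq hK fun _ => false) (fun a ha => by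
      simp [box, mem_FqF] at ha
      exact ⟨ha.2, ha.1⟩) (fun i hi a ha => by
      rcases hi with rfl | rfl | rfl <;> simp [box, Fin.ext_iff] at ha <;> simp_all [mem_FqF])
    rw [Finset.filter_congr (q := fun v => key v ∈ Fintype.piFinset (box hq hK fun _ => false)) fun v hv => by
      simp [mem_box hq hK ((mem_MdF hq hK).1 hv)], h, Fin.prod_univ_seven]
    have h0 : (0 : K) ∈ FqF hq hK := (mem_FqF hq hK).2 (map_zero _)
    simp [box, card_FqF, Finset.card_erase_of_mem h0, hK, Fin.ext_iff]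
    ring
  have hD : finrank ℂ ↥(partZ hq hK ρ ψ 1) = q ^ 10 * N := by
    have h := part_eq hq hK ρ ψ hψ
    change q * ∑ v ∈ (MdF hq hK).filter (fun v => v 0 ≠ 0), n v = _ at h
    rw [hne0] at h
    exact Nat.eq_of_mul_eq_mul_left (Nat.sub_pos_of_lt hq.one_lt) (h.symm.trans (by ring))
  have hd : finrank ℂ V = ∑ v ∈ MdF hq hK, n v + (q - 1) * (q ^ 10 * N) := by
    rw [finrank_split hq hK ρ ψ hψ, finrank_fixZ hq hK ρ ψ hψ, hD]
  have hle : (q - 1) * q ^ 9 * N ≤ ∑ v ∈ MdF hq hK, n v :=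
    hne0 ▸ Finset.sum_le_sum_of_subset (Finset.filter_subset _ _)
  have hN : N ≠ 0 := by
    intro h0
    refine hzne (Submodule.eq_top_of_finrank_eq ?_)
    rw [hd, finrank_fixZ hq hK ρ ψ hψ, h0, mul_zero, mul_zero, add_zero]
  obtain ⟨k, hk⟩ : ∃ k, q = k + 1 := ⟨q - 1, by omega⟩
  have ht : target q = q * (q ^ 6 - q ^ 3 + 1) * (q ^ 4 + 1) := rfl
  rw [← ht]
  have hT : target q + q ^ 8 + q ^ 4 = q ^ 11 + q ^ 7 + q ^ 5 + q := by
    have h36 : q ^ 3 ≤ q ^ 6 := Nat.pow_le_pow_right (by omega) (by norm_num)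
    obtain ⟨z, hz⟩ := Nat.le.dest h36
    have e : q ^ 6 - q ^ 3 = z := by omega
    rw [ht, e]
    have : q * (z + 1) * (q ^ 4 + 1) + q ^ 4 * (q ^ 4 + 1) = q * (q ^ 3 + z + 1) * (q ^ 4 + 1) := by ring
    have e2 : q * (q ^ 3 + z + 1) * (q ^ 4 + 1) = q ^ 11 + q ^ 7 + q ^ 5 + q := by rw [hz]; ring
    nlinarith [this, e2]
  rcases Nat.lt_or_ge N 2 with hN1 | hN2
  swap
  · have h1 : (q - 1) * q ^ 9 * 2 + (q - 1) * (q ^ 10 * 2) ≤ finrank ℂ V := by
      rw [hd]
      exact Nat.add_le_add ((Nat.mul_le_mul_left _ hN2).trans hle)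
        (Nat.mul_le_mul_left _ (Nat.mul_le_mul_left _ hN2))
    have h3 : (q - 1) * q ^ 9 * 2 + (q - 1) * (q ^ 10 * 2) + 2 * q ^ 9 = 2 * q ^ 11 := by
      rw [hk, Nat.add_sub_cancel]; ring
    have p5 : q ^ 5 ≤ q ^ 8 := Nat.pow_le_pow_right (by omega) (by norm_num)
    have p1 : q ≤ q ^ 4 := Nat.le_self_pow (by norm_num) q
    have p7 : 2 * q ^ 9 + q ^ 7 ≤ q ^ 11 := by
      have a1 : q ^ 7 ≤ q ^ 9 := Nat.pow_le_pow_right (by omega) (by norm_num)
      have a2 : 4 * q ^ 9 ≤ q ^ 11 := by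
        rw [show q ^ 11 = q ^ 2 * q ^ 9 by ring]
        exact Nat.mul_le_mul_right _ (by nlinarith)
      omega
    omega
  have hN1 : N = 1 := by omega
  rw [hN1, mul_one, total hq hK hn hN1] at hd
  have hbare : finrank ℂ V = bareDeg q + n 0 := by rw [hd, bareDeg]; ring
  have hdvd : finrank ℂ V ∣ bigOrder q := by
    refine (Cfsg.Agent.Char.finrank_dvd_card ρ).trans ?_
    rw [bigOrder, ← ChevTwOrd.order_E6 hq hK (thm_S1102 hq hK)]
    exact dvd_mul_left _ _
  have hf0 : n 0 ≠ 0 := fun h0 => bareDeg_not_dvd hq2 (by rwa [hbare, h0, add_zero] at hdvd)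
  have h60 : ∃ x ∈ fixQ hq hK ρ, ∃ a, ρ (zEl hq hK (r := 60) (by simp) a) x ≠ x := by
    by_contra hcon
    push Not at hcon
    let W : Subrepresentation ρ :=
      ⟨fixQ hq hK ρ, fun g x hx => fixQ_invariant hq hK ρ (fun a x hx => hcon x hx a) g hx⟩
    rcases eq_bot_or_eq_top W with hW | hW
    · refine hf0 ?_
      have h0 : fixQ hq hK ρ = ⊥ := congrArg Subrepresentation.toSubmodule hW
      rw [show n 0 = finrank ℂ ↥(fixQ hq hK ρ) from (finrank_fixQ hq hK ρ ψ).symm, h0, finrank_bot]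
    · have h0 : fixQ hq hK ρ = ⊤ := congrArg Subrepresentation.toSubmodule hW
      exact hzne (eq_top_iff.2 (h0 ▸ inf_le_left))
  have hchain := chain_bound hq hK ρ hψ h60
  rw [finrank_fixQ hq hK ρ ψ] at hchain
  change (q - 1) * (q ^ 4 + q ^ 2 + 1) ≤ n 0 at hchain
  have hkey : bareDeg q + (q - 1) * (q ^ 4 + q ^ 2 + 1) + 2 + q ^ 8 + q ^ 4 = q ^ 11 + q ^ 7 + q ^ 5 + q := by
    rw [bareDeg, hk, Nat.add_sub_cancel]; ring
  by_contra hlt
  rw [not_le] at hlt
  rcases (show finrank ℂ V + 1 = target q ∨ finrank ℂ V + 2 = target q by omega) with h | h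
  · exact target_sub_one hq2 h hdvd
  · exact target_sub_two hq2 hq h hdvd

end Cfsg.Agent.TwE6Deg
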