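import Cfsg.Agent.TwE6Deg.Monomial

/-!
# The root group of `60` acts non-trivially on the fixed space of the radical (owner: helper35)

If it acted trivially, so would the root groups of `±39`, `44` and of three pairs; then the operator
`T = ∑ x₄₆(a) n₁` preserves the fixed space, and comparing `T²` computed in two ways shows that `n₁` fixes the fixed
space, so that it is invariant under the whole group.
-/

set_option autoImplicit false
set_option linter.unusedSectionVars false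
set_option linter.unusedSimpArgs false
set_option maxHeartbeats 1000000

namespace Cfsg.Agent.TwE6Deg

open Cfsg.Lie Cfsg.Agent.ChevGrp Cfsg.Agent.ChevTw
open Module (finrank)

variable {K : Type*} [Field K] [Fintype K] {q : ℕ} (hq : IsPrimePow q) (hK : Fintype.card K = q ^ 2)

local notation "σ" => frobE6 hq hK
local notation "GK" => GL chevE6.Idx K

variable {V : Type*} [AddCommGroup V] [Module ℂ V] [FiniteDimensional ℂ V]
  (ρ : Representation ℂ ↥(twistedE6 K q) V)

/-- The element of a lift is a product of root and pair elements. -/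
theorem qEl_mem {H : Subgroup ↥(twistedE6 K q)}
    (hl : ∀ i : Fin 20, p20 i = i → ∀ g : ↥(twistedE6 K q), (∃ t, (g : GK) = X K (L20 i) t) → g ∈ H)
    (hp : ∀ i : Fin 20, p20 i ≠ i → ∀ g : ↥(twistedE6 K q),
      (∃ t, (g : GK) = X K (L20 i) t * X K (L20 (p20 i)) ((g20 i : K) * σ t)) → g ∈ H)
    (m : MdT hq hK) : qEl hq hK m ∈ H := by
  set w := (m : Fin 20 → K)
  have hlong : ∀ i : Fin 20, p20 i = i → X K (L20 i) (w i) ∈ H.map (twistedE6 K q).subtype := fun i hi => by
    refine ⟨⟨_, pos_mem hq hK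
      ((glSys (rulesE6 K)).x_mem_US (show L20 i ∈ {r | chevE6.IsPosRoot r} from (data20 i).2.1) _) ?_⟩,
      hl i hi _ ⟨_, rfl⟩, rfl⟩
    rw [sig_x hq hK _ (data20 i).1, (data20 i).2.2.2.2.2.1, (data20 i).2.2.2.2.2.2.1, hi, ← m.2 i, hi]
  have hpair : ∀ i : Fin 20, p20 i ≠ i →
      X K (L20 i) (w i) * X K (L20 (p20 i)) (w (p20 i)) ∈ H.map (twistedE6 K q).subtype := fun i hi => by
    obtain ⟨k1, k2, k3⟩ := (dataPair.1 i).resolve_left hi
    refine ⟨⟨_, pos_mem hq hK (mul_mem
      ((glSys (rulesE6 K)).x_mem_US (show L20 i ∈ {r | chevE6.IsPosRoot r} from (data20 i).2.1) _)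
      ((glSys (rulesE6 K)).x_mem_US (show L20 (p20 i) ∈ {r | chevE6.IsPosRoot r} from (data20 (p20 i)).2.1) _)) ?_⟩,
      hp i hi _ ⟨w i, by rw [← m.2 i]⟩, rfl⟩
    rw [(twistE6 hq hK).sig_mul _ ((glSys (rulesE6 K)).x_mem_Gbar (data20 i).1 _) _
        ((glSys (rulesE6 K)).x_mem_Gbar (data20 (p20 i)).1 _), sig_x hq hK _ (data20 i).1,
      sig_x hq hK _ (data20 (p20 i)).1, (data20 i).2.2.2.2.2.1, (data20 i).2.2.2.2.2.2.1,
      (data20 (p20 i)).2.2.2.2.2.1, (data20 (p20 i)).2.2.2.2.2.2.1, (data20 i).2.2.1, ← m.2 i]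
    have h2 := m.2 (p20 i)
    rw [(data20 i).2.2.1] at h2
    rw [← h2]
    exact ((xcomm (data20 i).1 (data20 (p20 i)).1 k1 k2 k3 _ _).eq).symm
  have hmem : lift20 w ∈ H.map (twistedE6 K q).subtype := by
    unfold lift20
    simp only [List.ofFn_succ, List.ofFn_zero, List.prod_cons, List.prod_nil, mul_one, Fin.succ_zero_eq_one]
    have := mul_mem (hlong 0 rfl) (mul_mem (hlong 1 rfl) (mul_mem (hlong 2 rfl) (mul_mem (hlong 3 rfl)
      (mul_mem (hlong 4 rfl) (mul_mem (hlong 5 rfl) (mul_mem (hlong 6 rfl) (mul_mem (hlong 7 rfl)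
      (mul_mem (hpair 8 (by decide)) (mul_mem (hpair 10 (by decide)) (mul_mem (hpair 12 (by decide))
      (mul_mem (hpair 14 (by decide)) (mul_mem (hpair 16 (by decide)) (hpair 18 (by decide))))))))))))))
    simpa [mul_assoc, p20] using this
  obtain ⟨g, hg, e⟩ := hmem
  rwa [show qEl hq hK m = g from Subtype.ext e.symm]

variable (H60 : ∀ a : FqT hq hK, zEl hq hK (r := 60) (by simp) a ∈ Fx ρ (fixQ hq hK ρ))

include H60

theorem fx44 (a : FqT hq hK) : zEl hq hK (r := 44) (by simp) a ∈ Fx ρ (fixQ hq hK ρ) := by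
  obtain ⟨c, hc, e⟩ := zEl_conj hq hK (wd [0, 5]) (n05_nW hq hK) (r := 60) (by simp) (r' := 44) (by simp) actN.2.1
  have e' := e (c⁻¹ * a)
  rw [mul_inv_cancel_left₀ hc] at e'
  rw [← mul_inv_cancel_right (zEl hq hK (r := 44) (by simp) a) (n05 hq hK), ← e']
  exact fx_conj ρ (st_n05 hq hK ρ) (H60 _)

theorem fx39 (a : FqT hq hK) : zEl hq hK (r := 39) (by simp) a ∈ Fx ρ (fixQ hq hK ρ) := by
  obtain ⟨c, hc, e⟩ := zEl_conj hq hK (wd [2, 4]) (n24_nW hq hK) (r := 44) (by simp) (r' := 39) (by simp)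
    actN.2.2.2.1
  have e' := e (c⁻¹ * a)
  rw [mul_inv_cancel_left₀ hc] at e'
  rw [← mul_inv_cancel_right (zEl hq hK (r := 39) (by simp) a) (n24 hq hK), ← e']
  exact fx_conj ρ (st_n24 hq hK ρ) (fx44 hq hK ρ H60 _)

theorem fx32 (t : K) (h : Ok hq hK 11 t) : lG hq hK 11 t h ∈ Fx ρ (fixQ hq hK ρ) := by
  obtain ⟨a, ha, e⟩ := nI_conj (K := K) (wd [3]) (n3 hq hK : GK) (n3_nW hq hK) (dataFix 39 (by simp)).1
    actN.2.2.2.2.2.1
  have e1 := e 1
  rw [mul_one] at e1
  have ha' : σ a = a := by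
    refine mem_single hq hK (r := 32) (s := 46) (by decide +kernel) (by decide) (by decide +kernel) ?_
    rw [← e1]
    exact mul_mem (mul_mem (n3 hq hK).2 (root_mem hq hK (by simp) (map_one _))) (inv_mem (n3 hq hK).2)
  have hb : σ (t / a) = t / a := by rw [map_div₀, ha', h rfl]
  rw [show lG hq hK 11 t h = n3 hq hK * zEl hq hK (r := 39) (by simp) ⟨t / a, hb⟩ * (n3 hq hK)⁻¹ from Subtype.ext
    (by show lel hq hK 11 t = _
        rw [Subgroup.coe_mul, Subgroup.coe_mul, Subgroup.coe_inv]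
        refine Eq.trans ?_ (e (t / a)).symm
        rw [mul_div_cancel₀ _ ha]
        simp [lel, p30, L30])]
  exact fx_conj ρ (st_n3 hq hK ρ) (fx39 hq hK ρ H60 _)

theorem fx_n3 : n3 hq hK ∈ Fx ρ (fixQ hq hK ρ) := by
  have h : lG hq hK 18 1 (fun _ => map_one _) = zEl hq hK (r := 39) (by simp) 1 :=
    Subtype.ext (by simp [zEl, lG, lel, p30, L30])
  refine mul_mem (mul_mem ?_ (fx32 hq hK ρ H60 _ _)) ?_ <;> (rw [h]; exact fx39 hq hK ρ H60 _)

theorem fx_h39 (b : Kˣ) (hb : σ (b : K) = (b : K)) :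
    tG hq hK (Pi.mulSingle ⟨3, by decide⟩ b) (single_fix hq hK (Or.inr rfl) hb) ∈ Fx ρ (fixQ hq hK ρ) := by
  set W := fixQ hq hK ρ
  have hneg : σ (-(b : K)⁻¹) = -(b : K)⁻¹ := by rw [map_neg, map_inv₀, hb]
  set zb : ↥(twistedE6 K q) := zEl hq hK (r := 39) (by simp) ⟨b, hb⟩
  set z1 : ↥(twistedE6 K q) := zEl hq hK (r := 39) (by simp) (-1)
  set lb : ↥(twistedE6 K q) := lG hq hK 11 (-(b : K)⁻¹) (fun _ => hneg)
  set l1 : ↥(twistedE6 K q) := lG hq hK 11 1 (fun _ => map_one _)
  have hmem : zb * lb * zb * (z1 * l1 * z1) ∈ Fx ρ W :=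
    mul_mem (mul_mem (mul_mem (fx39 hq hK ρ H60 _) (fx32 hq hK ρ H60 _ _)) (fx39 hq hK ρ H60 _))
      (mul_mem (mul_mem (fx39 hq hK ρ H60 _) (fx32 hq hK ρ H60 _ _)) (fx39 hq hK ρ H60 _))
  convert hmem using 1
  refine Subtype.ext ?_
  show tor _ = _
  rw [tor, Sys.tau, MonoidHom.noncommPiCoprod_mulSingle]
  show (glSys (rulesE6 K)).hEl (chevE6.simple 3) (b : K) = _
  rw [show chevE6.simple 3 = 39 from negE6.2.2.2.2.2.2.2.2.2.1]
  simp [zb, z1, lb, l1, zEl, lG, lel, p30, L30, Sys.hEl, Sys.nEl, negE6.2.1]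

/-- A pair obtained as a commutator of a pair and a long root element. -/
theorem fx_pair {e f : Fin 30} (he : p30 e ≠ e) (hf : p30 f ≠ f) {s d : ℕ}
    (hs : s ∈ ([46, 70, 71, 39, 44, 60] : List ℕ)) (hd : d ∈ ([46, 70, 71, 39, 44, 60] : List ℕ))
    (hFs : ∀ a, zEl hq hK hs a ∈ Fx ρ (fixQ hq hK ρ)) (hFd : ∀ a, zEl hq hK hd a ∈ Fx ρ (fixQ hq hK ρ))
    {C C' D : ℤ} (h1 : Nul (L30 e) (L30 (p30 e))) (h2 : One (L30 e) s (L30 f) C)
    (h3 : One (L30 (p30 e)) s (L30 (p30 f)) C') (h4 : One (L30 (p30 e)) (L30 f) d D)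
    (h5 : Nul (L30 f) (L30 (p30 f))) (hC : C * C = 1) (hsgn : C' * g30 e = g30 f * C) (w : K) :
    pG hq hK f hf w ∈ Fx ρ (fixQ hq hK ρ) := by
  have hCK : (C : K) * C = 1 := by rw [← Int.cast_mul, hC, Int.cast_one]
  have hsK : (C' : K) * g30 e = (g30 f : K) * C := by rw [← Int.cast_mul, hsgn, Int.cast_mul]
  set t : K := (C : K) * w
  have ht : (C : K) * t * 1 = w := by rw [mul_one, ← mul_assoc, hCK, one_mul]
  have ht2 : (C' : K) * ((g30 e : K) * σ t) * 1 = (g30 f : K) * σ w := by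
    rw [mul_one, ← mul_assoc, hsK, map_mul, map_intCast, mul_assoc, ← mul_assoc (C : K), hCK, one_mul]
  set g := pG hq hK e he t
  set z := zEl hq hK hs 1
  set D' : K := (D : K) * ((g30 e : K) * σ t) * w
  have hconj : ((g * z * g⁻¹ : ↥(twistedE6 K q)) : GK) =
      (z : GK) * (pG hq hK f hf w : GK) * X K d D' := by
    simp only [Subgroup.coe_mul, Subgroup.coe_inv, g, z, pG_val, zEl]
    refine (pair_conj_root h1 h2 h3 h4 _ _ _).trans ?_
    rw [show ((1 : FqT hq hK) : K) = 1 from rfl, ht, ht2]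
    rw [← mul_assoc, mul_assoc (X K s (1 : K)), ← (nul_comm h5 _ _).eq]
  have hX : X K d D' ∈ twistedE6 K q := by
    have := mul_mem (inv_mem (mul_mem z.2 (pG hq hK f hf w).2)) (g * z * g⁻¹).2
    rw [hconj, inv_mul_cancel_left] at this
    exact this
  have e' : g * z * g⁻¹ = z * pG hq hK f hf w * zEl hq hK hd ⟨D', fix_param hq hK hd hX⟩ := Subtype.ext hconj
  have h6 : g * z * g⁻¹ ∈ Fx ρ (fixQ hq hK ρ) := fx_conj ρ (st_pG hq hK ρ he t) (hFs 1)
  rw [e'] at h6
  exact ((Fx ρ (fixQ hq hK ρ)).mul_mem_cancel_left (hFs 1)).1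
    (((Fx ρ (fixQ hq hK ρ)).mul_mem_cancel_right (hFd _)).1 h6)

omit H60 in
theorem fx_slot_single {i : Fin 20} (hi : p20 i = i) (h46 : L20 i ≠ 71) (g : ↥(twistedE6 K q))
    (hg : ∃ t, (g : GK) = X K (L20 i) t) : g ∈ Fx ρ (fixQ hq hK ρ) := by
  obtain ⟨t, hg⟩ := hg
  obtain ⟨h1, -, -, -, -, hroot, hsgn, hg1⟩ := data20 i
  have ht' : σ t = t := mem_single hq hK data71.1 h46
    ⟨h1, by rw [hroot, hi], by rw [hsgn, hg1 hi]⟩ (hg ▸ g.2)
  refine fx_class hq hK ρ (by rw [hg]; exact x20_mem i t) (w := Pi.single i t) (fun j => ?_) ?_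
  · rcases eq_or_ne j i with rfl | hj
    · simp [hi, hg1 hi, ht']
    · have : p20 j ≠ i := fun e => hj (by rw [← (data20 j).2.2.1, e, hi])
      simp [Pi.single_eq_of_ne this, Pi.single_eq_of_ne hj]
  · rw [phi_single]
    exact congrArg QuotientGroup.mk (Subtype.ext hg)

omit H60 in
theorem fx_slot_pair {i : Fin 20} (hi : p20 i ≠ i) (g : ↥(twistedE6 K q))
    (hg : ∃ t, (g : GK) = X K (L20 i) t * X K (L20 (p20 i)) ((g20 i : K) * σ t)) :
    g ∈ Fx ρ (fixQ hq hK ρ) := by
  obtain ⟨t, hg⟩ := hg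
  obtain ⟨-, -, hinv, hgi, hgg, -⟩ := data20 i
  refine fx_class hq hK ρ (by rw [hg]; exact mul_mem (x20_mem i t) (x20_mem (p20 i) _))
    (w := Pi.single i t + Pi.single (p20 i) ((g20 i : K) * σ t)) (fun j => ?_) ?_
  · rcases eq_or_ne j i with rfl | hj
    · simp [hi, Ne.symm hi]
    rcases eq_or_ne j (p20 i) with rfl | hj'
    · have hgg' : (g20 i : K) * g20 i = 1 := by rw [← Int.cast_mul, hgg, Int.cast_one]
      simp [hinv, hi, Ne.symm hi, hgi, map_mul, sig2 hq hK, ← mul_assoc, hgg']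
    · have e1 : p20 j ≠ i := fun e => hj' (by rw [← e, (data20 j).2.2.1])
      have e2 : p20 j ≠ p20 i := fun e => hj (by rw [← (data20 j).2.2.1, e, hinv])
      simp [e1, e2, hj, hj']
  · rw [phi_add, phi_single, phi_single, y20, y20, ← QuotientGroup.mk_mul]
    exact congrArg QuotientGroup.mk (Subtype.ext hg)

/-- A long root element of the first grade, moved by `n₁`, fixes the fixed space. -/
theorem fx_n1_long {i : Fin 20} {r : ℕ} (hr : r ∈ ([46, 70, 71, 39, 44, 60] : List ℕ))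
    (href : chevE6.reflectRoot (⟨1, by decide⟩ : Fin chevE6.rank) r = L20 i)
    (hF : ∀ a, zEl hq hK hr a ∈ Fx ρ (fixQ hq hK ρ)) (g : ↥(twistedE6 K q))
    (hg : ∃ t, (g : GK) = X K (L20 i) t) : (n1 hq hK)⁻¹ * g * n1 hq hK ∈ Fx ρ (fixQ hq hK ρ) := by
  obtain ⟨t, hg⟩ := hg
  obtain ⟨a, -, e⟩ := n1_inv_conj hq hK (dataFix r hr).1 href
  set g' := (n1 hq hK)⁻¹ * g * n1 hq hK
  have hval : (g' : GK) = X K r (a * t) := by simp only [g', Subgroup.coe_mul, Subgroup.coe_inv, hg, e]
  have := hF ⟨a * t, fix_param hq hK hr (hval ▸ g'.2)⟩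
  rwa [show g' = zEl hq hK hr ⟨a * t, fix_param hq hK hr (hval ▸ g'.2)⟩ from Subtype.ext hval]

/-- A pair of the first grade, moved by `n₁`, fixes the fixed space. -/
theorem fx_n1_pair {i : Fin 20} {f : Fin 30} (hf : p30 f ≠ f)
    (hd : chevE6.reflectRoot (⟨1, by decide⟩ : Fin chevE6.rank) (L30 f) = L20 i ∧
      chevE6.reflectRoot (⟨1, by decide⟩ : Fin chevE6.rank) (L30 (p30 f)) = L20 (p20 i))
    (hne : L30 f ≠ L30 (p30 f)) (hF : ∀ w, pG hq hK f hf w ∈ Fx ρ (fixQ hq hK ρ)) (g : ↥(twistedE6 K q))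
    (hg : ∃ t, (g : GK) = X K (L20 i) t * X K (L20 (p20 i)) ((g20 i : K) * σ t)) :
    (n1 hq hK)⁻¹ * g * n1 hq hK ∈ Fx ρ (fixQ hq hK ρ) := by
  obtain ⟨t, hg⟩ := hg
  obtain ⟨a, -, e⟩ := n1_inv_conj hq hK (data30 f).1 hd.1
  obtain ⟨b, -, e'⟩ := n1_inv_conj hq hK (data30 (p30 f)).1 hd.2
  set g' := (n1 hq hK)⁻¹ * g * n1 hq hK
  have hval : (g' : GK) = X K (L30 f) (a * t) * X K (L30 (p30 f)) (b * ((g20 i : K) * σ t)) := by
    simp only [g', Subgroup.coe_mul, Subgroup.coe_inv, hg, ← e, ← e']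
    group
  have hy : b * ((g20 i : K) * σ t) = (g30 f : K) * σ (a * t) := by
    refine mem_pair hq hK (r := L30 f) (r' := L30 (p30 f))
      ⟨(data30 f).1, (data30 (p30 f)).1, ?_, hne⟩ ?_ (hval ▸ g'.2)
    · rw [(data30 (p30 f)).2.2.2.2.1, (data30 f).2.1]
    · rw [← pG_val hq hK f hf]; exact (pG hq hK f hf (a * t)).2
  rw [show g' = pG hq hK f hf (a * t) from Subtype.ext (by rw [hval, pG_val, hy])]
  exact hF _

/-- The operator. -/
noncomputable def TT : Module.End ℂ V :=
  ∑ a : FqT hq hK, ρ (zEl hq hK (r := 46) (by simp) a * n1 hq hK)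

omit H60 in
theorem TT_apply (x : V) :
    TT hq hK ρ x = ∑ a : FqT hq hK, ρ (zEl hq hK (r := 46) (by simp) a) (ρ (n1 hq hK) x) := by
  simp only [TT, LinearMap.sum_apply, rho_mul ρ]

/-- The operator preserves the fixed space. -/
theorem TT_mem {v : V} (hv : v ∈ fixQ hq hK ρ) : TT hq hK ρ v ∈ fixQ hq hK ρ := by
  set y := TT hq hK ρ v
  let H : Subgroup ↥(twistedE6 K q) := Fx ρ (ℂ ∙ y)
  have hH : ∀ g, ρ g y = y → g ∈ H := fun g h x hx => by
    obtain ⟨c, rfl⟩ := Submodule.mem_span_singleton.1 hx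
    rw [map_smul, h]
  set z : FqT hq hK → ↥(twistedE6 K q) := fun a => zEl hq hK (r := 46) (by simp) a
  have gen : ∀ g : ↥(twistedE6 K q),
      (∀ a, (n1 hq hK)⁻¹ * ((z a)⁻¹ * g * z a) * n1 hq hK ∈ Fx ρ (fixQ hq hK ρ)) → g ∈ H := by
    intro g hg
    refine hH g ?_
    simp only [y, TT_apply, map_sum]
    refine Finset.sum_congr rfl fun a _ => ?_
    have e := hg a v hv
    conv_rhs => rw [← e]
    rw [← rho_mul ρ, ← rho_mul ρ, ← rho_mul ρ, ← rho_mul ρ]
    congr 2
    simp only [z]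
    group
  have commGen : ∀ g : ↥(twistedE6 K q), (∀ a, Commute g (z a)) →
      (n1 hq hK)⁻¹ * g * n1 hq hK ∈ Fx ρ (fixQ hq hK ρ) → g ∈ H := fun g hc hg => gen g fun a => by
    rwa [show (z a)⁻¹ * g * z a = g by rw [mul_assoc, (hc a).eq, inv_mul_cancel_left]]
  have c1 : ∀ i : Fin 20, Nul (L20 i) 46 → ∀ g : ↥(twistedE6 K q), (∃ t, (g : GK) = X K (L20 i) t) →
      ∀ a, Commute g (z a) := fun i hn g ⟨t, hg⟩ a => Subtype.ext (by
    rw [Subgroup.coe_mul, Subgroup.coe_mul, hg]; exact (nul_comm hn _ _).eq)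
  have c2 : ∀ i : Fin 20, Nul (L20 i) 46 → Nul (L20 (p20 i)) 46 → ∀ g : ↥(twistedE6 K q),
      (∃ t, (g : GK) = X K (L20 i) t * X K (L20 (p20 i)) ((g20 i : K) * σ t)) → ∀ a, Commute g (z a) :=
    fun i hn hn' g ⟨t, hg⟩ a => Subtype.ext (by
      rw [Subgroup.coe_mul, Subgroup.coe_mul, hg]; exact ((nul_comm hn _ _).mul_left (nul_comm hn' _ _)).eq)
  -- the highest root
  have h71 : ∀ s, zEl hq hK (r := 71) (by simp) s ∈ H := fun s => by
    refine commGen _ (fun a => (commute_46_71 hq hK a s).symm) ?_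
    obtain ⟨a, -, e⟩ := n1_inv_conj hq hK (dataFix 70 (by simp)).1 (r := 71) (by decide +kernel)
    exact fx_slot_single hq hK ρ (i := 7) rfl (by decide) _ ⟨a * (s : K), e (s : K)⟩
  -- grade two: fixed by the reflection
  have self1 : ∀ i : Fin 20, (hi : p20 i = i) → L20 i ≠ 71 → Nul (L20 i) 46 →
      chevE6.reflectRoot (⟨1, by decide⟩ : Fin chevE6.rank) (L20 i) = L20 i →
      ∀ g : ↥(twistedE6 K q), (∃ t, (g : GK) = X K (L20 i) t) → g ∈ H := by
    intro i hi h71' hn href g hg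
    obtain ⟨t, ht⟩ := hg
    obtain ⟨a, -, e⟩ := n1_inv_conj hq hK (data20 i).1 href
    exact commGen g (c1 i hn g ⟨t, ht⟩) (fx_slot_single hq hK ρ hi h71' _
      ⟨a * t, by simp only [Subgroup.coe_mul, Subgroup.coe_inv, ht, e]⟩)
  have self2 : ∀ i : Fin 20, p20 i ≠ i → Nul (L20 i) 46 → Nul (L20 (p20 i)) 46 →
      chevE6.reflectRoot (⟨1, by decide⟩ : Fin chevE6.rank) (L20 i) = L20 i →
      chevE6.reflectRoot (⟨1, by decide⟩ : Fin chevE6.rank) (L20 (p20 i)) = L20 (p20 i) →
      L20 i ≠ L20 (p20 i) →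
      ∀ g : ↥(twistedE6 K q), (∃ t, (g : GK) = X K (L20 i) t * X K (L20 (p20 i)) ((g20 i : K) * σ t)) → g ∈ H := by
    intro i hi hn hn' href href' hne g hg
    obtain ⟨t, ht⟩ := hg
    obtain ⟨a, ha, e⟩ := n1_inv_conj hq hK (data20 i).1 href
    obtain ⟨b, -, e'⟩ := n1_inv_conj hq hK (data20 (p20 i)).1 href'
    refine commGen g (c2 i hn hn' g ⟨t, ht⟩) ?_
    set g' := (n1 hq hK)⁻¹ * g * n1 hq hK
    have hval : (g' : GK) = X K (L20 i) (a * t) * X K (L20 (p20 i)) (b * ((g20 i : K) * σ t)) := by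
      simp only [g', Subgroup.coe_mul, Subgroup.coe_inv, ht, ← e, ← e']
      group
    obtain ⟨k1, k2, k3⟩ := (dataPair.1 i).resolve_left hi
    have hy : b * ((g20 i : K) * σ t) = (g20 i : K) * σ (a * t) := by
      refine mem_pair hq hK (r := L20 i) (r' := L20 (p20 i))
        ⟨(data20 i).1, (data20 (p20 i)).1, ?_, hne⟩ ?_ (hval ▸ g'.2)
      · rw [(data20 (p20 i)).2.2.2.2.2.1, (data20 i).2.2.1]
      · refine pos_mem hq hK (mul_mem
          ((glSys (rulesE6 K)).x_mem_US (show L20 i ∈ {r | chevE6.IsPosRoot r} from (data20 i).2.1) _)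
          ((glSys (rulesE6 K)).x_mem_US (show L20 (p20 i) ∈ {r | chevE6.IsPosRoot r} from
            (data20 (p20 i)).2.1) _)) ?_
        rw [(twistE6 hq hK).sig_mul _ ((glSys (rulesE6 K)).x_mem_Gbar (data20 i).1 _) _
            ((glSys (rulesE6 K)).x_mem_Gbar (data20 (p20 i)).1 _), sig_x hq hK _ (data20 i).1,
          sig_x hq hK _ (data20 (p20 i)).1, (data20 i).2.2.2.2.2.1, (data20 i).2.2.2.2.2.2.1,
          (data20 (p20 i)).2.2.2.2.2.1, (data20 (p20 i)).2.2.2.2.2.2.1, (data20 i).2.2.1, (data20 i).2.2.2.1,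
          map_mul (frobE6 hq hK) (g20 i : K), map_intCast, sig2 hq hK, ← mul_assoc (g20 i : K) (g20 i : K),
          ← Int.cast_mul, (data20 i).2.2.2.2.1, Int.cast_one, one_mul]
        exact ((xcomm (data20 i).1 (data20 (p20 i)).1 k1 k2 k3 _ _).eq).symm
    exact fx_slot_pair hq hK ρ hi g' ⟨a * t, by rw [hval, hy]⟩
  -- the root 70
  have g70 : ∀ g : ↥(twistedE6 K q), (∃ t, (g : GK) = X K (L20 7) t) → g ∈ H := by
    rintro g ⟨t, hg⟩
    refine gen g fun b => ?_
    obtain ⟨-, -, -, -, -, hc70, h1, h2, ⟨h3, h4, h5⟩, -⟩ := data25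
    have e1 : ((g * z b * g⁻¹ : ↥(twistedE6 K q)) : GK) = X K 46 (b : K) * X K 71 (-t * (b : K)) := by
      simp only [Subgroup.coe_mul, Subgroup.coe_inv, hg, z, zEl]
      refine (xconj (by decide +kernel) (by decide +kernel) h1 h2 hc70 data71.1 ⟨h3, h4, h5⟩ t (b : K)).trans ?_
      simp
    set d := (z b)⁻¹ * (g * z b * g⁻¹)
    have hd : (d : GK) = X K 71 (-t * (b : K)) := by
      simp only [d, Subgroup.coe_mul, Subgroup.coe_inv]
      rw [show (g : GK) * (z b : GK) * (g : GK)⁻¹ = _ from e1]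
      simp [z, zEl]
    rw [show (z b)⁻¹ * g * z b = d * g by simp only [d]; group,
      show (n1 hq hK)⁻¹ * (d * g) * n1 hq hK =
        ((n1 hq hK)⁻¹ * d * n1 hq hK) * ((n1 hq hK)⁻¹ * g * n1 hq hK) by group]
    obtain ⟨a, -, e⟩ := n1_inv_conj hq hK (dataFix 70 (by simp)).1 (r := 71) (by decide +kernel)
    obtain ⟨a', -, e'⟩ := n1_inv_conj hq hK (dataFix 71 (by simp)).1 (r := 70) (by decide +kernel)
    refine mul_mem (fx_slot_single hq hK ρ (i := 7) rfl (by decide) _ ⟨a * (-t * (b : K)), ?_⟩) ?_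
    · simp only [Subgroup.coe_mul, Subgroup.coe_inv, hd, e]
      rfl
    · have hv' : (((n1 hq hK)⁻¹ * g * n1 hq hK : ↥(twistedE6 K q)) : GK) = X K 71 (a' * t) := by
        simp only [Subgroup.coe_mul, Subgroup.coe_inv, hg]
        exact e' t
      have hp := fix_param hq hK (r := 71) (by simp) (hv' ▸ ((n1 hq hK)⁻¹ * g * n1 hq hK).2)
      rw [show (n1 hq hK)⁻¹ * g * n1 hq hK = zEl hq hK (r := 71) (by simp) ⟨a' * t, hp⟩ from Subtype.ext hv']
      exact fx_z71 hq hK ρ _
  have g46 : ∀ g : ↥(twistedE6 K q), (∃ t, (g : GK) = X K (L20 0) t) → g ∈ H := by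
    rintro g ⟨t, hg⟩
    refine hH g ?_
    have hp := fix_param hq hK (r := 46) (by simp) (hg ▸ g.2)
    rw [show g = zEl hq hK (r := 46) (by simp) ⟨t, hp⟩ from Subtype.ext hg]
    simp only [y, TT_apply, map_sum]
    exact Fintype.sum_equiv (Equiv.addLeft (⟨t, hp⟩ : FqT hq hK)) _ _ fun a => by
      rw [← rho_mul ρ, ← zEl_add, Equiv.coe_addLeft]
  have hall : ∀ m, qEl hq hK m ∈ H := fun m => by
    refine qEl_mem hq hK (fun i hi g hg => ?_) (fun i hi g hg => ?_) m
    · fin_cases i <;> first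
        | exact absurd hi (by decide)
        | exact g46 g hg
        | exact g70 g hg
        | exact self1 _ hi (by decide) (by decide +kernel) (by decide +kernel) g hg
        | exact commGen g (c1 _ (by decide +kernel) g hg)
            (fx_n1_long hq hK ρ H60 (r := 39) (by simp) (by decide +kernel) (fx39 hq hK ρ H60) g hg)
        | exact commGen g (c1 _ (by decide +kernel) g hg)
            (fx_n1_long hq hK ρ H60 (r := 44) (by simp) (by decide +kernel) (fx44 hq hK ρ H60) g hg)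
        | exact commGen g (c1 _ (by decide +kernel) g hg)
            (fx_n1_long hq hK ρ H60 (r := 60) (by simp) (by decide +kernel) H60 g hg)
    · fin_cases i <;> first
        | exact absurd rfl hi
        | exact self2 _ hi (by decide +kernel) (by decide +kernel) (by decide +kernel) (by decide +kernel)
            (by decide) g hg
        | exact commGen g (c2 _ (by decide +kernel) (by decide +kernel) g hg)
            (fx_n1_pair hq hK ρ H60 (f := 19) (by decide) (by decide +kernel) (by decide)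
              (fun w => fx_pair hq hK ρ H60 (e := 16) (by decide) (by decide) (s := 39) (d := 44) (by simp) (by simp)
                (fx39 hq hK ρ H60) (fx44 hq hK ρ H60) (C := 1) (C' := -1) (D := -1) (by decide +kernel)
                (by decide +kernel) (by decide +kernel) (by decide +kernel) (by decide +kernel) (by decide)
                (by decide) w) g hg)
        | exact commGen g (c2 _ (by decide +kernel) (by decide +kernel) g hg)
            (fx_n1_pair hq hK ρ H60 (f := 22) (by decide) (by decide +kernel) (by decide)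
              (fun w => fx_pair hq hK ρ H60 (e := 21) (by decide) (by decide) (s := 39) (d := 44) (by simp) (by simp)
                (fx39 hq hK ρ H60) (fx44 hq hK ρ H60) (C := -1) (C' := 1) (D := 1) (by decide +kernel)
                (by decide +kernel) (by decide +kernel) (by decide +kernel) (by decide +kernel) (by decide)
                (by decide) w) g hg)
        | exact commGen g (c2 _ (by decide +kernel) (by decide +kernel) g hg)
            (fx_n1_pair hq hK ρ H60 (f := 20) (by decide) (by decide +kernel) (by decide)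
              (fun w => fx_pair hq hK ρ H60 (e := 17) (by decide) (by decide) (s := 39) (d := 60) (by simp) (by simp)
                (fx39 hq hK ρ H60) H60 (C := 1) (C' := -1) (D := -1) (by decide +kernel)
                (by decide +kernel) (by decide +kernel) (by decide +kernel) (by decide +kernel) (by decide)
                (by decide) w) g hg)
        | exact commGen g (c2 _ (by decide +kernel) (by decide +kernel) g hg)
            (fx_n1_pair hq hK ρ H60 (f := 27) (by decide) (by decide +kernel) (by decide)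
              (fun w => fx_pair hq hK ρ H60 (e := 26) (by decide) (by decide) (s := 39) (d := 60) (by simp) (by simp)
                (fx39 hq hK ρ H60) H60 (C := -1) (C' := 1) (D := 1) (by decide +kernel)
                (by decide +kernel) (by decide +kernel) (by decide +kernel) (by decide +kernel) (by decide)
                (by decide) w) g hg)
        | exact commGen g (c2 _ (by decide +kernel) (by decide +kernel) g hg)
            (fx_n1_pair hq hK ρ H60 (f := 24) (by decide) (by decide +kernel) (by decide)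
              (fun w => fx_pair hq hK ρ H60 (e := 15) (by decide) (by decide) (s := 44) (d := 60) (by simp) (by simp)
                (fx44 hq hK ρ H60) H60 (C := 1) (C' := -1) (D := -1) (by decide +kernel)
                (by decide +kernel) (by decide +kernel) (by decide +kernel) (by decide +kernel) (by decide)
                (by decide) w) g hg)
        | exact commGen g (c2 _ (by decide +kernel) (by decide +kernel) g hg)
            (fx_n1_pair hq hK ρ H60 (f := 28) (by decide) (by decide +kernel) (by decide)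
              (fun w => fx_pair hq hK ρ H60 (e := 25) (by decide) (by decide) (s := 44) (d := 60) (by simp) (by simp)
                (fx44 hq hK ρ H60) H60 (C := -1) (C' := 1) (D := 1) (by decide +kernel)
                (by decide +kernel) (by decide +kernel) (by decide +kernel) (by decide +kernel) (by decide)
                (by decide) w) g hg)
  refine ⟨(mem_fixZ hq hK ρ).2 fun a => h71 a y (Submodule.mem_span_singleton_self y), fun m => ?_⟩
  simp only [AddChar.zero_apply, one_smul]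
  exact hall m y (Submodule.mem_span_singleton_self y)

end Cfsg.Agent.TwE6Deg
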