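import Cfsg.Agent.TwE6Deg.Braid

/-!
# The two evaluations of `T²` (owner: helper35)
-/

set_option autoImplicit false
set_option linter.unusedSectionVars false
set_option linter.unusedSimpArgs false
set_option maxHeartbeats 1000000

namespace Cfsg.Agent.TwE6Deg

open Cfsg.Lie Cfsg.Agent.ChevGrp Cfsg.Agent.ChevTw
open Module (finrank)

variable {K : Type*} [Field K] [Fintype K] {q : ℕ} (hq : IsPrimePow q) (hK : Fintype.card K = q ^ 2)

local notation "σ" => frobE6 hq hK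
local notation "GK" => GL chevE6.Idx K

variable {V : Type*} [AddCommGroup V] [Module ℂ V] [FiniteDimensional ℂ V]
  (ρ : Representation ℂ ↥(twistedE6 K q) V)

local notation "Z46" => zEl hq hK (r := 46) (by simp)
local notation "N1" => n1 hq hK

/-- A torus element passes through the operator up to its effect on `n₁`. -/
theorem TT_shift {c : Fin chevE6.rank → Kˣ} (hc : c ∈ fixTorusE6 K q) (h : ↥(twistedE6 K q))
    (hn : tG hq hK c hc * N1 = h * N1) (v : V) :
    ρ (tG hq hK c hc) (TT hq hK ρ v) = ∑ a : FqT hq hK, ρ (Z46 a) (ρ h (ρ N1 v)) := by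
  have h46 : (⟨(tchar c 46 : K), tchar_fixed hq hK hc (by simp)⟩ : FqT hq hK) ≠ 0 := fun e =>
    Units.ne_zero _ (congrArg Subtype.val e)
  rw [TT_apply, map_sum]
  refine Fintype.sum_equiv (Equiv.mulLeft₀ _ h46) _ _ fun a => ?_
  rw [← rho_mul ρ, zEl_mul_tG, rho_mul ρ, ← rho_mul ρ (tG hq hK c hc), hn, rho_mul ρ h]
  rfl

theorem h1G_eq {u : Kˣ} (hu : σ (u : K) = (u : K)) :
    h1G hq hK u hu = tG hq hK (Pi.mulSingle ⟨1, by decide⟩ u) (single_fix hq hK (Or.inl rfl) hu) := rfl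

/-- `T` commutes with `n₁²`. -/
theorem TT_sq (v : V) : TT hq hK ρ (ρ (N1 * N1) v) = ρ (N1 * N1) (TT hq hK ρ v) := by
  obtain ⟨h, ⟨hu, rfl⟩, hs⟩ := n1_sq hq hK
  rw [TT_apply, TT_apply, map_sum]
  refine Finset.sum_congr rfl fun a _ => ?_
  have hz : Z46 a * (N1 * N1) = (N1 * N1) * Z46 a := by
    rw [hs, eq_inv_mul_iff_mul_eq, ← mul_assoc, h1G_eq, zEl_mul_tG, mul_inv_eq_iff_eq_mul]
    congr 2
    refine mul_left_eq_self₀.2 (Or.inl (Subtype.ext ?_))
    show ((tchar (Pi.mulSingle ⟨1, by decide⟩ (-1 : Kˣ)) 46 : Kˣ) : K) = 1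
    rw [tchar_single, show chevE6.cartan 1 46 = 2 by decide +kernel]
    simp
  rw [← rho_mul ρ, ← rho_mul ρ, ← rho_mul ρ, ← rho_mul ρ, show Z46 a * N1 * (N1 * N1) = Z46 a * (N1 * N1) * N1 by group,
    hz]

/-- A scalar family of torus elements `h₄₆`. -/
def HFix (W : Submodule ℂ V) : Prop :=
  ∀ (u : Kˣ) (hu : σ (u : K) = (u : K)), h1G hq hK u hu ∈ Fx ρ W

variable (H60 : ∀ a : FqT hq hK, zEl hq hK (r := 60) (by simp) a ∈ Fx ρ (fixQ hq hK ρ))

theorem n1_sq_st : N1 * N1 ∈ St ρ (fixQ hq hK ρ) := by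
  obtain ⟨h, ⟨hu, rfl⟩, hs⟩ := n1_sq hq hK
  rw [hs, h1G_eq]
  exact inv_mem (st_tG hq hK ρ _)

open scoped Classical in
/-- The quadratic relation. -/
theorem TT_TT {v : V} (hv : v ∈ fixQ hq hK ρ) :
    ∃ hb : FqT hq hK → ↥(twistedE6 K q), (∀ b, b ≠ 0 → ∃ u hu, hb b = h1G hq hK u hu) ∧
      TT hq hK ρ (TT hq hK ρ v) = q • ρ (N1 * N1) v +
        ∑ b ∈ (Finset.univ : Finset (FqT hq hK)).erase 0, ρ (hb b) (TT hq hK ρ (ρ (N1 * N1) v)) := by
  obtain ⟨η, hη, eη⟩ := nI_root (K := K) (⟨1, by decide⟩ : Fin chevE6.rank) (r := 46) (r' := 25)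
    (dataFix 46 (by simp)).1 (by decide +kernel)
  have hση : σ η = η := by rcases hη with rfl | rfl <;> simp
  have hη0 : η ≠ 0 := by rcases hη with rfl | rfl <;> simp
  set v0 := ρ (N1 * N1) v
  have hv0 : v0 ∈ fixQ hq hK ρ := (n1_sq_st hq hK ρ v).2 hv
  have key : ∀ b : FqT hq hK, b ≠ 0 → ∃ g : ↥(twistedE6 K q), (∃ u hu, g = h1G hq hK u hu) ∧
      ∑ a : FqT hq hK, ρ (Z46 a) (ρ N1 (ρ (Z46 b) (ρ N1 v))) = ρ g (TT hq hK ρ v0) := by
    intro b hb
    have hs : η * (b : K) ≠ 0 := mul_ne_zero hη0 fun e => hb (Subtype.ext e)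
    have hsf : σ (η * (b : K))⁻¹ = (η * (b : K))⁻¹ := by rw [map_inv₀, map_mul, hση, fq_apply hq hK b]
    set u : Kˣ := Units.mk0 (-(η * (b : K))⁻¹) (neg_ne_zero.2 (inv_ne_zero hs))
    have hu : σ (u : K) = (u : K) := by simp only [u, Units.val_mk0, map_neg, hsf]
    set h := h1G hq hK u hu
    set r : FqT hq hK := ⟨(η * (b : K))⁻¹, hsf⟩
    refine ⟨h, ⟨u, hu, rfl⟩, ?_⟩
    have e : N1 * Z46 b * N1⁻¹ = Z46 r * (h * N1) * Z46 r := by
      refine Subtype.ext ?_
      simp only [Subgroup.coe_mul, Subgroup.coe_inv]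
      rw [← nEl46 hq hK u hu]
      show (glSys (rulesE6 K)).nI ⟨1, by decide⟩ * X K 46 (b : K) * ((glSys (rulesE6 K)).nI ⟨1, by decide⟩)⁻¹ =
        X K 46 (η * (b : K))⁻¹ * (glSys (rulesE6 K)).nEl 46 (-(η * (b : K))⁻¹) * X K 46 (η * (b : K))⁻¹
      rw [eη, x25_eq hs]
    have e2 : N1 * Z46 b * N1 = Z46 r * h * N1 * (Z46 r * (N1 * N1)) :=
      calc N1 * Z46 b * N1 = N1 * Z46 b * N1⁻¹ * (N1 * N1) := by group
        _ = _ := by rw [e]; group
    refine (Fintype.sum_equiv (Equiv.addRight r) _ _ fun a => ?_).trans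
      (TT_shift hq hK ρ (single_fix hq hK (Or.inl rfl) hu) (h1G hq hK u hu) rfl v0).symm
    rw [Equiv.coe_addRight, zEl_add, ← rho_mul ρ N1, ← rho_mul ρ (N1 * Z46 b), e2, rho_mul ρ, rho_mul ρ, rho_mul ρ,
      rho_mul ρ (Z46 r) (N1 * N1), fx_z46 hq hK ρ r v0 hv0, rho_mul ρ (Z46 a)]
  choose g hg hsum using key
  refine ⟨fun b => if hb : b = 0 then 1 else g b hb, fun b hb => ?_, ?_⟩
  · simp only [dif_neg hb]
    exact hg b hb
  rw [TT_apply hq hK ρ (TT hq hK ρ v)]
  conv_lhs => arg 2; ext a; rw [TT_apply, map_sum, map_sum]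
  rw [Finset.sum_comm, ← Finset.add_sum_erase _ _ (Finset.mem_univ (0 : FqT hq hK))]
  congr 1
  · refine (Finset.sum_eq_card_nsmul fun a _ => ?_).trans (by rw [Finset.card_univ, card_FqT])
    rw [zEl_zero, ← rho_mul ρ 1, one_mul, ← rho_mul ρ N1]
    exact fx_z46 hq hK ρ a v0 hv0
  · refine Finset.sum_congr rfl fun b hb => ?_
    simp only [dif_neg (Finset.ne_of_mem_erase hb)]
    rw [hsum b (Finset.ne_of_mem_erase hb)]

/-- The operator is injective on the fixed space. -/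
theorem TT_inj {v : V} (hv : v ∈ fixQ hq hK ρ) (h : TT hq hK ρ v = 0) : v = 0 := by
  classical
  obtain ⟨hb, -, e⟩ := TT_TT hq hK ρ hv
  rw [h, map_zero, TT_sq, h] at e
  simp only [map_zero, Finset.sum_const_zero, add_zero] at e
  rw [← Nat.cast_smul_eq_nsmul ℂ] at e
  have h0 := (smul_eq_zero.1 e.symm).resolve_left (Nat.cast_ne_zero.2 hq.ne_zero)
  exact rho_inj ρ _ (by rw [h0, map_zero])

include H60

/-- The operator is onto the fixed space. -/
theorem TT_surj {x : V} (hx : x ∈ fixQ hq hK ρ) : ∃ v ∈ fixQ hq hK ρ, TT hq hK ρ v = x := by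
  set f : ↥(fixQ hq hK ρ) →ₗ[ℂ] ↥(fixQ hq hK ρ) :=
    (TT hq hK ρ).restrict fun _ h => TT_mem hq hK ρ H60 h
  have hinj : Function.Injective f := by
    rw [← LinearMap.ker_eq_bot, LinearMap.ker_eq_bot']
    exact fun m h => Subtype.ext (TT_inj hq hK ρ m.2 (congrArg Subtype.val h))
  obtain ⟨v, hv⟩ := LinearMap.injective_iff_surjective.1 hinj ⟨x, hx⟩
  exact ⟨v, v.2, congrArg Subtype.val hv⟩

/-- The torus elements `h₄₆` fix the fixed space. -/
theorem hfix : HFix hq hK ρ (fixQ hq hK ρ) := by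
  intro u hu x hx
  obtain ⟨v, hv, rfl⟩ := TT_surj hq hK ρ H60 hx
  have hb : σ ((u⁻¹ : Kˣ) : K) = ((u⁻¹ : Kˣ) : K) := by simp [hu]
  set c : Fin chevE6.rank → Kˣ := Pi.mulSingle ⟨3, by decide⟩ u⁻¹
  have hc : c ∈ fixTorusE6 K q := single_fix hq hK (Or.inr rfl) hb
  obtain ⟨h, ⟨hu', rfl⟩, e⟩ := h39_n1 hq hK u⁻¹ hb
  have h39 := fx_h39 hq hK ρ H60 u⁻¹ hb
  simp only [inv_inv] at e
  change ρ (h1G hq hK u hu) (TT hq hK ρ v) = _
  have e1 : ρ (h1G hq hK u hu) (TT hq hK ρ v) = ∑ a : FqT hq hK, ρ (Z46 a) (ρ (h1G hq hK u hu) (ρ N1 v)) := by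
    rw [h1G_eq]
    exact TT_shift hq hK ρ _ _ rfl v
  have e2 := TT_shift hq hK ρ hc (h1G hq hK u hu * N1 * tG hq hK c hc * N1⁻¹) (by rw [inv_mul_cancel_right]; exact e) v
  rw [h39 _ (TT_mem hq hK ρ H60 hv)] at e2
  rw [e1, e2]
  refine Finset.sum_congr rfl fun a _ => ?_
  rw [← rho_mul ρ _ N1, ← rho_mul ρ _ N1, inv_mul_cancel_right, rho_mul ρ (_ * N1), h39 v hv]

/-- The monomial element of the node `1` fixes the fixed space. -/
theorem fx_n1 : N1 ∈ Fx ρ (fixQ hq hK ρ) := by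
  classical
  intro v hv
  have hF := hfix hq hK ρ H60
  obtain ⟨hb, hh, eTT⟩ := TT_TT hq hK ρ hv
  obtain ⟨hsq, ⟨hu1, rfl⟩, hs⟩ := n1_sq hq hK
  have hn2 : ρ (N1 * N1) v = v := by rw [hs]; exact inv_mem (hF _ hu1) v hv
  set w := TT hq hK ρ v with hw
  have hwQ : w ∈ fixQ hq hK ρ := TT_mem hq hK ρ H60 hv
  rw [hn2, Finset.sum_congr rfl fun b hb' => by
    obtain ⟨u, hu, e⟩ := hh b (Finset.ne_of_mem_erase hb')
    rw [e, ← hw, hF u hu w hwQ]] at eTT
  have hn3 := fx_n3 hq hK ρ H60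
  set u := ρ (n3 hq hK) (ρ N1 v) with hu_def
  -- `n₁` fixes `u`
  have hu1' : ρ N1 u = u := by
    obtain ⟨a1, ha1, e1⟩ := nI_root (K := K) (⟨1, by decide⟩ : Fin chevE6.rank) (r := 39) (r' := 47)
      (dataFix 39 (by simp)).1 (by decide +kernel)
    obtain ⟨a2, ha2, e2⟩ := nI_root (K := K) (⟨3, by decide⟩ : Fin chevE6.rank) (r := 47) (r' := 46)
      (by decide +kernel) (by decide +kernel)
    obtain ⟨b1, hb1, f1⟩ := nI_root (K := K) (⟨1, by decide⟩ : Fin chevE6.rank) (r := 32) (r' := 24)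
      (by decide +kernel) (by decide +kernel)
    obtain ⟨b2, hb2, f2⟩ := nI_root (K := K) (⟨3, by decide⟩ : Fin chevE6.rank) (r := 24) (r' := 25)
      (by decide +kernel) (by decide +kernel)
    obtain ⟨len, hR⟩ := (rulesE6 K).root
    obtain ⟨a, ha, hga⟩ := (glSys (rulesE6 K)).conjP_nW (rulesE6 K) hR (wd [3, 1])
    set g := n3 hq hK * N1
    have hg : (g : GK) = (glSys (rulesE6 K)).nW (wd [3, 1]) := by
      rw [Subgroup.coe_mul, n3_val, show wd [3, 1] = [⟨3, by decide⟩, ⟨1, by decide⟩] from rfl]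
      simp [Sys.nW, n1]
    have e39 : (g : GK) * X K 39 1 * (g : GK)⁻¹ = X K 46 (a2 * a1) := by
      rw [← mul_one (a2 * a1), mul_assoc a2, ← e2, ← e1, Subgroup.coe_mul, n3_val]
      simp only [n1]
      group
    have e32 : (g : GK) * X K 32 (-1) * (g : GK)⁻¹ = X K 25 (b2 * (b1 * -1)) := by
      rw [← f2, ← f1, Subgroup.coe_mul, n3_val]
      simp only [n1]
      group
    have hab : b2 * b1 = a2 * a1 := by
      have haa := hga 39 (dataFix 39 (by simp)).1 1
      rw [mul_one, ← hg, e39, actN.2.2.2.2.2.2.2.2] at haa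
      have hbb := hga 32 (by decide +kernel) (-1)
      rw [← hg, e32, show act chevE6 (wd [3, 1]) 32 = 25 by decide +kernel] at hbb
      have inj : ∀ (r s : ℕ), r < chevE6.nroots → s < chevE6.nroots → r ≠ s → ∀ x y : K,
          X K r x = X K r y → x = y := fun r s hr hs hne x y h => by
        by_contra hxy
        refine hne ((glSys (rulesE6 K)).x_root_inj hR hr hs (u := 0) (sub_ne_zero.2 hxy) ?_)
        show X K r (x - y) = X K s 0
        rw [sub_eq_add_neg, ← xadd hr, h, xadd hr, add_neg_cancel, xzero hr, xzero hs]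
      have i1 := inj 46 25 (dataFix 46 (by simp)).1 data25.1 (by decide) _ _ haa
      have i2 := inj 25 46 data25.1 (dataFix 46 (by simp)).1 (by decide) _ _ hbb
      have h32 := ha 39 (dataFix 39 (by simp)).1
      rw [negE6.2.1, ← i1] at h32
      have hb32 : b2 * b1 = a 32 := by
        have : b2 * (b1 * -1) = a 32 * -1 := i2
        linear_combination -this
      rw [← hb32] at h32
      rcases ha1 with rfl | rfl <;> rcases ha2 with rfl | rfl <;> first
        | linear_combination h32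
        | linear_combination -h32
    have en : (g : GK) * (n3 hq hK : GK) * (g : GK)⁻¹ = (glSys (rulesE6 K)).nEl 46 (a2 * a1) := by
      have hinv : (a2 * a1)⁻¹ = a2 * a1 := by rcases ha1 with rfl | rfl <;> rcases ha2 with rfl | rfl <;> simp
      rw [n3_val, nI_eq, show chevE6.simple 3 = 39 from negE6.2.2.2.2.2.2.2.2.2.1, negE6.2.1]
      calc _ = (g : GK) * X K 39 1 * (g : GK)⁻¹ * ((g : GK) * X K 32 (-1) * (g : GK)⁻¹) *
            ((g : GK) * X K 39 1 * (g : GK)⁻¹) := by group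
        _ = _ := by
          rw [e39, e32, ← mul_assoc b2, hab, mul_neg_one]
          simp only [Sys.nEl, negE6.1, hinv]
    have eu : ρ (g * n3 hq hK * g⁻¹) u = u := by
      rw [hu_def, ← rho_mul ρ (n3 hq hK) N1, ← rho_mul ρ, inv_mul_cancel_right, rho_mul ρ, hn3 v hv]
    have hcase : a2 * a1 = 1 ∨ a2 * a1 = -1 := by
      rcases ha1 with rfl | rfl <;> rcases ha2 with rfl | rfl <;> simp
    rcases hcase with h1 | h1
    · rw [show N1 = g * n3 hq hK * g⁻¹ from Subtype.ext (by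
        rw [Subgroup.coe_mul, Subgroup.coe_mul, Subgroup.coe_inv, en, h1]
        show (glSys (rulesE6 K)).nI ⟨1, by decide⟩ = _
        rw [Sys.nI, show chevE6.simple 1 = 46 from negE6.2.2.2.2.2.2.2.1])]
      exact eu
    · rw [show g * n3 hq hK * g⁻¹ = N1⁻¹ from Subtype.ext (by
        rw [Subgroup.coe_mul, Subgroup.coe_mul, Subgroup.coe_inv, en, h1, Subgroup.coe_inv, n1_nEl_neg])] at eu
      have := congrArg (ρ N1) eu
      rw [rho_inv_right] at this
      exact this.symm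
  -- the root group of `46` fixes `u`
  have hu46 : ∀ a, ρ (Z46 a) u = u := by
    intro a
    obtain ⟨c1, -, e1⟩ := n1_inv_conj hq hK (r := 47) (dataFix 39 (by simp)).1 (by decide +kernel)
    obtain ⟨c2, hc2, e2⟩ := nI_root (K := K) (⟨3, by decide⟩ : Fin chevE6.rank) (r := 47) (r' := 46)
      (by decide +kernel) (by decide +kernel)
    have hc : c2 * c2 = 1 := by rcases hc2 with rfl | rfl <;> simp
    have ev := e2 (c2 * (a : K))
    rw [← mul_assoc, hc, one_mul, ← n3_val hq hK] at ev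
    set d := N1⁻¹ * ((n3 hq hK)⁻¹ * Z46 a * n3 hq hK) * N1
    have hval : (d : GK) = X K 39 (c1 * (c2 * (a : K))) := by
      rw [← e1]
      simp only [d, Subgroup.coe_mul, Subgroup.coe_inv]
      rw [show (Z46 a : GK) = X K 46 (a : K) from rfl, ← ev]
      group
    have hp := fix_param hq hK (r := 39) (by simp) (hval ▸ d.2)
    have hd : ρ d v = v := by
      rw [show d = zEl hq hK (r := 39) (by simp) ⟨c1 * (c2 * (a : K)), hp⟩ from Subtype.ext hval]
      exact fx39 hq hK ρ H60 _ v hv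
    rw [hu_def, ← rho_mul ρ (n3 hq hK) N1, ← rho_mul ρ,
      show Z46 a * (n3 hq hK * N1) = n3 hq hK * N1 * d by simp only [d]; group, rho_mul ρ, hd]
  -- `w` as a sum over the root group of `47`
  let y : FqT hq hK → ↥(twistedE6 K q) := fun b => n3 hq hK * Z46 b * (n3 hq hK)⁻¹
  have hw47 : w = ∑ b, ρ (y b) u := by
    conv_lhs => rw [← hn3 w hwQ]
    rw [hw, TT_apply, map_sum]
    refine Finset.sum_congr rfl fun b _ => ?_
    simp only [hu_def, ← rho_mul ρ, y]
    rw [show n3 hq hK * Z46 b * (n3 hq hK)⁻¹ * (n3 hq hK * N1) = n3 hq hK * (Z46 b * N1) by group]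
  obtain ⟨c47, hc47, e47⟩ := nI_root (K := K) (⟨3, by decide⟩ : Fin chevE6.rank) (r := 46) (r' := 47)
    (dataFix 46 (by simp)).1 (by decide +kernel)
  have hcc : c47 * c47 = 1 := by rcases hc47 with rfl | rfl <;> simp
  have hyval : ∀ b : FqT hq hK, (y b : GK) = X K 47 (c47 * (b : K)) := fun b => by
    simp only [y, Subgroup.coe_mul, Subgroup.coe_inv, n3_val]
    exact e47 (b : K)
  obtain ⟨d39, hd39, e39⟩ := nI_root (K := K) (⟨1, by decide⟩ : Fin chevE6.rank) (r := 47) (r' := 39)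
    (by decide +kernel) (by decide +kernel)
  have hdc : σ (d39 * c47) = d39 * c47 := by
    rcases hd39 with rfl | rfl <;> rcases hc47 with rfl | rfl <;> simp
  -- the second evaluation
  have eTw : TT hq hK ρ w = q • u + ∑ _b ∈ (Finset.univ : Finset (FqT hq hK)).erase 0, w := by
    rw [TT_apply]
    conv_lhs => arg 2; ext a; rw [hw47, map_sum, map_sum]
    rw [Finset.sum_comm, ← Finset.add_sum_erase _ _ (Finset.mem_univ (0 : FqT hq hK))]
    congr 1
    · refine (Finset.sum_eq_card_nsmul fun a _ => ?_).trans (by rw [Finset.card_univ, card_FqT])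
      rw [show y 0 = 1 by simp [y, zEl_zero], map_one, Module.End.one_apply, hu1', hu46]
    · refine Finset.sum_congr rfl fun b hb' => ?_
      set s : FqT hq hK := ⟨d39 * c47, hdc⟩ * b
      set z39 := zEl hq hK (r := 39) (by simp) s
      have ey : N1 * y b = z39 * N1 := Subtype.ext (by
        show (N1 : GK) * (y b : GK) = (z39 : GK) * (N1 : GK)
        rw [hyval]
        show (glSys (rulesE6 K)).nI ⟨1, by decide⟩ * _ = X K 39 (d39 * c47 * (b : K)) * (glSys (rulesE6 K)).nI _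
        rw [mul_assoc d39]
        exact mul_inv_eq_iff_eq_mul.1 (e39 _))
      have hs0 : (s : K) ≠ 0 := by
        show d39 * c47 * (b : K) ≠ 0
        have hbK : (b : K) ≠ 0 := fun e => Finset.ne_of_mem_erase hb' (Subtype.ext e)
        rcases hd39 with rfl | rfl <;> rcases hc47 with rfl | rfl <;> simp [hbK]
      have hcn : c47 ≠ 0 := by rcases hc47 with rfl | rfl <;> simp
      have hm : σ (-(c47 * (s : K))) = -(c47 * (s : K)) := by
        rw [map_neg, map_mul, fq_apply hq hK s]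
        rcases hc47 with rfl | rfl <;> simp
      have hm0 : (⟨-(c47 * (s : K)), hm⟩ : FqT hq hK) ≠ 0 := fun e =>
        neg_ne_zero.2 (mul_ne_zero hcn hs0) (congrArg Subtype.val e)
      have ecomm : ∀ a : FqT hq hK, Z46 a * z39 = z39 * y ((⟨-(c47 * (s : K)), hm⟩ : FqT hq hK) * a) * Z46 a := by
        intro a
        refine Subtype.ext ?_
        simp only [Subgroup.coe_mul, hyval]
        show X K 46 (a : K) * X K 39 (s : K) =
          X K 39 (s : K) * X K 47 (c47 * (-(c47 * (s : K)) * (a : K))) * X K 46 (a : K)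
        have hc' := one_conj (K := K) (r := 39) (s := 46) (c := 47) (C := 1) (by decide +kernel) (-(s : K)) (a : K)
        rw [← xinv (by decide +kernel), inv_inv, Int.cast_one, one_mul] at hc'
        rw [show c47 * (-(c47 * (s : K)) * (a : K)) = -(s : K) * (a : K) by linear_combination -((s : K) * a) * hcc,
          mul_assoc (X K 39 (s : K)), ← (nul_comm (r := 46) (s := 47) (by decide +kernel) (a : K) _).eq, ← hc']
        group
      calc ∑ a, ρ (Z46 a) (ρ N1 (ρ (y b) u))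
          = ∑ a, ρ z39 (ρ (y ((⟨-(c47 * (s : K)), hm⟩ : FqT hq hK) * a)) u) :=
            Finset.sum_congr rfl fun a _ => by
              rw [← rho_mul ρ N1, ey, rho_mul ρ, hu1', ← rho_mul ρ, ecomm, rho_mul ρ, hu46, rho_mul ρ]
        _ = w := by
            rw [← map_sum, show ∑ a, ρ (y ((⟨-(c47 * (s : K)), hm⟩ : FqT hq hK) * a)) u = w from
              (Fintype.sum_equiv (Equiv.mulLeft₀ _ hm0) _ _ fun a => rfl).trans hw47.symm]
            exact fx39 hq hK ρ H60 _ w hwQ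
  have huv : u = v := by
    have h := eTw.symm.trans eTT
    rw [add_right_cancel_iff, ← Nat.cast_smul_eq_nsmul ℂ, ← Nat.cast_smul_eq_nsmul ℂ q v] at h
    exact (smul_right_inj (Nat.cast_ne_zero.2 hq.ne_zero : (q : ℂ) ≠ 0)).1 h
  have := congrArg (ρ (n3 hq hK)⁻¹) (hu_def ▸ huv : ρ (n3 hq hK) (ρ N1 v) = v)
  rw [rho_inv_left, inv_mem hn3 v hv] at this
  exact this

/-- The fixed space of the radical is invariant under the whole group. -/
theorem fixQ_invariant (g : ↥(twistedE6 K q)) {x : V} (hx : x ∈ fixQ hq hK ρ) : ρ g x ∈ fixQ hq hK ρ := by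
  set H := (St ρ (fixQ hq hK ρ)).map (twistedE6 K q).subtype
  suffices hle : twistedE6 K q ≤ H by
    obtain ⟨g', hg', e⟩ := hle g.2
    rw [show g = g' from Subtype.ext e.symm]
    exact (hg' x).2 hx
  unfold twistedE6 ChevalleyDatum.genSubgroup
  rw [Subgroup.closure_le]
  rintro g' ⟨w, hw, hmat⟩
  have eg := eq_word_of_mat (rulesE6 K) hmat
  rcases hw with ⟨t, ht', r, hr, rfl⟩ | ⟨t, rs, hrs, rfl⟩
  · have hσ : σ t = t := by rw [frobE6_apply]; exact ht'
    simp only [List.map_cons, List.map_nil, List.prod_cons, List.prod_nil, mul_one] at eg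
    simp only [List.mem_cons, List.not_mem_nil, or_false] at hr
    rcases hr with rfl | rfl | rfl | rfl
    · exact ⟨Z46 ⟨t, hσ⟩, fx_le_st ρ _ (fx_z46 hq hK ρ _), eg.symm⟩
    · obtain ⟨η, hη, eη⟩ := nI_root (K := K) (⟨1, by decide⟩ : Fin chevE6.rank) (r := 46) (r' := 25)
        (dataFix 46 (by simp)).1 (by decide +kernel)
      have hf : σ (η * t) = η * t := by rcases hη with rfl | rfl <;> simp [hσ]
      refine ⟨N1 * Z46 ⟨η * t, hf⟩ * N1⁻¹, fx_le_st ρ _ (fx_conj ρ (fx_le_st ρ _ (fx_n1 hq hK ρ H60))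
        (fx_z46 hq hK ρ _)), ?_⟩
      rw [eg]
      show (glSys (rulesE6 K)).nI ⟨1, by decide⟩ * X K 46 (η * t) * ((glSys (rulesE6 K)).nI ⟨1, by decide⟩)⁻¹ =
        X K 25 t
      rw [eη, ← mul_assoc, show η * η = 1 by rcases hη with rfl | rfl <;> simp, one_mul]
    · refine ⟨lG hq hK 18 t (fun _ => hσ), st_lG hq hK ρ _, ?_⟩
      rw [eg]
      show lel hq hK 18 t = X K 39 t
      simp [lel, p30, L30]
    · refine ⟨lG hq hK 11 t (fun _ => hσ), st_lG hq hK ρ _, ?_⟩
      rw [eg]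
      show lel hq hK 11 t = X K 32 t
      simp [lel, p30, L30]
  · simp only [List.map_cons, List.map_nil, List.prod_cons, List.prod_nil, mul_one, ← frobE6_apply hq hK] at eg
    simp only [List.mem_cons, List.not_mem_nil, or_false] at hrs
    rcases hrs with rfl | rfl | rfl | rfl
    · refine ⟨pG hq hK 25 (by decide) t, st_pG hq hK ρ _ _, ?_⟩
      rw [eg, Subgroup.coe_subtype, pG_val]
      simp [L30, p30, g30, e6p1, e6p6]
      rfl
    · refine ⟨pG hq hK 4 (by decide) t, st_pG hq hK ρ _ _, ?_⟩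
      rw [eg, Subgroup.coe_subtype, pG_val]
      simp [L30, p30, g30, e6m1, e6m6]
      rfl
    · refine ⟨pG hq hK 21 (by decide) t, st_pG hq hK ρ _ _, ?_⟩
      rw [eg, Subgroup.coe_subtype, pG_val]
      simp [L30, p30, g30, e6p3, e6p5]
      rfl
    · refine ⟨pG hq hK 8 (by decide) t, st_pG hq hK ρ _ _, ?_⟩
      rw [eg, Subgroup.coe_subtype, pG_val]
      simp [L30, p30, g30, e6m3, e6m5]
      rfl

end Cfsg.Agent.TwE6Deg
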