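import Cfsg.Agent.TwE6Deg.Orbit

/-!
# All non-trivial characters of the radical of ²E₆(q) when the slice has multiplicity one (owner: helper35)
-/

set_option autoImplicit false
set_option linter.unusedSectionVars false
set_option linter.unusedSimpArgs false
set_option maxHeartbeats 1000000

namespace Cfsg.Agent.TwE6Deg

open Cfsg.Lie Cfsg.Agent.ChevGrp Cfsg.Agent.ChevTw

variable {K : Type*} [Field K] [Fintype K] {q : ℕ} (hq : IsPrimePow q) (hK : Fintype.card K = q ^ 2)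

local notation "σ" => frobE6 hq hK

variable {n : (Fin 20 → K) → ℕ}

/-- An element with non-zero trace. -/
theorem exists_trace_ne : ∃ y : K, y + σ y ≠ 0 := by
  by_contra h
  push Not at h
  have h1 : (1 : K) + 1 = 0 := by simpa using h 1
  have hfix : ∀ y : K, σ y = y := fun y => by linear_combination h y - y * h1
  have hc := card_FqF hq hK
  rw [show FqF hq hK = Finset.univ from Finset.eq_univ_of_forall fun y => (mem_FqF hq hK).2 (hfix y),
    Finset.card_univ, hK] at hc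
  nlinarith [hq.one_lt]

/-- An element with non-zero trace after multiplication. -/
theorem exists_trace_mul {x : K} (hx : x ≠ 0) : ∃ t : K, t * x + σ (t * x) ≠ 0 := by
  obtain ⟨y, hy⟩ := exists_trace_ne hq hK
  exact ⟨y / x, by rwa [div_mul_cancel₀ _ hx]⟩

/-- A slice of multiplicity one carries only the weight vector. -/
theorem conc_of (hn : Mult hq hK n) (h1 : sliceN hq hK n = 1) : Conc hq hK n := by
  classical
  intro v hv hk hne
  have uniq : ∀ w ∈ Md hq hK, key w = Pi.single 0 1 → n w = n v → w = v := by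
    intro w hw hkw hnw
    by_contra hwv
    have hsub : ({w, v} : Finset (Fin 20 → K)) ⊆ (MdF hq hK).filter (fun v => key v = Pi.single 0 1) := by
      intro x hx
      simp only [Finset.mem_insert, Finset.mem_singleton] at hx
      rcases hx with rfl | rfl <;> simp [mem_MdF, *]
    have hle := Finset.sum_le_sum_of_subset (f := n) hsub
    rw [Finset.sum_pair hwv] at hle
    change n w + n v ≤ sliceN hq hK n at hle
    omega
  have fixed : ∀ (e : Fin 30) (t : K), Ok hq hK e t → key (lapp hq hK tgt e t v) = key v → ∀ k,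
      lapp hq hK tgt e t v k = v k := fun e t ht' hke k =>
    congrFun (uniq _ (tgt_mem hq hK ht' hv) (hke.trans hk) (hn.move e t ht' v hv)) k
  obtain ⟨v0, v1, v2, v3, v8, v10, v12⟩ := key_ext.1 hk
  obtain ⟨p9, p11, p13, p15, p17, p19⟩ := md_pair hq hK hv
  simp at v0 v1 v2 v3 v8 v10 v12
  have v9 : v 9 = 0 := by rw [p9, v8, map_zero]
  have v11 : v 11 = 0 := by rw [p11, v10, map_zero, neg_zero]
  have v13 : v 13 = 0 := by rw [p13, v12, map_zero, neg_zero]
  have v5 : v 5 = 0 := by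
    have := fixed 25 1 (ok_pair hq hK (by decide) _)
      (by funext i; fin_cases i <;> simp [key, lapp, app, tgt, p30, g30, v3, v10, v11, v12, v13]) 14
    simpa [lapp, app, tgt, p30, g30] using this
  have v6 : v 6 = 0 := by
    have := fixed 21 1 (ok_pair hq hK (by decide) _)
      (by funext i; fin_cases i <;> simp [key, lapp, app, tgt, p30, g30, v2, v8, v9, v12, v13]) 18
    simpa [lapp, app, tgt, p30, g30] using this
  have v4 : v 4 = 0 := by
    have := fixed 4 1 (ok_pair hq hK (by decide) _)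
      (by funext i; fin_cases i <;> simp [key, lapp, app, tgt, p30, g30, v2, v8, v9, v12, v13]) 14
    simpa [lapp, app, tgt, p30, g30] using this
  have v16 : v 16 = 0 := by
    have := fixed 16 1 (ok_pair hq hK (by decide) _)
      (by funext i; fin_cases i <;> simp [key, lapp, app, tgt, p30, g30, v2, v8, v9, v12, v13]) 14
    simpa [lapp, app, tgt, p30, g30] using this
  have v18 : v 18 = 0 := by
    have := fixed 25 1 (ok_pair hq hK (by decide) _)
      (by funext i; fin_cases i <;> simp [key, lapp, app, tgt, p30, g30, v3, v10, v11, v12, v13]) 16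
    simpa [lapp, app, tgt, p30, g30] using this
  have v14 : v 14 = 0 := by
    have := fixed 8 1 (ok_pair hq hK (by decide) _)
      (by funext i; fin_cases i <;> simp [key, lapp, app, tgt, p30, g30, v1, v8, v9, v10, v11]) 16
    simpa [lapp, app, tgt, p30, g30] using this
  have v7 : v 7 = 0 := by
    have := fixed 18 1 (fun _ => map_one _)
      (by funext i; fin_cases i <;> simp [key, lapp, app, tgt, p30, g30, v1, v4, v5, v14]) 6
    simpa [lapp, app, tgt, p30, g30] using this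
  funext i
  fin_cases i <;> simp [v0, v1, v2, v3, v4, v5, v6, v7, v8, v9, v10, v11, v12, v13, v14, v16, v18, p15, p17, p19]

/-- The long coordinates vanish. -/
def LongZero (v : Fin 20 → K) : Prop :=
  v 0 = 0 ∧ v 1 = 0 ∧ v 2 = 0 ∧ v 3 = 0 ∧ v 4 = 0 ∧ v 5 = 0 ∧ v 6 = 0 ∧ v 7 = 0

theorem short_zero (hn : Mult hq hK n) (hc : Conc hq hK n) {v : Fin 20 → K} (hv : v ∈ Md hq hK) (hl : LongZero v)
    (hne : n v ≠ 0) : v 8 = 0 ∧ v 10 = 0 ∧ v 12 = 0 := by
  obtain ⟨v0, v1, v2, v3, v4, v5, v6, v7⟩ := hl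
  obtain ⟨p9, p11, p13, p15, p17, p19⟩ := md_pair hq hK hv
  have get : ∀ (e : Fin 30) (t : K), p30 e ≠ e → lapp hq hK tgt e t v 0 ≠ 0 → Rel (lapp hq hK tgt e t v) :=
    fun e t he h0 => rel_of hq hK hn hc (tgt_mem hq hK (ok_pair hq hK he t) hv) h0
      (by rw [hn.move e t (ok_pair hq hK he t) v hv]; exact hne)
  refine ⟨?_, ?_, ?_⟩
  · by_contra h
    obtain ⟨t, ht'⟩ := exists_trace_mul hq hK h
    rw [map_mul, ← p9] at ht'
    obtain ⟨r, -⟩ := get 19 t (by decide) (by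
      simp [lapp, app, tgt, p30, g30, v0, v4]
      exact fun e => ht' (by linear_combination e))
    simp [lapp, app, tgt, p30, g30, v1, v2, v4, p9, h] at r
  · by_contra h
    obtain ⟨t, ht'⟩ := exists_trace_mul hq hK (show σ (v 10) ≠ 0 from (map_ne_zero _).2 h)
    rw [map_mul, sig2 hq hK] at ht'
    obtain ⟨-, r, -⟩ := get 27 t (by decide) (by
      simp [lapp, app, tgt, p30, g30, v0, v5, p11]
      exact fun e => ht' (by linear_combination e))
    simp [lapp, app, tgt, p30, g30, v1, v3, v5, p11, h] at r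
  · by_contra h
    obtain ⟨t, ht'⟩ := exists_trace_mul hq hK (show σ (v 12) ≠ 0 from (map_ne_zero _).2 h)
    rw [map_mul, sig2 hq hK] at ht'
    obtain ⟨-, -, r, -⟩ := get 28 t (by decide) (by
      simp [lapp, app, tgt, p30, g30, v0, v6, p13]
      exact fun e => ht' (by linear_combination e))
    simp [lapp, app, tgt, p30, g30, v2, v3, v6, p13, h] at r

/-- A character without long coordinates is trivial. -/
theorem long_zero (hn : Mult hq hK n) (hc : Conc hq hK n) {v : Fin 20 → K} (hv : v ∈ Md hq hK) (hl : LongZero v)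
    (hne : n v ≠ 0) : v = 0 := by
  obtain ⟨a8, a10, a12⟩ := short_zero hq hK hn hc hv hl hne
  obtain ⟨v0, v1, v2, v3, v4, v5, v6, v7⟩ := hl
  obtain ⟨p9, p11, p13, p15, p17, p19⟩ := md_pair hq hK hv
  have next' : ∀ e : Fin 30, p30 e = e → LongZero (lapp hq hK tgt e 1 v) →
      lapp hq hK tgt e 1 v 8 = 0 ∧ lapp hq hK tgt e 1 v 10 = 0 ∧ lapp hq hK tgt e 1 v 12 = 0 := fun e _ hl' =>
    short_zero hq hK hn hc (tgt_mem hq hK (fun _ => map_one _) hv) hl'
      (by rw [hn.move e 1 (fun _ => map_one _) v hv]; exact hne)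
  have a16 : v 16 = 0 := by
    have := (next' 23 (by decide) (by simp [LongZero, lapp, app, tgt, p30, g30, *])).2.1
    simpa [lapp, app, tgt, p30, g30, a10] using this
  have a18 : v 18 = 0 := by
    have := (next' 29 (by decide) (by simp [LongZero, lapp, app, tgt, p30, g30, *])).1
    simpa [lapp, app, tgt, p30, g30, a8] using this
  have a14 : v 14 = 0 := by
    have := (next' 18 (by decide) (by simp [LongZero, lapp, app, tgt, p30, g30, *])).2.2
    simpa [lapp, app, tgt, p30, g30, a12] using this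
  funext i
  fin_cases i <;> simp [*]

section Moves

/-- A bijection of the characters preserving multiplicities. -/
def IsMove (n : (Fin 20 → K) → ℕ) (g : (Fin 20 → K) → Fin 20 → K) : Prop :=
  ∃ g' : (Fin 20 → K) → Fin 20 → K, ∀ v ∈ Md hq hK, g v ∈ Md hq hK ∧ g' v ∈ Md hq hK ∧ g' (g v) = v ∧ g (g' v) = v ∧ n (g v) = n v

theorem isMove_id : IsMove hq hK n id := ⟨id, fun _ hv => ⟨hv, hv, rfl, rfl, rfl⟩⟩

theorem isMove_comp {g h : (Fin 20 → K) → Fin 20 → K} (hg : IsMove hq hK n g) (hh : IsMove hq hK n h) :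
    IsMove hq hK n (g ∘ h) := by
  obtain ⟨g', hg⟩ := hg
  obtain ⟨h', hh⟩ := hh
  refine ⟨h' ∘ g', fun v hv => ?_⟩
  obtain ⟨a1, a2, a3, a4, a5⟩ := hg _ (hh v hv).1
  obtain ⟨b1, b2, b3, b4, b5⟩ := hg v hv
  obtain ⟨c1, c2, c3, c4, c5⟩ := hh _ b2
  refine ⟨a1, c2, ?_, ?_, ?_⟩
  · simp only [Function.comp, a3, (hh v hv).2.2.1]
  · simp only [Function.comp, c4, b4]
  · simp only [Function.comp, a5, (hh v hv).2.2.2.2]

theorem isMove_lapp (hn : Mult hq hK n) {e : Fin 30} {t : K} (ht' : Ok hq hK e t) :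
    IsMove hq hK n (lapp hq hK tgt e t) :=
  ⟨lapp hq hK tgt e (-t), fun v hv => ⟨tgt_mem hq hK ht' hv, tgt_mem hq hK (ok_neg hq hK ht') hv,
    tgt_neg hq hK e t v, tgt_neg' hq hK e t v, hn.move e t ht' v hv⟩⟩

/-- A monomial move. -/
noncomputable def mv (e f : Fin 30) : (Fin 20 → K) → Fin 20 → K :=
  lapp hq hK tgt e 1 ∘ lapp hq hK tgt f (-1) ∘ lapp hq hK tgt e 1

theorem isMove_mv (hn : Mult hq hK n) (e f : Fin 30) : IsMove hq hK n (mv hq hK e f) :=
  isMove_comp hq hK (isMove_lapp hq hK hn fun _ => map_one _)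
    (isMove_comp hq hK (isMove_lapp hq hK hn fun _ => by rw [map_neg, map_one])
      (isMove_lapp hq hK hn fun _ => map_one _))

theorem mv39 (v : Fin 20 → K) :
    mv hq hK 18 11 v 0 = v 1 ∧ mv hq hK 18 11 v 1 = -v 0 ∧ mv hq hK 18 11 v 2 = v 4 ∧
    mv hq hK 18 11 v 3 = v 5 ∧ mv hq hK 18 11 v 4 = -v 2 ∧ mv hq hK 18 11 v 5 = -v 3 ∧
    mv hq hK 18 11 v 6 = v 7 ∧ mv hq hK 18 11 v 7 = -v 6 := by
  simp [mv, lapp, app, tgt, p30, g30]

theorem mv44 (v : Fin 20 → K) :
    mv hq hK 23 6 v 0 = -v 2 ∧ mv hq hK 23 6 v 1 = -v 4 ∧ mv hq hK 23 6 v 2 = v 0 ∧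
    mv hq hK 23 6 v 3 = -v 6 ∧ mv hq hK 23 6 v 4 = v 1 ∧ mv hq hK 23 6 v 5 = -v 7 ∧
    mv hq hK 23 6 v 6 = v 3 ∧ mv hq hK 23 6 v 7 = v 5 := by
  simp [mv, lapp, app, tgt, p30, g30]

theorem mv60 (v : Fin 20 → K) :
    mv hq hK 29 0 v 0 = -v 3 ∧ mv hq hK 29 0 v 1 = -v 5 ∧ mv hq hK 29 0 v 2 = -v 6 ∧
    mv hq hK 29 0 v 3 = v 0 ∧ mv hq hK 29 0 v 4 = -v 7 ∧ mv hq hK 29 0 v 5 = v 1 ∧
    mv hq hK 29 0 v 6 = v 2 ∧ mv hq hK 29 0 v 7 = v 4 := by
  simp [mv, lapp, app, tgt, p30, g30]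

open scoped Classical in
/-- A box of keys given by the coordinates forced to vanish. -/
noncomputable def box (Z : Fin 7 → Bool) : Fin 7 → Finset K := fun i =>
  if i = 0 then (FqF hq hK).erase 0 else if Z i then {0} else if i.val ≤ 3 then FqF hq hK else Finset.univ

theorem mem_box {Z : Fin 7 → Bool} {w : Fin 20 → K} (hw : w ∈ Md hq hK) :
    key w ∈ Fintype.piFinset (box hq hK Z) ↔ w 0 ≠ 0 ∧ (Z 1 = true → w 1 = 0) ∧ (Z 2 = true → w 2 = 0) ∧
      (Z 3 = true → w 3 = 0) ∧ (Z 4 = true → w 8 = 0) ∧ (Z 5 = true → w 10 = 0) ∧ (Z 6 = true → w 12 = 0) := by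
  classical
  obtain ⟨a, b, c, d⟩ := md_long hq hK hw
  simp only [Fintype.mem_piFinset, Fin.forall_fin_succ, Fin.forall_fin_zero_pi, IsEmpty.forall_iff, box, key]
  cases h1 : Z 1 <;> cases h2 : Z 2 <;> cases h3 : Z 3 <;> cases h4 : Z 4 <;> cases h5 : Z 5 <;> cases h6 : Z 6 <;>
    simp [mem_FqF, a, b, c, d, Fin.ext_iff, h1, h2, h3, h4, h5, h6]

open scoped Classical in
/-- The indicator of a proposition times a number. -/
noncomputable def ind (P : Prop) (a : ℕ) : ℕ := if P then a else 0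

open scoped Classical in
/-- A cell. -/
theorem cell_sum (hn : Mult hq hK n) (h1 : sliceN hq hK n = 1) {g : (Fin 20 → K) → Fin 20 → K}
    (hg : IsMove hq hK n g) (Cell Cond : (Fin 20 → K) → Prop) (Z : Fin 7 → Bool)
    (h : ∀ v, Cell v ↔ Cond (g v))
    (hc : ∀ w ∈ Md hq hK, (w 0 ≠ 0 → Rel w) → ((Cond w ↔ key w ∈ Fintype.piFinset (box hq hK Z)))) :
    ∑ v ∈ MdF hq hK, ind (Cell v) (n v) = ∏ i, (box hq hK Z i).card := by
  obtain ⟨g', hg⟩ := hg
  simp only [ind]
  rw [Finset.sum_nbij' (t := MdF hq hK) (g := fun w => if Cond w then n w else 0) g g'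
    (fun v hv => (mem_MdF hq hK).2 (hg v ((mem_MdF hq hK).1 hv)).1)
    (fun v hv => (mem_MdF hq hK).2 (hg v ((mem_MdF hq hK).1 hv)).2.1)
    (fun v hv => (hg v ((mem_MdF hq hK).1 hv)).2.2.1) (fun v hv => (hg v ((mem_MdF hq hK).1 hv)).2.2.2.1)
    (fun v hv => by rw [(hg v ((mem_MdF hq hK).1 hv)).2.2.2.2]; simp only [h])]
  calc ∑ w ∈ MdF hq hK, (if Cond w then n w else 0)
      = ∑ w ∈ MdF hq hK, (if key w ∈ Fintype.piFinset (box hq hK Z) then n w else 0) := by
        refine Finset.sum_congr rfl fun w hw => ?_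
        rcases eq_or_ne (n w) 0 with h0 | h0
        · simp [h0]
        · simp only [hc w ((mem_MdF hq hK).1 hw) fun h' =>
            rel_of hq hK hn (conc_of hq hK hn h1) ((mem_MdF hq hK).1 hw) h' h0]
    _ = ∏ i, (box hq hK Z i).card := by
        rw [← Finset.sum_filter, box_sum hq hK hn, h1, mul_one]
        · intro a ha
          simp [box, mem_FqF] at ha
          exact ⟨ha.2, ha.1⟩
        · intro i hi a ha
          rcases hi with rfl | rfl | rfl <;> simp [box, Fin.ext_iff] at ha <;> split_ifs at ha <;>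
            simp_all [mem_FqF]

set_option maxHeartbeats 2000000 in
/-- The total multiplicity. -/
theorem total (hn : Mult hq hK n) (h1 : sliceN hq hK n = 1) :
    ∑ v ∈ MdF hq hK, n v = n 0 + (q - 1) * (q ^ 9 + q ^ 8 + q ^ 6 + q ^ 5 + q ^ 4 + q ^ 3 + q + 1) := by
  classical
  set m1 := mv hq hK 18 11
  set m2 := mv hq hK 23 6
  set m3 := mv hq hK 29 0
  have i1 : IsMove hq hK n m1 := isMove_mv hq hK hn _ _
  have i2 : IsMove hq hK n m2 := isMove_mv hq hK hn _ _
  have i3 : IsMove hq hK n m3 := isMove_mv hq hK hn _ _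
  have P : ∀ w ∈ Md hq hK, w 9 = σ (w 8) ∧ w 11 = -σ (w 10) ∧ w 13 = -σ (w 12) := fun w hw =>
    ⟨(md_pair hq hK hw).1, (md_pair hq hK hw).2.1, (md_pair hq hK hw).2.2.1⟩
  have cnt : ∀ Z : Fin 7 → Bool, ∏ i, (box hq hK Z i).card = (q - 1) * (if Z 1 then 1 else q) *
      (if Z 2 then 1 else q) * (if Z 3 then 1 else q) * (if Z 4 then 1 else q ^ 2) * (if Z 5 then 1 else q ^ 2) *
      (if Z 6 then 1 else q ^ 2) := by
    intro Z
    rw [Fin.prod_univ_seven]
    have h0 : (0 : K) ∈ FqF hq hK := (mem_FqF hq hK).2 (map_zero _)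
    cases h1 : Z 1 <;> cases h2 : Z 2 <;> cases h3 : Z 3 <;> cases h4 : Z 4 <;> cases h5 : Z 5 <;> cases h6 : Z 6 <;>
      simp [box, card_FqF, Finset.card_erase_of_mem h0, hK, Fin.ext_iff, *]
  have s0 := cell_sum hq hK hn h1 (isMove_id hq hK) (fun v => v 0 ≠ 0) (fun w => w 0 ≠ 0)
    ![false, false, false, false, false, false, false] (fun v => Iff.rfl) (fun w hw _ => by simp [mem_box hq hK hw])
  have s1 := cell_sum hq hK hn h1 i1 (fun v => v 0 = 0 ∧ v 1 ≠ 0) (fun w => w 0 ≠ 0 ∧ w 1 = 0)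
    ![false, true, false, false, false, false, false]
    (fun v => by obtain ⟨a, b, -⟩ := mv39 hq hK v; simp [m1, a, b, and_comm])
    (fun w hw _ => by simp [mem_box hq hK hw])
  have s2 := cell_sum hq hK hn h1 i2 (fun v => v 0 = 0 ∧ v 1 = 0 ∧ v 2 ≠ 0)
    (fun w => w 0 ≠ 0 ∧ w 2 = 0 ∧ w 4 = 0) ![false, false, true, false, true, false, false]
    (fun v => by obtain ⟨a, -, c, -, e, -⟩ := mv44 hq hK v; simp [m2, a, c, e]; tauto)
    (fun w hw hr => by
      rw [mem_box hq hK hw]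
      constructor
      · rintro ⟨h0, a, b⟩
        obtain ⟨r4, -⟩ := hr h0
        have : w 8 = 0 := by simpa [a, b, (P w hw).1] using r4
        simp [*]
      · rintro ⟨h0, -, a', -, b', -, -⟩
        have a := a' rfl
        have b := b' rfl
        obtain ⟨r4, -⟩ := hr h0
        exact ⟨h0, a, by simpa [a, b, (P w hw).1, h0] using r4⟩)
  have s3 := cell_sum hq hK hn h1 i3 (fun v => v 0 = 0 ∧ v 1 = 0 ∧ v 2 = 0 ∧ v 3 ≠ 0)
    (fun w => w 0 ≠ 0 ∧ w 3 = 0 ∧ w 5 = 0 ∧ w 6 = 0) ![false, false, false, true, false, true, true]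
    (fun v => by obtain ⟨a, -, -, d, -, f, g, -⟩ := mv60 hq hK v; simp [m3, a, d, f, g]; tauto)
    (fun w hw hr => by
      rw [mem_box hq hK hw]
      obtain ⟨-, p11, p13⟩ := P w hw
      constructor
      · rintro ⟨h0, a, b, c⟩
        obtain ⟨-, r5, r6, -⟩ := hr h0
        have : w 10 = 0 := by simpa [a, b, p11] using r5
        have : w 12 = 0 := by simpa [a, c, p13] using r6
        simp [*]
      · rintro ⟨h0, -, -, a', -, b', c'⟩
        have a := a' rfl
        have b := b' rfl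
        have c := c' rfl
        obtain ⟨-, r5, r6, -⟩ := hr h0
        exact ⟨h0, a, by simpa [a, b, p11, h0] using r5, by simpa [a, c, p13, h0] using r6⟩)
  have s4 := cell_sum hq hK hn h1 (isMove_comp hq hK i2 i1)
    (fun v => v 0 = 0 ∧ v 1 = 0 ∧ v 2 = 0 ∧ v 3 = 0 ∧ v 4 ≠ 0)
    (fun w => w 0 ≠ 0 ∧ w 4 = 0 ∧ w 2 = 0 ∧ w 1 = 0 ∧ w 7 = 0) ![false, true, true, false, true, false, false]
    (fun v => by
      obtain ⟨a, b, c, d, e, f, g, h⟩ := mv39 hq hK v
      obtain ⟨a', b', c', d', e', f', g', h'⟩ := mv44 hq hK (m1 v)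
      simp [m1, m2, a, b, c, d, e, f, g, h] at *
      simp [a', b', c', d', e', f', g', h']
      tauto)
    (fun w hw hr => by
      rw [mem_box hq hK hw]
      obtain ⟨p9, -⟩ := P w hw
      constructor
      · rintro ⟨h0, a, b, c, d⟩
        obtain ⟨r4, -⟩ := hr h0
        have : w 8 = 0 := by simpa [a, b, c, p9] using r4
        simp [*]
      · rintro ⟨h0, a', b', -, c', -, -⟩
        have a := a' rfl
        have b := b' rfl
        have c := c' rfl
        obtain ⟨r4, -, -, -, -, -, -, -, -, r7⟩ := hr h0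
        exact ⟨h0, by simpa [a, b, c, p9, h0] using r4, b, a, by simpa [a, b, c, p9, h0] using r7⟩)
  have s5 := cell_sum hq hK hn h1 (isMove_comp hq hK i3 i1)
    (fun v => v 0 = 0 ∧ v 1 = 0 ∧ v 2 = 0 ∧ v 3 = 0 ∧ v 4 = 0 ∧ v 5 ≠ 0)
    (fun w => w 0 ≠ 0 ∧ w 5 = 0 ∧ w 3 = 0 ∧ w 7 = 0 ∧ w 1 = 0 ∧ w 6 = 0)
    ![false, true, false, true, false, true, true]
    (fun v => by
      obtain ⟨a, b, c, d, e, f, g, h⟩ := mv39 hq hK v
      obtain ⟨a', b', c', d', e', f', g', h'⟩ := mv60 hq hK (m1 v)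
      simp [m1, m3, a, b, c, d, e, f, g, h] at *
      simp [a', b', c', d', e', f', g', h']
      tauto)
    (fun w hw hr => by
      rw [mem_box hq hK hw]
      obtain ⟨-, p11, p13⟩ := P w hw
      constructor
      · rintro ⟨h0, a, b, c, d, e⟩
        obtain ⟨-, r5, r6, -⟩ := hr h0
        have : w 10 = 0 := by simpa [a, b, d, p11] using r5
        have : w 12 = 0 := by simpa [b, d, e, p13] using r6
        simp [*]
      · rintro ⟨h0, a', -, b', -, c', d'⟩
        have a := a' rfl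
        have b := b' rfl
        have c := c' rfl
        have d := d' rfl
        obtain ⟨-, r5, r6, -, -, -, -, -, -, r7⟩ := hr h0
        exact ⟨h0, by simpa [a, b, c, p11, h0] using r5, b, by simpa [a, b, c, d, p11, p13, h0] using r7, a,
          by simpa [b, d, p13, h0] using r6⟩)
  have s6 := cell_sum hq hK hn h1 (isMove_comp hq hK i3 i2)
    (fun v => v 0 = 0 ∧ v 1 = 0 ∧ v 2 = 0 ∧ v 3 = 0 ∧ v 4 = 0 ∧ v 5 = 0 ∧ v 6 ≠ 0)
    (fun w => w 0 ≠ 0 ∧ w 6 = 0 ∧ w 7 = 0 ∧ w 3 = 0 ∧ w 2 = 0 ∧ w 5 = 0 ∧ w 4 = 0)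
    ![false, false, true, true, true, true, true]
    (fun v => by
      obtain ⟨a, b, c, d, e, f, g, h⟩ := mv44 hq hK v
      obtain ⟨a', b', c', d', e', f', g', h'⟩ := mv60 hq hK (m2 v)
      simp [m2, m3, a, b, c, d, e, f, g, h] at *
      simp [a', b', c', d', e', f', g', h']
      tauto)
    (fun w hw hr => by
      rw [mem_box hq hK hw]
      obtain ⟨p9, p11, p13⟩ := P w hw
      constructor
      · rintro ⟨h0, a, b, c, d, e, f⟩
        obtain ⟨r4, r5, r6, -⟩ := hr h0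
        have : w 8 = 0 := by simpa [d, f, p9] using r4
        have : w 10 = 0 := by simpa [c, e, p11] using r5
        have : w 12 = 0 := by simpa [a, c, d, p13] using r6
        simp [*]
      · rintro ⟨h0, -, b', c', d', e', f'⟩
        have b := b' rfl
        have c := c' rfl
        have d := d' rfl
        have e := e' rfl
        have f := f' rfl
        obtain ⟨r4, r5, r6, -, -, -, -, -, -, r7⟩ := hr h0
        exact ⟨h0, by simpa [b, c, f, p13, h0] using r6, by simpa [b, c, d, e, f, p9, p11, p13, h0] using r7, c, b,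
          by simpa [c, e, p11, h0] using r5, by simpa [b, d, p9, h0] using r4⟩)
  have s7 := cell_sum hq hK hn h1 (isMove_comp hq hK i3 (isMove_comp hq hK i2 i1))
    (fun v => v 0 = 0 ∧ v 1 = 0 ∧ v 2 = 0 ∧ v 3 = 0 ∧ v 4 = 0 ∧ v 5 = 0 ∧ v 6 = 0 ∧ v 7 ≠ 0)
    (fun w => w 0 ≠ 0 ∧ w 1 = 0 ∧ w 2 = 0 ∧ w 3 = 0 ∧ w 4 = 0 ∧ w 5 = 0 ∧ w 6 = 0 ∧ w 7 = 0)
    ![false, true, true, true, true, true, true]
    (fun v => by
      obtain ⟨a, b, c, d, e, f, g, h⟩ := mv39 hq hK v
      obtain ⟨a', b', c', d', e', f', g', h'⟩ := mv44 hq hK (m1 v)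
      obtain ⟨a'', b'', c'', d'', e'', f'', g'', h''⟩ := mv60 hq hK (m2 (m1 v))
      simp [m1, m2, m3, a, b, c, d, e, f, g, h] at *
      simp [a', b', c', d', e', f', g', h'] at *
      simp [a'', b'', c'', d'', e'', f'', g'', h'']
      tauto)
    (fun w hw hr => by
      rw [mem_box hq hK hw]
      obtain ⟨p9, p11, p13⟩ := P w hw
      constructor
      · rintro ⟨h0, a, b, c, d, e, f, g⟩
        obtain ⟨r4, r5, r6, -⟩ := hr h0
        have : w 8 = 0 := by simpa [a, d, p9] using r4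
        have : w 10 = 0 := by simpa [a, e, p11] using r5
        have : w 12 = 0 := by simpa [b, f, p13] using r6
        simp [*]
      · rintro ⟨h0, a', b', c', d', e', f'⟩
        have a := a' rfl
        have b := b' rfl
        have c := c' rfl
        have d := d' rfl
        have e := e' rfl
        have f := f' rfl
        obtain ⟨r4, r5, r6, -, -, -, -, -, -, r7⟩ := hr h0
        exact ⟨h0, a, b, c, by simpa [a, d, p9, h0] using r4, by simpa [a, e, p11, h0] using r5,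
          by simpa [b, f, p13, h0] using r6, by simpa [a, b, c, d, e, f, p9, p11, p13, h0] using r7⟩)
  have split : ∀ v ∈ MdF hq hK, n v = (if v = 0 then n v else 0) + ind (v 0 ≠ 0) (n v) +
      ind (v 0 = 0 ∧ v 1 ≠ 0) (n v) + ind (v 0 = 0 ∧ v 1 = 0 ∧ v 2 ≠ 0) (n v) +
      ind (v 0 = 0 ∧ v 1 = 0 ∧ v 2 = 0 ∧ v 3 ≠ 0) (n v) +
      ind (v 0 = 0 ∧ v 1 = 0 ∧ v 2 = 0 ∧ v 3 = 0 ∧ v 4 ≠ 0) (n v) +
      ind (v 0 = 0 ∧ v 1 = 0 ∧ v 2 = 0 ∧ v 3 = 0 ∧ v 4 = 0 ∧ v 5 ≠ 0) (n v) +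
      ind (v 0 = 0 ∧ v 1 = 0 ∧ v 2 = 0 ∧ v 3 = 0 ∧ v 4 = 0 ∧ v 5 = 0 ∧ v 6 ≠ 0) (n v) +
      ind (v 0 = 0 ∧ v 1 = 0 ∧ v 2 = 0 ∧ v 3 = 0 ∧ v 4 = 0 ∧ v 5 = 0 ∧ v 6 = 0 ∧ v 7 ≠ 0) (n v) := by
    intro v hv
    by_cases hv0 : v = 0
    · subst hv0; simp [ind]
    by_cases hl : LongZero v
    · have : n v = 0 := by
        by_contra hne
        exact hv0 (long_zero hq hK hn (conc_of hq hK hn h1) ((mem_MdF hq hK).1 hv) hl hne)
      simp [this, ind]
    by_cases h0 : v 0 = 0 <;> by_cases e1 : v 1 = 0 <;> by_cases e2 : v 2 = 0 <;> by_cases e3 : v 3 = 0 <;>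
      by_cases e4 : v 4 = 0 <;> by_cases e5 : v 5 = 0 <;> by_cases e6 : v 6 = 0 <;> by_cases e7 : v 7 = 0 <;>
      simp [h0, e1, e2, e3, e4, e5, e6, e7, hv0, LongZero, ind] at hl ⊢
  rw [Finset.sum_congr rfl split]
  simp only [Finset.sum_add_distrib, s0, s1, s2, s3, s4, s5, s6, s7, cnt, Finset.sum_ite_eq',
    (mem_MdF hq hK).2 (zero_mem _), if_true]
  simp [mul_add]
  ring

end Moves

end Cfsg.Agent.TwE6Deg
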