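import Cfsg.Agent.TwE6Deg.Level

/-!
# The unitary chain on the fixed space of the radical of ²E₆(q) (owner: helper35)

If the root group of `60` acts non-trivially on the fixed space of the radical, that space has dimension at least
`(q - 1) * (q ^ 4 + q ^ 2 + 1)`.
-/

set_option autoImplicit false
set_option linter.unusedSectionVars false
set_option linter.unusedSimpArgs false
set_option linter.style.setOption false

namespace Cfsg.Agent.TwE6Deg

open Cfsg.Lie Cfsg.Agent.ChevGrp Cfsg.Agent.ChevTw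
open Module (finrank)

variable {K : Type*} [Field K] [Fintype K] {q : ℕ} (hq : IsPrimePow q) (hK : Fintype.card K = q ^ 2)

local notation "σ" => frobE6 hq hK
local notation "GK" => GL chevE6.Idx K

/-- The trace to the fixed field. -/
noncomputable def trF : K →+ FqT hq hK :=
  AddMonoidHom.mk' (fun x => ⟨x + σ x, by show σ (x + σ x) = x + σ x; rw [map_add, sig2 hq hK, add_comm]⟩)
    fun a b => Subtype.ext (by simp [map_add]; ring)

theorem trF_apply (x : K) : (trF hq hK x : K) = x + σ x := rfl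

include hq hK in
/-- The norm is surjective. -/
theorem exists_norm {d : K} (hd : σ d = d) : ∃ t : K, t * σ t = d := by
  rcases eq_or_ne d 0 with rfl | h0
  · exact ⟨0, by simp⟩
  obtain ⟨g, hg⟩ := IsCyclic.exists_monoid_generator (α := Kˣ)
  obtain ⟨k, hk⟩ := Submonoid.mem_powers_iff _ _ |>.1 (hg (Units.mk0 d h0))
  have hord : orderOf g = q ^ 2 - 1 := by
    rw [orderOf_eq_card_of_forall_mem_powers hg, Nat.card_units, Nat.card_eq_fintype_card, hK]
  have h1 : (g ^ k) ^ (q - 1) = 1 := by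
    rw [hk, ← units_pow_iff hq.one_lt]
    exact Units.ext (by rw [Units.val_pow_eq_pow_val, ← frobE6_apply hq hK]; exact hd)
  rw [← pow_mul] at h1
  have h2 := orderOf_dvd_of_pow_eq_one h1
  rw [hord, show q ^ 2 - 1 = (q + 1) * (q - 1) by simpa using Nat.sq_sub_sq q 1] at h2
  obtain ⟨m, rfl⟩ := Nat.dvd_of_mul_dvd_mul_right (Nat.sub_pos_of_lt hq.one_lt) h2
  refine ⟨((g ^ m : Kˣ) : K), ?_⟩
  rw [frobE6_apply, ← Units.val_pow_eq_pow_val, ← Units.val_mul, ← pow_succ', ← pow_mul, mul_comm, hk,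
    Units.val_mk0]

theorem pG_add (e : Fin 30) (h : p30 e ≠ e) (t u : K) :
    pG hq hK e h (t + u) = pG hq hK e h t * pG hq hK e h u := by
  refine Subtype.ext ?_
  obtain ⟨k1, k2, k3⟩ := (dataPair.2 e).resolve_left h
  have hc := xcomm (data30 e).1 (data30 (p30 e)).1 k1 k2 k3 u ((g30 e : K) * σ t)
  rw [Subgroup.coe_mul, pG_val, pG_val, pG_val, map_add, mul_add, ← xadd (data30 e).1, ← xadd (data30 (p30 e)).1]
  simp only [mul_assoc]
  rw [← mul_assoc (X K (L30 e) u) (X K (L30 (p30 e)) ((g30 e : K) * σ t)), hc.eq, mul_assoc]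

theorem pG_zero (e : Fin 30) (h : p30 e ≠ e) : pG hq hK e h 0 = 1 := by
  refine Subtype.ext ?_
  rw [pG_val, map_zero, mul_zero, xzero (data30 e).1, xzero (data30 (p30 e)).1, mul_one]
  rfl

theorem pG_comm {e f : Fin 30} (he : p30 e ≠ e) (hf : p30 f ≠ f)
    (h : Nul (L30 e) (L30 f) ∧ Nul (L30 e) (L30 (p30 f)) ∧ Nul (L30 (p30 e)) (L30 f) ∧
      Nul (L30 (p30 e)) (L30 (p30 f))) (t u : K) : Commute (pG hq hK e he t) (pG hq hK f hf u) := by
  refine Subtype.ext ?_
  rw [Subgroup.coe_mul, Subgroup.coe_mul, pG_val, pG_val]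
  exact (((nul_comm h.1 _ _).mul_right (nul_comm h.2.1 _ _)).mul_left
    ((nul_comm h.2.2.1 _ _).mul_right (nul_comm h.2.2.2 _ _))).eq

theorem pG_zEl {e : Fin 30} (he : p30 e ≠ e) {r : ℕ} (hr : r ∈ ([46, 70, 71, 39, 44, 60] : List ℕ))
    (h : Nul (L30 e) r ∧ Nul (L30 (p30 e)) r) (t : K) (a : FqT hq hK) :
    Commute (pG hq hK e he t) (zEl hq hK hr a) := by
  refine Subtype.ext ?_
  rw [Subgroup.coe_mul, Subgroup.coe_mul, pG_val]
  exact ((nul_comm h.1 _ _).mul_left (nul_comm h.2 _ _)).eq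

theorem zEl_comm {r s : ℕ} (hr : r ∈ ([46, 70, 71, 39, 44, 60] : List ℕ))
    (hs : s ∈ ([46, 70, 71, 39, 44, 60] : List ℕ)) (h : Nul r s) (a b : FqT hq hK) :
    Commute (zEl hq hK hr a) (zEl hq hK hs b) :=
  Subtype.ext (nul_comm h _ _).eq

/-- The abelian group of the second level. -/
noncomputable def al2 (p : K × K) : ↥(twistedE6 K q) :=
  pG hq hK 28 (by decide) p.1 * pG hq hK 27 (by decide) p.2

/-- The translations of the second level. -/
noncomputable def bl2 (p : K × K) : ↥(twistedE6 K q) :=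
  pG hq hK 25 (by decide) p.1 * pG hq hK 26 (by decide) p.2

theorem al2_zero : al2 hq hK 0 = 1 := by simp [al2, pG_zero]

theorem al2_add (a b : K × K) : al2 hq hK (a + b) = al2 hq hK a * al2 hq hK b := by
  have h := pG_comm hq hK (e := 28) (f := 27) (by decide) (by decide) (by decide +kernel) b.1 a.2
  simp only [al2, Prod.fst_add, Prod.snd_add, pG_add]
  simp only [mul_assoc]
  rw [← mul_assoc (pG hq hK 28 (by decide) b.1), h.eq, mul_assoc]

/-- The pairing of the second level. -/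
noncomputable def om2 : K × K →+ K × K →+ FqT hq hK :=
  AddMonoidHom.mk' (fun b => AddMonoidHom.mk' (fun a => trF hq hK (σ b.2 * a.2) - trF hq hK (σ b.1 * a.1))
    fun a a' => by simp only [Prod.fst_add, Prod.snd_add, mul_add, map_add]; abel)
    fun b b' => by
      refine AddMonoidHom.ext fun a => ?_
      simp only [AddMonoidHom.mk'_apply, AddMonoidHom.add_apply, Prod.fst_add, Prod.snd_add, map_add, add_mul]
      abel

/-- The pairing of the third level. -/
noncomputable def om3 : K →+ K →+ FqT hq hK :=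
  AddMonoidHom.mk' (fun b => AddMonoidHom.mk' (fun a => -trF hq hK (σ b * a))
    fun a a' => by simp only [mul_add, map_add]; abel)
    fun b b' => by
      refine AddMonoidHom.ext fun a => ?_
      simp only [AddMonoidHom.mk'_apply, AddMonoidHom.add_apply, map_add, add_mul]
      abel

theorem trF_nondeg {b : K} (h : ∀ a, trF hq hK (σ b * a) = 0) : b = 0 := by
  by_contra hb
  obtain ⟨t, ht'⟩ := exists_trace_mul hq hK (show σ b ≠ 0 from (map_ne_zero _).2 hb)
  refine ht' ?_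
  have := congrArg Subtype.val (h t)
  rw [trF_apply, mul_comm] at this
  exact this

theorem trF_smul (r : FqT hq hK) (x : K) : trF hq hK ((r : K) * x) = r * trF hq hK x := by
  refine Subtype.ext ?_
  show _ = (r : K) * (x + σ x)
  rw [trF_apply, map_mul, fq_apply hq hK r, mul_add]

theorem rel2 (b a : K × K) : al2 hq hK a * bl2 hq hK b =
    bl2 hq hK b * (al2 hq hK a * zEl hq hK (r := 60) (by simp) (om2 hq hK b a)) := by
  set Z : FqT hq hK → ↥(twistedE6 K q) := zEl hq hK (r := 60) (by simp)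
  have e1 : ∀ t x : K, pG hq hK 25 (by decide) t * pG hq hK 28 (by decide) x * (pG hq hK 25 (by decide) t)⁻¹ =
      pG hq hK 28 (by decide) x * Z (trF hq hK (σ t * x)) := fun t x => by
    refine Subtype.ext ?_
    simp only [Subgroup.coe_mul, Subgroup.coe_inv, pG_val, Z, zEl, trF_apply]
    refine (pair_conj_pair (r := L30 25) (r' := L30 (p30 25)) (a := L30 28) (a' := L30 (p30 28)) (d := 60)
      (C := 1) (C' := -1) (by decide +kernel) (by decide +kernel) (by decide +kernel) (by decide +kernel)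
      (by decide +kernel) (by decide +kernel) _ _ _ _).trans ?_
    congr 2
    simp [g30, map_mul, sig2 hq hK]
  have e2 : ∀ s x : K, pG hq hK 26 (by decide) s * pG hq hK 27 (by decide) x * (pG hq hK 26 (by decide) s)⁻¹ =
      pG hq hK 27 (by decide) x * Z (-trF hq hK (σ s * x)) := fun s x => by
    refine Subtype.ext ?_
    simp only [Subgroup.coe_mul, Subgroup.coe_inv, pG_val, Z, zEl, NegMemClass.coe_neg, trF_apply]
    refine (pair_conj_pair (r := L30 26) (r' := L30 (p30 26)) (a := L30 27) (a' := L30 (p30 27)) (d := 60)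
      (C := 1) (C' := -1) (by decide +kernel) (by decide +kernel) (by decide +kernel) (by decide +kernel)
      (by decide +kernel) (by decide +kernel) _ _ _ _).trans ?_
    congr 2
    simp [g30, map_mul, sig2 hq hK]
    ring
  obtain ⟨t, s⟩ := b
  obtain ⟨x, y⟩ := a
  set b25 := pG hq hK 25 (by decide) t
  set b26 := pG hq hK 26 (by decide) s
  set a28 := pG hq hK 28 (by decide) x
  set a27 := pG hq hK 27 (by decide) y
  have c26 : Commute b26 a28 := pG_comm hq hK _ _ (by decide +kernel) _ _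
  have c25 : Commute b25 a27 := pG_comm hq hK _ _ (by decide +kernel) _ _
  have z25 : ∀ w, Commute b25 (Z w) := fun w => pG_zEl hq hK _ _ (by decide +kernel) _ _
  have z26 : ∀ w, Commute b26 (Z w) := fun w => pG_zEl hq hK _ _ (by decide +kernel) _ _
  have z27 : ∀ w, Commute a27 (Z w) := fun w => pG_zEl hq hK _ _ (by decide +kernel) _ _
  set w1 := trF hq hK (σ t * x)
  set w2 := trF hq hK (σ s * y)
  have f1 : b25 * a28 = a28 * Z w1 * b25 := mul_inv_eq_iff_eq_mul.1 (e1 t x)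
  have f2 : b26 * a27 = a27 * Z (-w2) * b26 := mul_inv_eq_iff_eq_mul.1 (e2 s y)
  have key : b25 * b26 * (a28 * a27) = a28 * a27 * (b25 * b26) * (Z w1 * Z (-w2)) :=
    calc b25 * b26 * (a28 * a27) = b25 * (b26 * a28) * a27 := by simp only [mul_assoc]
      _ = b25 * a28 * (b26 * a27) := by rw [c26.eq]; simp only [mul_assoc]
      _ = a28 * Z w1 * b25 * (a27 * Z (-w2) * b26) := by rw [f1, f2]
      _ = a28 * (Z w1 * (b25 * a27)) * (Z (-w2) * b26) := by simp only [mul_assoc]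
      _ = a28 * (Z w1 * (a27 * b25)) * (b26 * Z (-w2)) := by rw [c25.eq, (z26 _).eq]
      _ = a28 * ((Z w1 * a27) * (b25 * b26)) * Z (-w2) := by simp only [mul_assoc]
      _ = a28 * ((a27 * Z w1) * (b25 * b26)) * Z (-w2) := by rw [(z27 _).eq]
      _ = a28 * a27 * (Z w1 * (b25 * b26)) * Z (-w2) := by simp only [mul_assoc]
      _ = a28 * a27 * ((b25 * b26) * Z w1) * Z (-w2) := by rw [((z25 w1).mul_left (z26 w1)).eq]
      _ = _ := by simp only [mul_assoc]
  show a28 * a27 * (b25 * b26) = b25 * b26 * (a28 * a27 * Z (w2 - w1))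
  rw [← mul_assoc (b25 * b26), key, mul_assoc _ (Z w1 * Z (-w2)), ← zEl_add, ← zEl_add,
    show w1 + -w2 + (w2 - w1) = 0 by abel, zEl_zero, mul_one]

theorem rel3 (b a : K) : pG hq hK 22 (by decide) a * pG hq hK 21 (by decide) b =
    pG hq hK 21 (by decide) b * (pG hq hK 22 (by decide) a * zEl hq hK (r := 44) (by simp) (om3 hq hK b a)) := by
  have e : pG hq hK 21 (by decide) b * pG hq hK 22 (by decide) a * (pG hq hK 21 (by decide) b)⁻¹ =
      pG hq hK 22 (by decide) a * zEl hq hK (r := 44) (by simp) (trF hq hK (σ b * a)) := by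
    refine Subtype.ext ?_
    simp only [Subgroup.coe_mul, Subgroup.coe_inv, pG_val, zEl, trF_apply]
    refine (pair_conj_pair (r := L30 21) (r' := L30 (p30 21)) (a := L30 22) (a' := L30 (p30 22)) (d := 44)
      (C := 1) (C' := -1) (by decide +kernel) (by decide +kernel) (by decide +kernel) (by decide +kernel)
      (by decide +kernel) (by decide +kernel) _ _ _ _).trans ?_
    congr 2
    simp [g30, map_mul, sig2 hq hK]
  have f := mul_inv_eq_iff_eq_mul.1 e
  show _ = _ * (_ * zEl hq hK (r := 44) (by simp) (-trF hq hK (σ b * a)))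
  rw [← mul_assoc, f, mul_assoc (pG hq hK 22 (by decide) a * _),
    (pG_zEl hq hK (e := 21) (by decide) (r := 44) (by simp) (by decide +kernel) _ _).eq, ← mul_assoc,
    mul_assoc (pG hq hK 22 (by decide) a), ← zEl_add, add_neg_cancel, zEl_zero, mul_one]

/-- The relation of a pair with the next long root group. -/
theorem rel_root {e f : Fin 30} (he : p30 e ≠ e) (hf : p30 f ≠ f) {s z : ℕ}
    (hs : s ∈ ([46, 70, 71, 39, 44, 60] : List ℕ)) (hz : z ∈ ([46, 70, 71, 39, 44, 60] : List ℕ))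
    (hdata : Nul (L30 e) (L30 (p30 e)) ∧ One (L30 e) s (L30 f) (-1) ∧ One (L30 (p30 e)) s (L30 (p30 f)) 1 ∧
      One (L30 (p30 e)) (L30 f) z 1 ∧ Nul (L30 f) (L30 (p30 f)) ∧ g30 e = 1 ∧
      (g30 f = -1 ∧ True)) (t : K) (a : FqT hq hK) :
    ∃ w : K, zEl hq hK hs a * pG hq hK e he t =
      pG hq hK e he t * (zEl hq hK hs a * pG hq hK f hf w *
        zEl hq hK hz (-(⟨t * σ t, by show σ _ = _; rw [map_mul, sig2 hq hK, mul_comm]; rfl⟩ : FqT hq hK) * a)) := by
  obtain ⟨h1, h2, h3, h4, h5, hge, hgf, -⟩ := hdata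
  refine ⟨t * a, ?_⟩
  set n : FqT hq hK := ⟨t * σ t, by show σ _ = _; rw [map_mul, sig2 hq hK, mul_comm]; rfl⟩
  have hconj : pG hq hK e he (-t) * zEl hq hK hs a * (pG hq hK e he (-t))⁻¹ =
      zEl hq hK hs a * pG hq hK f hf (t * a) * zEl hq hK hz (-n * a) := by
    refine Subtype.ext ?_
    simp only [Subgroup.coe_mul, Subgroup.coe_inv, pG_val, zEl]
    refine (pair_conj_root h1 h2 h3 h4 _ _ _).trans ?_
    simp only [NegMemClass.coe_neg, Subfield.coe_mul, hge, hgf, Int.cast_one, Int.cast_neg, one_mul, neg_mul,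
      map_neg, map_mul, fq_apply hq hK a, mul_neg, neg_neg]
    rw [← mul_assoc, mul_assoc (X K s (a : K)), ← (nul_comm h5 _ _).eq, ← mul_assoc]
    congr 3
    show σ t * (t * (a : K)) = t * σ t * (a : K)
    ring
  have hinv : (pG hq hK e he (-t))⁻¹ = pG hq hK e he t := by
    rw [inv_eq_iff_mul_eq_one, ← pG_add, neg_add_cancel, pG_zero]
  rw [hinv] at hconj
  rw [← hconj, ← hinv]
  group

variable {V : Type*} [AddCommGroup V] [Module ℂ V] [FiniteDimensional ℂ V]
  (ρ : Representation ℂ ↥(twistedE6 K q) V)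

theorem actsOn_of {A : Type*} [AddCommGroup A] {W : Submodule ℂ V} (f : A → ↥(twistedE6 K q))
    (h : ∀ a, f a ∈ St ρ W) (h0 : f 0 = 1) (hadd : ∀ a b, f (a + b) = f a * f b) :
    ActsOn (fun a => ρ (f a)) W :=
  ⟨fun a x hx => (h a x).2 hx, fun x _ => by simp [h0], fun a b x _ => by
    rw [hadd, rho_mul' ρ]⟩

/-- The fixed space of the radical and the root group of `60`. -/
noncomputable def fix60 : Submodule ℂ V :=
  fixQ hq hK ρ ⊓ eig (fun a => ρ (zEl hq hK (r := 60) (by simp) a)) 0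

/-- The fixed space of the radical and the root groups of `60` and `44`. -/
noncomputable def fix44 : Submodule ℂ V :=
  fix60 hq hK ρ ⊓ eig (fun a => ρ (zEl hq hK (r := 44) (by simp) a)) 0

theorem st60 {g : ↥(twistedE6 K q)} (hg : g ∈ St ρ (fixQ hq hK ρ))
    (h : ∀ a, ∃ a', zEl hq hK (r := 60) (by simp) a * g = g * zEl hq hK (r := 60) (by simp) a') :
    g ∈ St ρ (fix60 hq hK ρ) :=
  st_inf_fix ρ _ hg h

theorem st44 {g : ↥(twistedE6 K q)} (hg : g ∈ St ρ (fix60 hq hK ρ))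
    (h : ∀ a, ∃ a', zEl hq hK (r := 44) (by simp) a * g = g * zEl hq hK (r := 44) (by simp) a') :
    g ∈ St ρ (fix44 hq hK ρ) :=
  st_inf_fix ρ _ hg h

include hq hK in
theorem pair_fix {i j : Fin chevE6.rank} (h : (i.val = 0 ∧ j.val = 5) ∨ (i.val = 2 ∧ j.val = 4)) (u : Kˣ) :
    Pi.mulSingle i u * Pi.mulSingle j (u ^ q) ∈ fixTorusE6 K q := by
  refine (mem_mk_iff _).2 ?_
  rcases h with ⟨h, h'⟩ | ⟨h, h'⟩
  · rw [show i = ⟨0, by decide⟩ from Fin.ext h, show j = ⟨5, by decide⟩ from Fin.ext h']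
    simp [Pi.mulSingle_apply, Fin.ext_iff, units_pow_qq hK]
  · rw [show i = ⟨2, by decide⟩ from Fin.ext h, show j = ⟨4, by decide⟩ from Fin.ext h']
    simp [Pi.mulSingle_apply, Fin.ext_iff, units_pow_qq hK]

/-- A torus element scaling a long root group by a given factor. -/
theorem exists_scale {r : ℕ} (hr : r ∈ ([46, 70, 71, 39, 44, 60] : List ℕ)) (hr' : r = 39 ∨ r = 44 ∨ r = 60)
    {u : FqT hq hK} (hu : u ≠ 0) :
    ∃ (c : Fin chevE6.rank → Kˣ) (hc : c ∈ fixTorusE6 K q),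
      ∀ a, zEl hq hK hr a * tG hq hK c hc = tG hq hK c hc * zEl hq hK hr (u * a) := by
  have hu0 : (u : K) ≠ 0 := fun h => hu (Subtype.ext h)
  have fin : ∀ (i j : Fin chevE6.rank) (h : (i.val = 0 ∧ j.val = 5) ∨ (i.val = 2 ∧ j.val = 4)) (z : ℤ),
      chevE6.cartan i r = z → chevE6.cartan j r = z → z = 1 ∨ z = -1 →
      ∃ (c : Fin chevE6.rank → Kˣ) (hc : c ∈ fixTorusE6 K q),
        ∀ a, zEl hq hK hr a * tG hq hK c hc = tG hq hK c hc * zEl hq hK hr (u * a) := by
    intro i j h z hi hj hz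
    obtain ⟨t, ht'⟩ := exists_norm hq hK (d := (u : K) ^ (-z)) (by rw [map_zpow₀, fq_apply hq hK u])
    have ht0 : t ≠ 0 := fun h0 => zpow_ne_zero (-z) hu0 (by rw [← ht', h0, zero_mul])
    refine ⟨_, pair_fix hq hK h (Units.mk0 t ht0), fun a => ?_⟩
    rw [zEl_mul_tG]
    congr 2
    rw [← mul_assoc]
    refine (mul_left_eq_self₀.2 (Or.inl (Subtype.ext ?_))).symm
    show ((tchar (Pi.mulSingle i (Units.mk0 t ht0) * Pi.mulSingle j (Units.mk0 t ht0 ^ q)) r : Kˣ) : K) * (u : K) = 1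
    have hmul : ∀ c d : Fin chevE6.rank → Kˣ, tchar (c * d) r = tchar c r * tchar d r := fun c d => by
      simp [tchar, mul_zpow, Finset.prod_mul_distrib]
    rw [hmul, tchar_single, tchar_single, hi, hj, ← mul_zpow, Units.val_zpow_eq_zpow_val, Units.val_mul,
      Units.val_pow_eq_pow_val, Units.val_mk0, ← frobE6_apply hq hK, ht', ← zpow_mul]
    rcases hz with rfl | rfl <;> simp [hu0]
  rcases hr' with rfl | rfl | rfl
  · exact fin ⟨2, by decide⟩ ⟨4, by decide⟩ (Or.inr ⟨rfl, rfl⟩) (-1) (by decide +kernel) (by decide +kernel) (Or.inr rfl)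
  · exact fin ⟨2, by decide⟩ ⟨4, by decide⟩ (Or.inr ⟨rfl, rfl⟩) 1 (by decide +kernel) (by decide +kernel) (Or.inl rfl)
  · exact fin ⟨0, by decide⟩ ⟨5, by decide⟩ (Or.inl ⟨rfl, rfl⟩) 1 (by decide +kernel) (by decide +kernel) (Or.inl rfl)

variable {ψ : AddChar (FqT hq hK) ℂ} (hψ : ψ ≠ 0)

/-- Moving a vector by a monomial element exchanging two root groups. -/
theorem swap_vec {n : ↥(twistedE6 K q)} (w : List (Fin chevE6.rank)) (hn : (n : GK) = (glSys (rulesE6 K)).nW w)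
    {r s : ℕ} (hr : r ∈ ([46, 70, 71, 39, 44, 60] : List ℕ)) (hs : s ∈ ([46, 70, 71, 39, 44, 60] : List ℕ))
    (h1 : act chevE6 w r = s) (h2 : act chevE6 w s = r) {x : V} (hfix : ∀ a, ρ (zEl hq hK hr a) x = x)
    (hmov : ∃ a, ρ (zEl hq hK hs a) x ≠ x) :
    (∀ a, ρ (zEl hq hK hs a) (ρ n x) = ρ n x) ∧ ∃ a, ρ (zEl hq hK hr a) (ρ n x) ≠ ρ n x := by
  obtain ⟨a, ha, e⟩ := zEl_conj hq hK w hn hr hs h1
  obtain ⟨b, hb, e'⟩ := zEl_conj hq hK w hn hs hr h2
  refine ⟨fun t => ?_, ?_⟩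
  · rw [← mul_inv_cancel_left₀ ha t, ← rho_mul ρ, ← e, rho_mul ρ, hfix]
  · obtain ⟨t, ht'⟩ := hmov
    refine ⟨b * t, fun h => ht' ?_⟩
    rw [← rho_mul ρ, ← e', rho_mul ρ] at h
    exact rho_inj ρ n h

include hψ in
/-- The bound of the chain. -/
theorem chain_bound (h60 : ∃ x ∈ fixQ hq hK ρ, ∃ a, ρ (zEl hq hK (r := 60) (by simp) a) x ≠ x) :
    (q - 1) * (q ^ 4 + q ^ 2 + 1) ≤ finrank ℂ ↥(fixQ hq hK ρ) := by
  have m39 : (39 : ℕ) ∈ ([46, 70, 71, 39, 44, 60] : List ℕ) := by simp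
  have m44 : (44 : ℕ) ∈ ([46, 70, 71, 39, 44, 60] : List ℕ) := by simp
  have m60 : (60 : ℕ) ∈ ([46, 70, 71, 39, 44, 60] : List ℕ) := by simp
  set W1 := fixQ hq hK ρ with hW1
  set W2 := fix60 hq hK ρ with hW2
  set W3 := fix44 hq hK ρ with hW3
  have sz : ∀ {r : ℕ} (hr : r ∈ ([46, 70, 71, 39, 44, 60] : List ℕ)), r = 39 ∨ r = 44 ∨ r = 60 → ∀ a,
      zEl hq hK hr a ∈ St ρ W1 := fun hr hr' a => st_zEl hq hK ρ hr hr' a
  have hnm : ∀ t : K, σ (-(t * σ t)) = -(t * σ t) := fun t => by rw [map_neg, map_mul, sig2 hq hK, mul_comm]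
  -- first level
  have acts1 : ∀ {r : ℕ} (hr : r ∈ ([46, 70, 71, 39, 44, 60] : List ℕ)), r = 39 ∨ r = 44 ∨ r = 60 →
      ActsOn (fun a => ρ (zEl hq hK hr a)) W1 := fun hr hr' =>
    actsOn_of ρ _ (sz hr hr') (zEl_zero hq hK hr) (zEl_add hq hK hr)
  have sc : ∀ {r : ℕ} (hr : r ∈ ([46, 70, 71, 39, 44, 60] : List ℕ)), r = 39 ∨ r = 44 ∨ r = 60 →
      ∀ u : FqT hq hK, u ≠ 0 → ∃ c, ∃ hc : c ∈ fixTorusE6 K q, tG hq hK c hc ∈ St ρ W3 ∧
        tG hq hK c hc ∈ St ρ W2 ∧ tG hq hK c hc ∈ St ρ W1 ∧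
          ∀ a, zEl hq hK hr a * tG hq hK c hc = tG hq hK c hc * zEl hq hK hr (u * a) := by
    intro r hr hr' u hu
    obtain ⟨c, hc, e⟩ := exists_scale hq hK hr hr' hu
    have h2 := st60 hq hK ρ (st_tG hq hK ρ hc) (exists_zEl_tG hq hK m60 hc)
    exact ⟨c, hc, st44 hq hK ρ h2 (exists_zEl_tG hq hK m44 hc), h2, st_tG hq hK ρ hc, e⟩
  obtain ⟨hall1, hb1⟩ := parts_bound ρ hψ (acts1 m60 (by simp)) (fun u hu => by
    obtain ⟨c, hc, -, -, h, e⟩ := sc m60 (by simp) u hu
    exact ⟨_, h, e⟩) h60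
  have T2 : Trans ρ W1 (zEl hq hK m60) (al2 hq hK) := by
    refine ⟨actsOn_of ρ _ (fun a => mul_mem (st_pG hq hK ρ _ _) (st_pG hq hK ρ _ _)) (al2_zero hq hK)
      (al2_add hq hK), fun a c => ?_, bl2 hq hK, om2 hq hK, fun b => mul_mem (st_pG hq hK ρ _ _) (st_pG hq hK ρ _ _),
      fun b c => ?_, fun b h => ?_, fun b x r => ⟨((r : K) * x.1, (r : K) * x.2), ?_⟩, rel2 hq hK⟩
    · exact ((pG_zEl hq hK _ _ (by decide +kernel) _ _).mul_left (pG_zEl hq hK _ _ (by decide +kernel) _ _)).eq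
    · exact ((pG_zEl hq hK _ _ (by decide +kernel) _ _).mul_left (pG_zEl hq hK _ _ (by decide +kernel) _ _)).eq
    · refine Prod.ext (trF_nondeg hq hK fun a => ?_) (trF_nondeg hq hK fun a => ?_)
      · simpa [om2] using DFunLike.congr_fun h (a, 0)
      · simpa [om2] using DFunLike.congr_fun h (0, a)
    · simp only [om2, AddMonoidHom.mk'_apply, mul_sub]
      rw [mul_left_comm (σ b.2), mul_left_comm (σ b.1), trF_smul, trF_smul]
  have hone : (1 : FqT hq hK) ≠ 0 := one_ne_zero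
  obtain ⟨x, hx, hfix, hmov⟩ := T2.exists_fixed ρ hψ (y := zEl hq hK m44) (acts1 m44 (by simp))
    (fun s c => (zEl_comm hq hK _ _ (by decide +kernel) _ _).eq)
    (fun s a => ((pG_zEl hq hK _ _ (by decide +kernel) _ _).mul_left
      (pG_zEl hq hK _ _ (by decide +kernel) _ _)).eq.symm)
    (fun d => by
      obtain ⟨t, ht'⟩ := exists_norm hq hK (d := -(d : K)) (by rw [map_neg, fq_apply hq hK d])
      refine ⟨pG hq hK 25 (by decide) t, st_pG hq hK ρ _ _,
        fun c => (pG_zEl hq hK _ _ (by decide +kernel) _ _).eq, fun s => ?_⟩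
      obtain ⟨w, hw⟩ := rel_root hq hK (e := 25) (f := 28) (by decide) (by decide) m44 m60 ⟨by decide +kernel, by decide +kernel, by decide +kernel, by decide +kernel, by decide +kernel, rfl, rfl, trivial⟩ t s
      refine ⟨(w, 0), hw.trans ?_⟩
      rw [al2, pG_zero, mul_one]
      congr 3
      refine congrArg (· * s) (Subtype.ext ?_)
      simp [ht'])
    hone (hall1 1 hone)
  obtain ⟨hfix', hmov'⟩ := swap_vec hq hK ρ (wd [0, 5]) (n05_nW hq hK) m44 m60 actN.1 actN.2.1 hfix hmov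
  have hx2 : ρ (n05 hq hK) x ∈ W2 := ⟨(st_n05 hq hK ρ x).2 hx, fun a => by simpa using hfix' a⟩
  -- second level
  have sz2 : ∀ {r : ℕ} (hr : r ∈ ([46, 70, 71, 39, 44, 60] : List ℕ)), r = 39 ∨ r = 44 → Nul r 60 → ∀ a,
      zEl hq hK hr a ∈ St ρ W2 := fun hr hr' hn a =>
    st60 hq hK ρ (sz hr (by tauto) a) fun b => ⟨b, (zEl_comm hq hK hr m60 hn a b).eq.symm⟩
  have sp2 : ∀ (e : Fin 30) (he : p30 e ≠ e), Nul (L30 e) 60 ∧ Nul (L30 (p30 e)) 60 → ∀ t,
      pG hq hK e he t ∈ St ρ W2 := fun e he hn t =>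
    st60 hq hK ρ (st_pG hq hK ρ he t) fun b => ⟨b, (pG_zEl hq hK he m60 hn t b).eq.symm⟩
  have acts44 : ActsOn (fun a => ρ (zEl hq hK m44 a)) W2 :=
    actsOn_of ρ _ (sz2 m44 (by simp) (by decide +kernel)) (zEl_zero hq hK m44) (zEl_add hq hK m44)
  obtain ⟨hall2, hb2⟩ := parts_bound ρ hψ acts44 (fun u hu => by
    obtain ⟨c, hc, -, h, -, e⟩ := sc m44 (by simp) u hu
    exact ⟨_, h, e⟩) ⟨_, hx2, hmov'⟩
  have T3 : Trans ρ W2 (zEl hq hK m44) (pG hq hK 22 (by decide)) := by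
    refine ⟨actsOn_of ρ _ (sp2 22 (by decide) (by decide +kernel)) (pG_zero hq hK _ _) (pG_add hq hK _ _),
      fun a c => (pG_zEl hq hK _ _ (by decide +kernel) _ _).eq, pG hq hK 21 (by decide), om3 hq hK,
      sp2 21 (by decide) (by decide +kernel), fun b c => (pG_zEl hq hK _ _ (by decide +kernel) _ _).eq,
      fun b h => trF_nondeg hq hK fun a => ?_, fun b x r => ⟨(r : K) * x, ?_⟩, rel3 hq hK⟩
    · simpa [om3] using DFunLike.congr_fun h a
    · simp only [om3, AddMonoidHom.mk'_apply, mul_neg]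
      rw [mul_left_comm, trF_smul]
  obtain ⟨x2, hx2', hfix2, hmov2⟩ := T3.exists_fixed ρ hψ (y := zEl hq hK m39)
    (actsOn_of ρ _ (sz2 m39 (by simp) (by decide +kernel)) (zEl_zero hq hK m39) (zEl_add hq hK m39))
    (fun s c => (zEl_comm hq hK _ _ (by decide +kernel) _ _).eq)
    (fun s a => (pG_zEl hq hK _ _ (by decide +kernel) _ _).eq.symm)
    (fun d => by
      obtain ⟨t, ht'⟩ := exists_norm hq hK (d := -(d : K)) (by rw [map_neg, fq_apply hq hK d])
      refine ⟨pG hq hK 21 (by decide) t, sp2 21 (by decide) (by decide +kernel) t,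
        fun c => (pG_zEl hq hK _ _ (by decide +kernel) _ _).eq, fun s => ?_⟩
      obtain ⟨w, hw⟩ := rel_root hq hK (e := 21) (f := 22) (by decide) (by decide) m39 m44 ⟨by decide +kernel, by decide +kernel, by decide +kernel, by decide +kernel, by decide +kernel, rfl, rfl, trivial⟩ t s
      refine ⟨w, hw.trans ?_⟩
      congr 3
      refine congrArg (· * s) (Subtype.ext ?_)
      simp [ht'])
    hone (hall2 1 hone)
  obtain ⟨hfix2', hmov2'⟩ := swap_vec hq hK ρ (wd [2, 4]) (n24_nW hq hK) m39 m44 actN.2.2.1 actN.2.2.2.1 hfix2 hmov2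
  have hn24 : n24 hq hK ∈ St ρ W2 := by
    refine st60 hq hK ρ (st_n24 hq hK ρ) fun a => ?_
    obtain ⟨b, hb, e⟩ := zEl_conj hq hK (wd [2, 4]) (n24_nW hq hK) m60 m60 actN.2.2.2.2.1
    exact ⟨b⁻¹ * a, by rw [e, mul_inv_cancel_left₀ hb]⟩
  have hx3 : ρ (n24 hq hK) x2 ∈ W3 := ⟨(hn24 x2).2 hx2', fun a => by simpa using hfix2' a⟩
  -- third level
  have sz3 : ∀ a, zEl hq hK m39 a ∈ St ρ W3 := fun a =>
    st44 hq hK ρ (sz2 m39 (by simp) (by decide +kernel) a) fun b =>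
      ⟨b, (zEl_comm hq hK m39 m44 (by decide +kernel) a b).eq.symm⟩
  obtain ⟨-, hb3⟩ := parts_bound ρ hψ (actsOn_of ρ _ sz3 (zEl_zero hq hK m39) (zEl_add hq hK m39))
    (fun u hu => by
      obtain ⟨c, hc, h, -, -, e⟩ := sc m39 (by simp) u hu
      exact ⟨_, h, e⟩) ⟨_, hx3, hmov2'⟩
  have k3 := hb3 1 fun c _ hne => Nat.one_le_iff_ne_zero.2 fun h => hne (Submodule.finrank_eq_zero.1 h)
  have k2 := hb2 (q ^ 2) fun c hc hne => by
    have := (T3.bound ρ hψ hc hne).1
    rwa [hK] at this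
  have k1 := hb1 (q ^ 4) fun c hc hne => by
    have := (T2.bound ρ hψ hc hne).1
    rwa [Fintype.card_prod, hK, ← pow_add] at this
  rw [card_FqT] at k1 k2 k3
  change (q - 1) * q ^ 2 + finrank ℂ ↥W3 ≤ finrank ℂ ↥W2 at k2
  change (q - 1) * q ^ 4 + finrank ℂ ↥W2 ≤ finrank ℂ ↥W1 at k1
  rw [mul_add, mul_add]
  omega

end Cfsg.Agent.TwE6Deg
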