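import Cfsg.Agent.TwE6Deg.Table

/-!
# Coordinates on the radical of ²E₆(q) modulo its centre (owner: helper35)
-/

set_option autoImplicit false
set_option linter.unusedSectionVars false

namespace Cfsg.Agent.TwE6Deg

open Cfsg.Lie Cfsg.Agent.ChevGrp Cfsg.Agent.ChevTw

section App

variable {K : Type*} [Field K]

/-- The displacement given by a table. -/
def app (T : Fin 30 → Fin 20 → Option (Fin 20 × ℤ)) (e : Fin 30) (t : K) (w : Fin 20 → K) : Fin 20 → K :=
  fun k => w k + (T e k).elim 0 fun p => (p.2 : K) * t * w p.1

theorem app_add (T : Fin 30 → Fin 20 → Option (Fin 20 × ℤ)) (e : Fin 30) (t : K) (v w : Fin 20 → K) :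
    app T e t (v + w) = app T e t v + app T e t w := by
  funext k
  rcases h : T e k with _ | p
  · simp [app, h]
  · simp [app, h]; ring

theorem pair_app (e : Fin 30) (t : K) (v w : Fin 20 → K) :
    ∑ i, v i * app src e t w i = ∑ i, app tgt e t v i * w i := by
  simp only [app, mul_add, add_mul, Finset.sum_add_distrib]
  congr 1
  have hl : ∀ k, v k * (src e k).elim 0 (fun p => (p.2 : K) * t * w p.1) =
      ∑ i, if (src e k).map Prod.fst = some i then v k * (((src e k).elim 0 Prod.snd : ℤ) : K) * t * w i else 0 := by
    intro k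
    rcases h : src e k with _ | p
    · simp
    · simp [mul_assoc]
  have hr : ∀ i, ((tgt e i).elim 0 fun p => (p.2 : K) * t * v p.1) * w i =
      ∑ k, if (tgt e i).map Prod.fst = some k then v k * (((tgt e i).elim 0 Prod.snd : ℤ) : K) * t * w i else 0 := by
    intro i
    rcases h : tgt e i with _ | p
    · simp
    · simp only [Option.elim_some, Option.map_some, Option.some.injEq]
      rw [Finset.sum_ite_eq]
      simp only [Finset.mem_univ, if_true]
      ring
  simp only [hl, hr]
  rw [Finset.sum_comm]
  refine Finset.sum_congr rfl fun i _ => Finset.sum_congr rfl fun k _ => ?_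
  rcases hs : src e k with _ | p <;> rcases ht : tgt e i with _ | r
  · simp
  · have := (dataSign e i).1
    rw [ht] at this
    have h2 := (dataInv e i r.1 r.2 (by simpa [Option.elim] using this)).1 (by rw [ht])
    by_cases hk : r.1 = k
    · subst hk; rw [hs] at h2; exact absurd h2 (by simp)
    · simp [hk]
  · have := (dataSign e k).2
    rw [hs] at this
    by_cases hk : p.1 = i
    · subst hk
      have h2 := (dataInv e p.1 k p.2 (by simpa [Option.elim] using this)).2 (by rw [hs])
      rw [ht] at h2; exact absurd h2 (by simp)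
    · simp [hk]
  · by_cases hk : p.1 = i
    · subst hk
      have h1 := (dataSign e k).2
      rw [hs] at h1
      have h2 := (dataInv e p.1 k p.2 (by simpa [Option.elim] using h1)).2 (by rw [hs])
      rw [ht, Option.some.injEq] at h2
      subst h2
      simp
    · have h3 : r.1 ≠ k := by
        intro hh
        subst hh
        have h1 := (dataSign e i).1
        rw [ht] at h1
        have h2 := (dataInv e i r.1 r.2 (by simpa [Option.elim] using h1)).1 (by rw [ht])
        rw [hs, Option.some.injEq] at h2
        subst h2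
        exact hk rfl
      simp [hk, h3]

end App

section Field

variable {K : Type*} [Field K] [Fintype K] {q : ℕ} (hq : IsPrimePow q) (hK : Fintype.card K = q ^ 2)

local notation "σ" => frobE6 hq hK
local notation "GK" => GL chevE6.Idx K

theorem sig2 (x : K) : σ (σ x) = x := by
  simp only [frobE6_apply]
  exact pow_pow_q hK x

/-- The root elements. -/
noncomputable abbrev X (K : Type*) [Field K] : ℕ → K → GL chevE6.Idx K := (glSys (rulesE6 K)).x

/-- The fixed field. -/
noncomputable abbrev Fq : Subfield K := RingHom.eqLocusField σ (RingHom.id K)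

theorem fq_apply (a : ↥(Fq hq hK)) : σ (a : K) = a := a.2

/-- The coordinates of the fixed part of the radical. -/
noncomputable def Md : AddSubgroup (Fin 20 → K) where
  carrier := {w | ∀ i, w (p20 i) = (g20 i : K) * σ (w i)}
  zero_mem' := fun i => by simp
  add_mem' := fun {a b} ha hb i => by simp [ha i, hb i, mul_add]
  neg_mem' := fun {a} ha i => by simp [ha i]

/-- The pairing. -/
noncomputable def pairing (v w : Fin 20 → K) : K := ∑ i, v i * w i

theorem sig_pairing {v w : Fin 20 → K} (hv : v ∈ Md hq hK) (hw : w ∈ Md hq hK) :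
    σ (pairing v w) = pairing v w := by
  simp only [pairing, map_sum]
  refine Finset.sum_nbij' p20 p20 (fun _ _ => Finset.mem_univ _) (fun _ _ => Finset.mem_univ _)
    (fun i _ => (data20 i).2.2.1) (fun i _ => (data20 i).2.2.1) fun i _ => ?_
  rw [map_mul, hv i, hw i, mul_mul_mul_comm, ← Int.cast_mul, (data20 i).2.2.2.2.1, Int.cast_one, one_mul]

theorem app_mem {T : Fin 30 → Fin 20 → Option (Fin 20 × ℤ)}
    (hT : ∀ e i, T (p30 e) (p20 i) = (T e i).map (fun p => (p20 p.1, p.2 * g30 e * g20 i * g20 p.1)))
    {e : Fin 30} {t : K} {w : Fin 20 → K} (hw : w ∈ Md hq hK) (i : Fin 20) :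
    app T (p30 e) ((g30 e : K) * σ t) w (p20 i) = (g20 i : K) * σ (app T e t w i) := by
  simp only [app, hT e i, map_add, mul_add, hw i]
  congr 1
  rcases h : T e i with _ | p
  · simp
  · simp only [Option.map_some, Option.elim_some, hw p.1, Int.cast_mul, map_mul, map_intCast]
    have h1 : (g30 e : K) * g30 e = 1 := by rw [← Int.cast_mul, (data30 e).2.2.2.1, Int.cast_one]
    have h2 : (g20 p.1 : K) * g20 p.1 = 1 := by rw [← Int.cast_mul, (data20 p.1).2.2.2.2.1, Int.cast_one]
    linear_combination (p.2 : K) * (g20 i : K) * σ t * σ (w p.1) * ((g30 e : K) * g30 e * h2 + h1)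

/-- The displacement of a twisted root element. -/
noncomputable def lapp (T : Fin 30 → Fin 20 → Option (Fin 20 × ℤ)) (e : Fin 30) (t : K) (w : Fin 20 → K) :
    Fin 20 → K :=
  if p30 e = e then app T e t w else app T e t (app T (p30 e) ((g30 e : K) * σ t) w)

/-- An admissible parameter. -/
def Ok (e : Fin 30) (t : K) : Prop := p30 e = e → σ t = t

theorem app_comm {T : Fin 30 → Fin 20 → Option (Fin 20 × ℤ)}
    (hT : ∀ e i, ((T e i).bind fun p => (T (p30 e) p.1).map fun r => (r.1, p.2 * r.2)) =
      ((T (p30 e) i).bind fun p => (T e p.1).map fun r => (r.1, p.2 * r.2)))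
    (e : Fin 30) (t u : K) (w : Fin 20 → K) :
    app T e t (app T (p30 e) u w) = app T (p30 e) u (app T e t w) := by
  have two : ∀ (a b : Fin 30) (x y : K) (k : Fin 20), app T a x (app T b y w) k =
      w k + ((T b k).elim 0 fun p => (p.2 : K) * y * w p.1) + ((T a k).elim 0 fun p => (p.2 : K) * x * w p.1) +
        ((T a k).bind fun p => (T b p.1).map fun r => (r.1, p.2 * r.2)).elim 0
          fun r => (r.2 : K) * (x * y) * w r.1 := fun a b x y k => by
    simp only [app]
    rcases h1 : T a k with _ | p
    · simp
    · rcases h2 : T b p.1 with _ | r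
      · simp [h2]
      · simp [h2]; ring
  funext k
  rw [two, two, hT e k, mul_comm t u]
  ring

theorem lapp_mem {T : Fin 30 → Fin 20 → Option (Fin 20 × ℤ)}
    (hT : ∀ e i, T (p30 e) (p20 i) = (T e i).map (fun p => (p20 p.1, p.2 * g30 e * g20 i * g20 p.1)))
    (hC : ∀ e i, ((T e i).bind fun p => (T (p30 e) p.1).map fun r => (r.1, p.2 * r.2)) =
      ((T (p30 e) i).bind fun p => (T e p.1).map fun r => (r.1, p.2 * r.2)))
    {e : Fin 30} {t : K} (ht' : Ok hq hK e t) {w : Fin 20 → K} (hw : w ∈ Md hq hK) :
    lapp hq hK T e t w ∈ Md hq hK := by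
  intro i
  by_cases he : p30 e = e
  · simp only [lapp, if_pos he]
    have h := app_mem hq hK hT (e := e) (t := t) hw i
    rwa [ht' he, (data30 e).2.2.2.2.2.2.1 he, Int.cast_one, one_mul, he] at h
  · simp only [lapp, if_neg he]
    set u := (g30 e : K) * σ t with hu
    have hu' : (g30 (p30 e) : K) * σ u = t := by
      rw [hu, map_mul, map_intCast, sig2, (data30 e).2.2.1, ← mul_assoc, ← Int.cast_mul, (data30 e).2.2.2.1,
        Int.cast_one, one_mul]
    -- the outer displacement, applied to the equivariance of the inner one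
    have h1 : ∀ k, app T e t w (p20 k) = (g20 k : K) * σ (app T (p30 e) u w k) := fun k => by
      have h := app_mem hq hK hT (e := p30 e) (t := u) hw k
      rwa [(data30 e).2.1, hu'] at h
    conv_lhs => rw [app_comm hC]
    simp only [app]
    rw [show T (p30 e) (p20 i) = _ from hT e i]
    have h2 := h1 i
    simp only [app] at h2
    rw [h2]
    rcases h : T e i with _ | p
    · simp
    · simp only [Option.map_some, Option.elim_some]
      have h3 := h1 p.1
      simp only [app] at h3
      rw [h3]
      have e1 : (g30 e : K) * g30 e = 1 := by rw [← Int.cast_mul, (data30 e).2.2.2.1, Int.cast_one]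
      have e2 : (g20 p.1 : K) * g20 p.1 = 1 := by rw [← Int.cast_mul, (data20 p.1).2.2.2.2.1, Int.cast_one]
      rcases h5 : T (p30 e) p.1 with _ | r <;>
        simp only [Option.elim_none, Option.elim_some, add_zero, hu, Int.cast_mul, map_add, map_mul, map_intCast, sig2]
      · linear_combination (p.2 : K) * (g20 i : K) * σ t * σ (w p.1) * ((g30 e : K) * g30 e * e2 + e1)
      · linear_combination (p.2 : K) * (g20 i : K) * σ t * (σ (w p.1) + (r.2 : K) * ((g30 e : K) * t) * σ (w r.1)) *
          ((g30 e : K) * g30 e * e2 + e1)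

theorem pairing_lapp (e : Fin 30) (t : K) (v w : Fin 20 → K) :
    pairing v (lapp hq hK src e t w) = pairing (lapp hq hK tgt e t v) w := by
  by_cases he : p30 e = e
  · simp only [lapp, if_pos he, pairing, pair_app]
  · simp only [lapp, if_neg he, pairing, pair_app]
    rw [app_comm (fun e i => (dataComp e i).1)]

theorem lapp_neg {T : Fin 30 → Fin 20 → Option (Fin 20 × ℤ)}
    (hC : ∀ e i, ((T e i).bind fun p => (T (p30 e) p.1).map fun r => (r.1, p.2 * r.2)) =
      ((T (p30 e) i).bind fun p => (T e p.1).map fun r => (r.1, p.2 * r.2)))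
    (h0 : ∀ e i, ((T e i).all fun p => (T e p.1).isNone) = true)
    (e : Fin 30) (t : K) (w : Fin 20 → K) : lapp hq hK T e (-t) (lapp hq hK T e t w) = w := by
  have key : ∀ (e : Fin 30) (t : K) (w : Fin 20 → K), app T e (-t) (app T e t w) = w := fun e t w => by
    funext k
    simp only [app]
    rcases h : T e k with _ | p
    · simp
    · have := h0 e k
      rw [h] at this
      simp only [Option.all_some, Option.isNone_iff_eq_none] at this
      simp [this]
  by_cases he : p30 e = e
  · simp only [lapp, if_pos he, key]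
  · simp only [lapp, if_neg he, map_neg, mul_neg]
    rw [← app_comm hC, key, key]

end Field

end Cfsg.Agent.TwE6Deg
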