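import Cfsg.Agent.TwE6Deg.Group

/-!
# Elements of ²E₆(q) used in the degree bound (owner: helper35)
-/

set_option autoImplicit false
set_option linter.unusedSectionVars false
set_option linter.unusedSimpArgs false

namespace Cfsg.Agent.TwE6Deg

open Cfsg.Lie Cfsg.Agent.ChevGrp Cfsg.Agent.ChevTw

/-- The simple root indices of a word. -/
def wd (l : List ℕ) : List (Fin chevE6.rank) :=
  l.filterMap fun i => if h : i < chevE6.rank then some ⟨i, h⟩ else none

theorem dataFix : ∀ r ∈ ([46, 70, 71, 39, 44, 60] : List ℕ), r < chevE6.nroots ∧ chevE6.IsPosRoot r ∧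
    twE6.root r = r ∧ symE6.sgn r = 1 := by decide +kernel

theorem data25 : 25 < chevE6.nroots ∧ chevE6.IsNegRoot 25 ∧ twE6.root 25 = 25 ∧ symE6.sgn 25 = 1 ∧
    chevE6.neg 46 = 25 ∧ chevE6.commTerms 70 46 = [(71, -1, 1, 1)] ∧ 46 ≠ 70 ∧ 46 ≠ chevE6.neg 70 ∧
    (71 ≠ 70 ∧ 71 ≠ chevE6.neg 70 ∧ chevE6.commTerms 70 71 = []) ∧
    act chevE6 (wd [3, 2, 4, 0, 5, 3, 2, 4, 3, 1]) 71 = 46 := by decide +kernel

theorem dataCross : ∀ ab ∈ ([(29, 37), (15, 36), (42, 34), (56, 35), (42, 37), (56, 36), (29, 34), (15, 35)] :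
    List (ℕ × ℕ)),
    ab.2 ≠ ab.1 ∧ ab.2 ≠ chevE6.neg ab.1 ∧ chevE6.commTerms ab.1 ab.2 = [] ∧ ab.1 < chevE6.nroots ∧
      ab.2 < chevE6.nroots := by decide +kernel

theorem cartan_sym : ∀ j : Fin chevE6.rank, (j.val = 1 ∨ j.val = 3) → ∀ i : Fin 20,
    chevE6.cartan j (L20 (p20 i)) = chevE6.cartan j (L20 i) := by decide +kernel

theorem cartan_val : chevE6.cartan 1 71 = 1 ∧ chevE6.cartan 3 71 = 0 ∧ chevE6.cartan 3 (L20 0) = -1 := by
  decide +kernel

section

variable {K : Type*} [Field K] [Fintype K] {q : ℕ} (hq : IsPrimePow q) (hK : Fintype.card K = q ^ 2)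

local notation "σ" => frobE6 hq hK
local notation "GK" => GL chevE6.Idx K

theorem root_mem {r : ℕ} (hr : r ∈ ([46, 70, 71, 39, 44, 60] : List ℕ)) {t : K} (ht' : σ t = t) :
    X K r t ∈ twistedE6 K q := by
  obtain ⟨h1, h2, h3, h4⟩ := dataFix r hr
  refine pos_mem hq hK ((glSys (rulesE6 K)).x_mem_US (show r ∈ {r | chevE6.IsPosRoot r} from h2) _) ?_
  rw [sig_x hq hK _ h1, h3, h4, ht', Int.cast_one, one_mul]

theorem root25_mem {t : K} (ht' : σ t = t) : X K 25 t ∈ twistedE6 K q := by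
  obtain ⟨h1, h2, h3, h4, -⟩ := data25
  refine neg_mem hq hK (A := {r | chevE6.IsNegRoot r}) (fun r hr => hr)
    ((glSys (rulesE6 K)).x_mem_US (show 25 ∈ {r | chevE6.IsNegRoot r} from h2) _) ?_
  rw [sig_x hq hK _ h1, h3, h4, ht', Int.cast_one, one_mul]

/-- A parameter of a fixed long root element of the group lies in the fixed field. -/
theorem fix_param {r : ℕ} (hr : r ∈ ([46, 70, 71, 39, 44, 60] : List ℕ)) {t : K}
    (h : X K r t ∈ twistedE6 K q) : σ t = t := by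
  obtain ⟨h1, h2, h3, h4⟩ := dataFix r hr
  have hfix := (grpE6 hq hK).fixed h
  rw [sig_x hq hK _ h1, h3, h4, Int.cast_one, one_mul] at hfix
  obtain ⟨len, hR⟩ := (rulesE6 K).root
  by_contra hne
  obtain ⟨s, hs, hsr⟩ : ∃ s, s < chevE6.nroots ∧ r ≠ s := by
    rcases eq_or_ne r 46 with rfl | hne'
    exacts [⟨71, data71.1, by decide⟩, ⟨46, (dataFix 46 (by simp)).1, hne'⟩]
  have h0 : X K r (σ t - t) = X K s 0 := by
    rw [sub_eq_add_neg, ← xadd h1, hfix, xadd h1, add_neg_cancel, xzero h1, xzero hs]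
  exact hsr ((glSys (rulesE6 K)).x_root_inj hR h1 hs (sub_ne_zero.2 hne) h0)

theorem nI_eq (j : Fin chevE6.rank) : (glSys (rulesE6 K)).nI j =
    X K (chevE6.simple j) 1 * X K (chevE6.neg (chevE6.simple j)) (-1) * X K (chevE6.simple j) 1 := by
  simp [Sys.nI, Sys.nEl]

include hq hK in
theorem nI1_mem : (glSys (rulesE6 K)).nI ⟨1, by decide⟩ ∈ twistedE6 K q := by
  rw [nI_eq, show chevE6.simple 1 = 46 from negE6.2.2.2.2.2.2.2.1, negE6.1]
  exact mul_mem (mul_mem (root_mem hq hK (by simp) (map_one _))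
    (root25_mem hq hK (by rw [map_neg, map_one]))) (root_mem hq hK (by simp) (map_one _))

include hq hK in
theorem nI3_mem : (glSys (rulesE6 K)).nI ⟨3, by decide⟩ ∈ twistedE6 K q := by
  have hs := negE6.2.2.2.2.2.2.2.2.2.1
  rw [nI_eq, show chevE6.simple 3 = 39 from hs, negE6.2.1]
  have a := (Subgroup.mem_inf.1 (lel_mem hq hK (e := 18) (t := (1 : K)) fun _ => map_one _)).1
  have b := (Subgroup.mem_inf.1 (lel_mem hq hK (e := 11) (t := (-1 : K)) fun _ => by rw [map_neg, map_one])).1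
  simp [lel, p30, L30] at a b
  exact mul_mem (mul_mem a b) a

/-- A product of two commuting triples. -/
theorem triple_mul {G : Type*} [Group G] {a b a' b' : G} (h1 : Commute a a') (h2 : Commute b a')
    (h3 : Commute a b') : a * b * a * (a' * b' * a') = a * a' * (b * b') * (a * a') :=
  calc a * b * a * (a' * b' * a') = a * b * (a * a') * b' * a' := by simp only [mul_assoc]
    _ = a * b * (a' * a) * b' * a' := by rw [h1.eq]
    _ = a * (b * a') * (a * b') * a' := by simp only [mul_assoc]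
    _ = a * (a' * b) * (b' * a) * a' := by rw [h2.eq, h3.eq]
    _ = a * a' * (b * b') * (a * a') := by simp only [mul_assoc]

include hq hK in
theorem nI24_mem : (glSys (rulesE6 K)).nI ⟨2, by decide⟩ * (glSys (rulesE6 K)).nI ⟨4, by decide⟩ ∈
    twistedE6 K q := by
  obtain ⟨-, -, n42, n37, -, -, -, -, s2, -, s4, -⟩ := negE6
  rw [nI_eq, nI_eq, show chevE6.simple 2 = 42 from s2, show chevE6.simple 4 = 37 from s4, n42, n37]
  have cm : ∀ ab ∈ ([(42, 37), (29, 37), (42, 34)] : List (ℕ × ℕ)), ∀ t u : K,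
      Commute (X K ab.1 t) (X K ab.2 u) := fun ab hab t u => by
    obtain ⟨h1, h2, h3, h4, h5⟩ := dataCross ab (by simp at hab ⊢; tauto)
    exact xcomm h4 h5 h1 h2 h3 t u
  rw [triple_mul (cm (42, 37) (by simp) _ _) (cm (29, 37) (by simp) _ _) (cm (42, 34) (by simp) _ _)]
  have a := (Subgroup.mem_inf.1 (lel_mem hq hK (e := 21) (t := (1 : K)) fun h => absurd h (by decide))).1
  have b := (Subgroup.mem_inf.1 (lel_mem hq hK (e := 8) (t := (-1 : K)) fun h => absurd h (by decide))).1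
  simp [lel, p30, L30, g30] at a b
  exact mul_mem (mul_mem a b) a

include hq hK in
theorem nI05_mem : (glSys (rulesE6 K)).nI ⟨0, by decide⟩ * (glSys (rulesE6 K)).nI ⟨5, by decide⟩ ∈
    twistedE6 K q := by
  obtain ⟨-, -, -, -, n56, n36, s0, -, -, -, -, s5⟩ := negE6
  rw [nI_eq, nI_eq, show chevE6.simple 0 = 56 from s0, show chevE6.simple 5 = 36 from s5, n56, n36]
  have cm : ∀ ab ∈ ([(56, 36), (15, 36), (56, 35)] : List (ℕ × ℕ)), ∀ t u : K,
      Commute (X K ab.1 t) (X K ab.2 u) := fun ab hab t u => by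
    obtain ⟨h1, h2, h3, h4, h5⟩ := dataCross ab (by simp at hab ⊢; tauto)
    exact xcomm h4 h5 h1 h2 h3 t u
  rw [triple_mul (cm (56, 36) (by simp) _ _) (cm (15, 36) (by simp) _ _) (cm (56, 35) (by simp) _ _)]
  have a := (Subgroup.mem_inf.1 (lel_mem hq hK (e := 25) (t := (1 : K)) fun h => absurd h (by decide))).1
  have b := (Subgroup.mem_inf.1 (lel_mem hq hK (e := 4) (t := (-1 : K)) fun h => absurd h (by decide))).1
  simp [lel, p30, L30, g30] at a b
  exact mul_mem (mul_mem a b) a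

include hq hK in
/-- The highest root group is conjugate to the group of the root `46`. -/
theorem exists_conj71 : ∃ g ∈ twistedE6 K q, ∃ a : K, a ≠ 0 ∧ σ a = a ∧
    ∀ t : K, g * X K 71 t * g⁻¹ = X K 46 (a * t) := by
  obtain ⟨len, hR⟩ := (rulesE6 K).root
  set S := glSys (rulesE6 K)
  obtain ⟨a, ha, hga⟩ := S.conjP_nW (rulesE6 K) hR (wd [3, 2, 4, 0, 5, 3, 2, 4, 3, 1])
  set g := S.nW (wd [3, 2, 4, 0, 5, 3, 2, 4, 3, 1]) with hg
  have hmem : g ∈ twistedE6 K q := by
    have e : g = S.nI ⟨3, by decide⟩ * (S.nI ⟨2, by decide⟩ * S.nI ⟨4, by decide⟩) *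
        (S.nI ⟨0, by decide⟩ * S.nI ⟨5, by decide⟩) * S.nI ⟨3, by decide⟩ *
        (S.nI ⟨2, by decide⟩ * S.nI ⟨4, by decide⟩) * S.nI ⟨3, by decide⟩ * S.nI ⟨1, by decide⟩ := by
      rw [hg, show wd [3, 2, 4, 0, 5, 3, 2, 4, 3, 1] = [⟨3, by decide⟩, ⟨2, by decide⟩, ⟨4, by decide⟩,
        ⟨0, by decide⟩, ⟨5, by decide⟩, ⟨3, by decide⟩, ⟨2, by decide⟩, ⟨4, by decide⟩, ⟨3, by decide⟩,
        ⟨1, by decide⟩] from rfl]
      simp [Sys.nW, mul_assoc]
    rw [e]
    exact mul_mem (mul_mem (mul_mem (mul_mem (mul_mem (mul_mem (nI3_mem hq hK) (nI24_mem hq hK)) (nI05_mem hq hK))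
      (nI3_mem hq hK)) (nI24_mem hq hK)) (nI3_mem hq hK)) (nI1_mem hq hK)
  have key : ∀ t : K, g * X K 71 t * g⁻¹ = X K 46 (a 71 * t) := fun t => by
    have := hga 71 data71.1 t
    rw [data25.2.2.2.2.2.2.2.2.2] at this
    exact this
  refine ⟨g, hmem, a 71, right_ne_zero_of_mul_eq_one (ha 71 data71.1), ?_, key⟩
  refine fix_param hq hK (r := 46) (by simp) ?_
  have h1 := key 1
  rw [mul_one] at h1
  rw [← h1]
  exact mul_mem (mul_mem hmem (root_mem hq hK (by simp) (map_one _))) (inv_mem hmem)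

theorem tchar_single (j : Fin chevE6.rank) (u : Kˣ) (r : ℕ) :
    tchar (Pi.mulSingle j u) r = u ^ chevE6.cartan j r := by
  rw [tchar, Finset.prod_eq_single j (fun i _ hi => by simp [Pi.mulSingle_eq_of_ne hi]) (by simp),
    Pi.mulSingle_eq_same]

include hq hK in
theorem single_fix {j : Fin chevE6.rank} (hj : j.val = 1 ∨ j.val = 3) {u : Kˣ} (hu : σ (u : K) = (u : K)) :
    Pi.mulSingle j u ∈ fixTorusE6 K q := by
  have hu' : u ^ q = u := Units.ext (by rw [Units.val_pow_eq_pow_val, ← frobE6_apply hq hK, hu])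
  refine (mem_mk_iff _).2 ?_
  rcases hj with h | h
  · rw [show j = ⟨1, by decide⟩ from Fin.ext h]
    simp [Pi.mulSingle_apply, hu', Fin.ext_iff]
  · rw [show j = ⟨3, by decide⟩ from Fin.ext h]
    simp [Pi.mulSingle_apply, hu', Fin.ext_iff]

/-- Conjugation of a lift by a torus element. -/
theorem tor_lift20 (c : Fin chevE6.rank → Kˣ) (w : Fin 20 → K) :
    tor c * lift20 w * (tor c)⁻¹ = lift20 fun i => (tchar c (L20 i) : K) * w i := by
  have h : MulAut.conj (tor c) (lift20 w) = lift20 fun i => (tchar c (L20 i) : K) * w i := by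
    rw [lift20, lift20, map_list_prod, List.map_ofFn]
    exact congrArg List.prod (congrArg List.ofFn (funext fun i => by
      simp only [Function.comp, MulAut.conj_apply]
      exact tor_conj c (data20 i).1 _))
  simpa using h

end

end Cfsg.Agent.TwE6Deg
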