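import Cfsg.Agent.TwE6Deg.Coord

/-!
# The radical of ²E₆(q) modulo its centre as a group (owner: helper35)
-/

set_option autoImplicit false
set_option linter.unusedSectionVars false

namespace Cfsg.Agent.TwE6Deg

open Cfsg.Lie Cfsg.Agent.ChevGrp Cfsg.Agent.ChevTw

section Quot

variable {K : Type*} [Field K]

variable (K) in
/-- The centraliser of the highest root group. -/
def CC : Subgroup (GL chevE6.Idx K) := Subgroup.centralizer {g | ∃ u : K, g = X K 71 u}

theorem xadd {r : ℕ} (hr : r < chevE6.nroots) (t u : K) : X K r t * X K r u = X K r (t + u) :=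
  (glSys (rulesE6 K)).x_add r hr t u

theorem xzero {r : ℕ} (hr : r < chevE6.nroots) : X K r 0 = 1 := (glSys (rulesE6 K)).x_zero hr

theorem xinv {r : ℕ} (hr : r < chevE6.nroots) (t : K) : (X K r t)⁻¹ = X K r (-t) :=
  (glSys (rulesE6 K)).x_inv hr t

theorem xcomm {r s : ℕ} (hr : r < chevE6.nroots) (hs : s < chevE6.nroots) (h1 : s ≠ r) (h2 : s ≠ chevE6.neg r)
    (h : chevE6.commTerms r s = []) (t u : K) : Commute (X K r t) (X K s u) :=
  x_commute (glSys (rulesE6 K)) hr hs h1 h2 h t u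

theorem xcomm_self {r : ℕ} (hr : r < chevE6.nroots) (t u : K) : Commute (X K r t) (X K r u) := by
  show _ = _
  rw [xadd hr, xadd hr, add_comm]

/-- Conjugation of root elements with a single commutator term. -/
theorem xconj {r s c : ℕ} {C : ℤ} (hr : r < chevE6.nroots) (hs : s < chevE6.nroots) (h1 : s ≠ r)
    (h2 : s ≠ chevE6.neg r) (h : chevE6.commTerms r s = [(c, C, 1, 1)]) (hc : c < chevE6.nroots)
    (hcc : c ≠ r ∧ c ≠ chevE6.neg r ∧ chevE6.commTerms r c = []) (t u : K) :
    X K r t * X K s u * (X K r t)⁻¹ = X K s u * X K c ((C : K) * t * u) := by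
  have e := (glSys (rulesE6 K)).comm r hr s hs h1 h2 t u
  simp only [ChevalleyDatum.commWord, h, List.map_cons, List.map_nil, List.prod_cons, List.prod_nil, mul_one,
    pow_one] at e
  have hcm := xcomm hr hc hcc.1 hcc.2.1 hcc.2.2 t ((C : K) * t * u)
  rw [mul_inv_eq_iff_eq_mul, mul_assoc (X K s u), ← hcm.eq, ← mul_assoc]
  change _ = X K s u * X K r t * _
  rw [e, mul_assoc (X K r t * X K s u), xadd hc, show (C : K) * -t * u + (C : K) * t * u = 0 by ring, xzero hc,
    mul_one]

theorem xconj_nil {r s : ℕ} (hr : r < chevE6.nroots) (hs : s < chevE6.nroots) (h1 : s ≠ r) (h2 : s ≠ chevE6.neg r)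
    (h : chevE6.commTerms r s = []) (t u : K) : X K r t * X K s u * (X K r t)⁻¹ = X K s u := by
  rw [(xcomm hr hs h1 h2 h t u).eq, mul_inv_cancel_right]

theorem x20_mem (i : Fin 20) (t : K) : X K (L20 i) t ∈ CC K := by
  rw [CC, Subgroup.mem_centralizer_iff]
  rintro _ ⟨u, rfl⟩
  obtain ⟨h1, h2, h3⟩ := data71.2.2.2.2.1 i
  exact ((xcomm (data20 i).1 data71.1 h1 h2 h3 t u).eq).symm

theorem x30_mem (e : Fin 30) (t : K) : X K (L30 e) t ∈ CC K := by
  rw [CC, Subgroup.mem_centralizer_iff]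
  rintro _ ⟨u, rfl⟩
  obtain ⟨h1, h2, h3⟩ := data71.2.2.2.2.2 e
  exact ((xcomm (data30 e).1 data71.1 h1 h2 h3 t u).eq).symm

theorem x71_mem (t : K) : X K 71 t ∈ CC K := by
  rw [CC, Subgroup.mem_centralizer_iff]
  rintro _ ⟨u, rfl⟩
  exact (xcomm_self data71.1 u t).eq

variable (K) in
/-- The highest root group inside its centraliser. -/
noncomputable def ZZ : Subgroup ↥(CC K) where
  carrier := {g | ∃ u : K, (g : GL chevE6.Idx K) = X K 71 u}
  one_mem' := ⟨0, (xzero data71.1).symm⟩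
  mul_mem' := by
    rintro a b ⟨u, hu⟩ ⟨v, hv⟩
    exact ⟨u + v, by rw [Subgroup.coe_mul, hu, hv, xadd data71.1]⟩
  inv_mem' := by
    rintro a ⟨u, hu⟩
    exact ⟨-u, by rw [Subgroup.coe_inv, hu, xinv data71.1]⟩

instance zzNormal : (ZZ K).Normal := ⟨fun n hn g => by
  obtain ⟨u, hu⟩ := hn
  have hc : g * n = n * g := Subtype.ext (by
    rw [Subgroup.coe_mul, Subgroup.coe_mul, hu]
    exact ((Subgroup.mem_centralizer_iff.1 g.2) _ ⟨u, rfl⟩).symm)
  rw [hc, mul_inv_cancel_right]
  exact ⟨u, hu⟩⟩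

variable (K) in
/-- The centraliser modulo the highest root group. -/
abbrev CB := ↥(CC K) ⧸ ZZ K

/-- The images of the twenty root elements. -/
noncomputable def y20 (i : Fin 20) (t : K) : CB K := QuotientGroup.mk ⟨X K (L20 i) t, x20_mem i t⟩

/-- The images of the thirty root elements. -/
noncomputable def y30 (e : Fin 30) (t : K) : CB K := QuotientGroup.mk ⟨X K (L30 e) t, x30_mem e t⟩

theorem y20_add (i : Fin 20) (t u : K) : y20 i t * y20 i u = y20 i (t + u) := by
  rw [y20, y20, ← QuotientGroup.mk_mul]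
  exact congrArg QuotientGroup.mk (Subtype.ext (xadd (data20 i).1 t u))

theorem y20_commute (i j : Fin 20) (t u : K) : Commute (y20 i t) (y20 j u) := by
  rcases data2020 i j with rfl | ⟨h1, h2, h3⟩
  · show _ = _
    rw [y20_add, y20_add, add_comm]
  show _ = _
  rw [y20, y20, ← QuotientGroup.mk_mul, ← QuotientGroup.mk_mul, eq_comm, QuotientGroup.eq]
  have e := (glSys (rulesE6 K)).comm (L20 i) (data20 i).1 (L20 j) (data20 j).1 h1 h2 t u
  suffices hmem : ∀ w : List (ℕ × K), (∀ p ∈ w, p.1 = 71) → ∃ v, (w.map fun p => X K p.1 p.2).prod = X K 71 v by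
    obtain ⟨v, hv⟩ := hmem (chevE6.commWord K (L20 i) (L20 j) t u) (fun p hp => by
      simp only [ChevalleyDatum.commWord, List.mem_map] at hp
      obtain ⟨c, hc, rfl⟩ := hp
      exact h3 c hc)
    refine ⟨-v, ?_⟩
    rw [← xinv data71.1]
    show (X K (L20 j) u * X K (L20 i) t)⁻¹ * (X K (L20 i) t * X K (L20 j) u) = (X K 71 v)⁻¹
    rw [e, hv]
    simp [mul_assoc]
  intro w hw
  induction w with
  | nil => exact ⟨0, by simpa using (xzero data71.1).symm⟩
  | cons p w ih =>
    obtain ⟨v, hv⟩ := ih fun p hp => hw p (List.mem_cons_of_mem _ hp)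
    refine ⟨p.2 + v, ?_⟩
    rw [List.map_cons, List.prod_cons, hv, hw p List.mem_cons_self, xadd data71.1]

/-- One coordinate. -/
noncomputable def yHom (i : Fin 20) : Multiplicative K →* CB K :=
  MonoidHom.mk' (fun t => y20 i t.toAdd) fun a b => by rw [y20_add]; rfl

/-- The abelian group of the radical modulo its centre. -/
noncomputable def Phi : (Fin 20 → Multiplicative K) →* CB K :=
  MonoidHom.noncommPiCoprod (yHom (K := K)) fun _ _ _ _ _ => y20_commute _ _ _ _

/-- The same with additive coordinates. -/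
noncomputable def phi (w : Fin 20 → K) : CB K := Phi fun i => Multiplicative.ofAdd (w i)

theorem phi_add (v w : Fin 20 → K) : phi (v + w) = phi v * phi w := by
  rw [phi, phi, phi, ← map_mul]; rfl

theorem phi_zero : phi (0 : Fin 20 → K) = 1 := by rw [phi]; exact map_one Phi

theorem phi_single (i : Fin 20) (t : K) : phi (Pi.single i t) = y20 i t := by
  rw [phi, show (fun j => Multiplicative.ofAdd ((Pi.single i t : Fin 20 → K) j)) =
    Pi.mulSingle i (Multiplicative.ofAdd t) from funext fun j => by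
      rcases eq_or_ne j i with rfl | h
      · simp
      · simp [h]]
  exact MonoidHom.noncommPiCoprod_mulSingle _ _ _

theorem app_src_single (e : Fin 30) (t : K) (i : Fin 20) (u : K) :
    app src e t (Pi.single i u) = Pi.single i u +
      (tgt e i).elim 0 (fun p => Pi.single p.1 ((p.2 : K) * t * u)) := by
  funext k
  simp only [app, Pi.add_apply]
  congr 1
  rcases ht : tgt e i with _ | r
  · simp only [Option.elim_none, Pi.zero_apply]
    rcases hs : src e k with _ | p
    · rfl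
    · simp only [Option.elim_some]
      rcases eq_or_ne p.1 i with hp | hp
      · have h1 := (dataSign e k).2
        rw [hs] at h1
        have h2 := (dataInv e p.1 k p.2 (by simpa [Option.elim] using h1)).2 (by rw [hs])
        rw [hp, ht] at h2
        exact absurd h2 (by simp)
      · simp [Pi.single_eq_of_ne hp]
  · simp only [Option.elim_some]
    have h1 := (dataSign e i).1
    rw [ht] at h1
    have h2 := (dataInv e i r.1 r.2 (by simpa [Option.elim] using h1)).1 (by rw [ht])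
    rcases eq_or_ne k r.1 with rfl | hk
    · simp [h2]
    · rw [Pi.single_eq_of_ne hk]
      rcases hs : src e k with _ | p
      · rfl
      · simp only [Option.elim_some]
        rcases eq_or_ne p.1 i with hp | hp
        · have g1 := (dataSign e k).2
          rw [hs] at g1
          have g2 := (dataInv e p.1 k p.2 (by simpa [Option.elim] using g1)).2 (by rw [hs])
          rw [hp, ht, Option.some.injEq] at g2
          exact absurd (congrArg Prod.fst g2).symm hk
        · simp [Pi.single_eq_of_ne hp]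

theorem conj30 (e : Fin 30) (t : K) (w : Fin 20 → K) :
    y30 e t * phi w * (y30 e t)⁻¹ = phi (app src e t w) := by
  induction w using Pi.single_induction with
  | zero =>
    rw [phi_zero, mul_one, mul_inv_cancel,
      show app src e t (0 : Fin 20 → K) = 0 from funext fun k => by
        rcases h : src e k with _ | p <;> simp [app, h], phi_zero]
  | add v w hv hw =>
    rw [app_add, phi_add, phi_add, ← hv, ← hw]
    simp [mul_assoc]
  | single i u =>
    rw [app_src_single, phi_add, phi_single]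
    obtain ⟨h1, h2, h3, h4⟩ := data3020 e i
    rcases h : tgt e i with _ | ⟨j, C⟩
    · rw [h] at h3
      simp only [Option.elim_none, phi_zero, mul_one]
      rw [y30, y20, ← QuotientGroup.mk_inv, ← QuotientGroup.mk_mul, ← QuotientGroup.mk_mul]
      exact congrArg QuotientGroup.mk (Subtype.ext (xconj_nil (data30 e).1 (data20 i).1 h1 h2 h3 t u))
    · rw [h] at h3 h4
      simp only [Option.all_some, Option.isNone_iff_eq_none] at h4
      obtain ⟨g1, g2, g3, -⟩ := data3020 e j
      rw [h4] at g3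
      simp only [Option.elim_some, phi_single]
      rw [y30, y20, y20, ← QuotientGroup.mk_inv, ← QuotientGroup.mk_mul, ← QuotientGroup.mk_mul,
        ← QuotientGroup.mk_mul]
      exact congrArg QuotientGroup.mk (Subtype.ext (xconj (data30 e).1 (data20 i).1 h1 h2 h3 (data20 j).1
        ⟨g1, g2, g3⟩ t u))

end Quot

section Twisted

variable {K : Type*} [Field K] [Fintype K] {q : ℕ} (hq : IsPrimePow q) (hK : Fintype.card K = q ^ 2)

local notation "σ" => frobE6 hq hK
local notation "GK" => GL chevE6.Idx K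

theorem sig_x (r : ℕ) (hr : r < chevE6.nroots) (t : K) :
    (twistE6 hq hK).sig (X K r t) = X K (twE6.root r) ((symE6.sgn r : K) * σ t) :=
  (twistE6 hq hK).sig_x r hr t

theorem pos_mem {u : GK} (hu : u ∈ (glSys (rulesE6 K)).Ubar) (hf : (twistE6 hq hK).sig u = u) :
    u ∈ twistedE6 K q := by
  obtain ⟨len, hR⟩ := (rulesE6 K).root
  exact (((grpE6 hq hK).fixUbar_eq (rulesE6 K) hR ((orbE6 hq hK).comm_word hR twE6.longSeq)
    ((twE6_ok.isLongest (T := twistE6 hq hK) (fun _ => rfl) rfl).invSet_eq hR)).2 ⟨hu, hf⟩).2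

theorem act_long_neg : ∀ r : Fin chevE6.nroots, chevE6.IsPosRoot r ∨
    chevE6.IsPosRoot (act chevE6 (twE6.longSeq.flatMap (twE6.wJ chevE6)) r) := by
  decide +kernel

theorem neg_mem {u : GK} {A : Set ℕ} (hA : ∀ r ∈ A, chevE6.IsNegRoot r) (hu : u ∈ (glSys (rulesE6 K)).US A)
    (hf : (twistE6 hq hK).sig u = u) : u ∈ twistedE6 K q := by
  obtain ⟨len, hR⟩ := (rulesE6 K).root
  set W := grpE6 hq hK
  obtain ⟨-, hc, hgT⟩ := W.prod_nJ (rulesE6 K) hR twE6.longSeq
  set g := (twE6.longSeq.map (W.nJ (rulesE6 K) hR)).prod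
  have hG : u ∈ (glSys (rulesE6 K)).Gbar := Twist.US_le_Gbar (fun r hr => (hA r hr).1) hu
  have h1 := conjP_mem_US hc (fun r hr => (hA r hr).1) hu
  have h2 : g * u * g⁻¹ ∈ twistedE6 K q := by
    refine pos_mem hq hK ((glSys (rulesE6 K)).US_mono ?_ h1) ?_
    · rintro _ ⟨r, hr, rfl⟩
      rcases act_long_neg ⟨r, (hA r hr).1⟩ with h | h
      · exact absurd h fun h' => hR.not_pos_and_neg h' (hA r hr)
      · exact h
    · rw [sig_conj (W.Tw_le hgT) hG (W.fixed hgT), hf]
  have := mul_mem (mul_mem (inv_mem (show g ∈ twistedE6 K q from hgT)) h2) hgT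
  simpa [mul_assoc] using this

/-- The twisted element of a root of `L30`. -/
noncomputable def lel (e : Fin 30) (t : K) : GK :=
  if p30 e = e then X K (L30 e) t else X K (L30 e) t * X K (L30 (p30 e)) ((g30 e : K) * σ t)

theorem lel_mem {e : Fin 30} {t : K} (ht' : Ok hq hK e t) : lel hq hK e t ∈ twistedE6 K q ⊓ CC K := by
  refine Subgroup.mem_inf.2 ⟨?_, ?_⟩
  swap
  · unfold lel
    split_ifs
    exacts [x30_mem _ _, mul_mem (x30_mem _ _) (x30_mem _ _)]
  obtain ⟨hlt, hinv, hg, -, hroot, hsgn, hfix, hsign, hsame⟩ := data30 e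
  have hfixed : (twistE6 hq hK).sig (lel hq hK e t) = lel hq hK e t := by
    unfold lel
    split_ifs with he
    · rw [sig_x hq hK _ hlt, hroot, he, hsgn, hfix he, Int.cast_one, one_mul, ht' he]
    · obtain ⟨k1, k2, k3⟩ := (dataPair.2 e).resolve_left he
      obtain ⟨hlt', -, -, -, hroot', hsgn', -⟩ := data30 (p30 e)
      rw [(twistE6 hq hK).sig_mul _ ((glSys (rulesE6 K)).x_mem_Gbar hlt _) _
        ((glSys (rulesE6 K)).x_mem_Gbar hlt' _), sig_x hq hK _ hlt, sig_x hq hK _ hlt', hroot, hroot', hinv,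
        hsgn, hsgn', hg, map_mul, map_intCast, sig2, ← mul_assoc (g30 e : K), ← Int.cast_mul,
        (data30 e).2.2.2.1, Int.cast_one, one_mul]
      exact ((xcomm hlt hlt' k1 k2 k3 _ _).eq).symm
  by_cases hneg : e.val < 15
  · refine neg_mem hq hK (A := {r | chevE6.IsNegRoot r}) (fun r hr => hr) ?_ hfixed
    unfold lel
    split_ifs
    · exact (glSys (rulesE6 K)).x_mem_US (show L30 e ∈ {r | chevE6.IsNegRoot r} from hsign.1 hneg) _
    · exact mul_mem ((glSys (rulesE6 K)).x_mem_US (show L30 e ∈ {r | chevE6.IsNegRoot r} from hsign.1 hneg) _)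
        ((glSys (rulesE6 K)).x_mem_US (show L30 (p30 e) ∈ {r | chevE6.IsNegRoot r} from
          (data30 (p30 e)).2.2.2.2.2.2.2.1.1 (hsame.2 hneg)) _)
  · refine pos_mem hq hK ?_ hfixed
    have hp := hsign.2 (not_lt.1 hneg)
    have hp' := (data30 (p30 e)).2.2.2.2.2.2.2.1.2 (not_lt.1 fun h => hneg (hsame.1 h))
    unfold lel
    split_ifs
    · exact (glSys (rulesE6 K)).x_mem_US (show L30 e ∈ {r | chevE6.IsPosRoot r} from hp) _
    · exact mul_mem ((glSys (rulesE6 K)).x_mem_US (show L30 e ∈ {r | chevE6.IsPosRoot r} from hp) _)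
        ((glSys (rulesE6 K)).x_mem_US (show L30 (p30 e) ∈ {r | chevE6.IsPosRoot r} from hp') _)

/-- A lift of the radical modulo its centre. -/
noncomputable def lift20 (w : Fin 20 → K) : GK := (List.ofFn fun i => X K (L20 i) (w i)).prod

theorem lift20_mem {w : Fin 20 → K} (hw : w ∈ Md hq hK) : lift20 w ∈ twistedE6 K q ⊓ CC K := by
  have hlong : ∀ i : Fin 20, p20 i = i → X K (L20 i) (w i) ∈ twistedE6 K q := fun i hi => by
    refine pos_mem hq hK ((glSys (rulesE6 K)).x_mem_US (show L20 i ∈ {r | chevE6.IsPosRoot r} from (data20 i).2.1) _) ?_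
    rw [sig_x hq hK _ (data20 i).1, (data20 i).2.2.2.2.2.1, (data20 i).2.2.2.2.2.2.1, hi, ← hw i, hi]
  have hpair : ∀ i : Fin 20, p20 i ≠ i → X K (L20 i) (w i) * X K (L20 (p20 i)) (w (p20 i)) ∈ twistedE6 K q :=
      fun i hi => by
    obtain ⟨k1, k2, k3⟩ := (dataPair.1 i).resolve_left hi
    refine pos_mem hq hK (mul_mem
      ((glSys (rulesE6 K)).x_mem_US (show L20 i ∈ {r | chevE6.IsPosRoot r} from (data20 i).2.1) _)
      ((glSys (rulesE6 K)).x_mem_US (show L20 (p20 i) ∈ {r | chevE6.IsPosRoot r} from (data20 (p20 i)).2.1) _)) ?_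
    rw [(twistE6 hq hK).sig_mul _ ((glSys (rulesE6 K)).x_mem_Gbar (data20 i).1 _) _
        ((glSys (rulesE6 K)).x_mem_Gbar (data20 (p20 i)).1 _), sig_x hq hK _ (data20 i).1,
      sig_x hq hK _ (data20 (p20 i)).1, (data20 i).2.2.2.2.2.1, (data20 i).2.2.2.2.2.2.1,
      (data20 (p20 i)).2.2.2.2.2.1, (data20 (p20 i)).2.2.2.2.2.2.1, (data20 i).2.2.1, ← hw i]
    have h2 := hw (p20 i)
    rw [(data20 i).2.2.1] at h2
    rw [← h2]
    exact ((xcomm (data20 i).1 (data20 (p20 i)).1 k1 k2 k3 _ _).eq).symm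
  refine Subgroup.mem_inf.2 ⟨?_, list_prod_mem fun g hg => ?_⟩
  · unfold lift20
    simp only [List.ofFn_succ, List.ofFn_zero, List.prod_cons, List.prod_nil, mul_one, Fin.succ_zero_eq_one]
    have := mul_mem (hlong 0 rfl) (mul_mem (hlong 1 rfl) (mul_mem (hlong 2 rfl) (mul_mem (hlong 3 rfl)
      (mul_mem (hlong 4 rfl) (mul_mem (hlong 5 rfl) (mul_mem (hlong 6 rfl) (mul_mem (hlong 7 rfl)
      (mul_mem (hpair 8 (by decide)) (mul_mem (hpair 10 (by decide)) (mul_mem (hpair 12 (by decide))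
      (mul_mem (hpair 14 (by decide)) (mul_mem (hpair 16 (by decide)) (hpair 18 (by decide))))))))))))))
    simpa [mul_assoc, p20] using this
  · obtain ⟨i, rfl⟩ := List.mem_ofFn.1 hg
    exact x20_mem _ _

theorem mk_lift20 {w : Fin 20 → K} (hw : w ∈ Md hq hK) :
    (QuotientGroup.mk ⟨lift20 w, (Subgroup.mem_inf.1 (lift20_mem hq hK hw)).2⟩ : CB K) = phi w := by
  have key : ∀ (n : ℕ) (f : Fin n → Fin 20), ∀ hm : (List.ofFn fun i => X K (L20 (f i)) (w (f i))).prod ∈ CC K,
      (QuotientGroup.mk ⟨_, hm⟩ : CB K) = phi (∑ i, Pi.single (f i) (w (f i))) := by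
    intro n
    induction n with
    | zero => intro f hm; simp [phi_zero]; exact (ZZ K).one_mem
    | succ n ih =>
      intro f hm
      rw [Fin.sum_univ_succ, phi_add, phi_single, ← ih (fun i => f i.succ) (list_prod_mem fun g hg => by
        obtain ⟨i, rfl⟩ := List.mem_ofFn.1 hg
        exact x20_mem _ _), y20, ← QuotientGroup.mk_mul]
      exact congrArg QuotientGroup.mk (Subtype.ext (by simp [List.ofFn_succ]))
  have h := key 20 id (Subgroup.mem_inf.1 (lift20_mem hq hK hw)).2
  rw [Finset.sum_congr rfl (fun i _ => rfl), show ∑ i : Fin 20, Pi.single (id i) (w (id i)) = w from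
    Finset.univ_sum_single w] at h
  exact h

theorem eq_mul_x71 {g h : GK} (hg : g ∈ twistedE6 K q ⊓ CC K) (hh : h ∈ twistedE6 K q ⊓ CC K)
    (e : (QuotientGroup.mk ⟨g, (Subgroup.mem_inf.1 hg).2⟩ : CB K) =
      QuotientGroup.mk ⟨h, (Subgroup.mem_inf.1 hh).2⟩) : ∃ w : ↥(Fq hq hK), h = g * X K 71 w := by
  rw [QuotientGroup.eq] at e
  obtain ⟨u, hu⟩ := e
  simp only [Subgroup.coe_mul, Subgroup.coe_inv] at hu
  have hfix : (twistE6 hq hK).sig (X K 71 u) = X K 71 u :=
    hu ▸ (grpE6 hq hK).fixed (mul_mem (inv_mem (Subgroup.mem_inf.1 hg).1) (Subgroup.mem_inf.1 hh).1)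
  rw [sig_x hq hK 71 data71.1, data71.2.2.1, data71.2.2.2.1, Int.cast_one, one_mul] at hfix
  refine ⟨⟨u, ?_⟩, by rw [← hu, mul_inv_cancel_left]⟩
  show σ u = u
  obtain ⟨len, hR⟩ := (rulesE6 K).root
  by_contra hne
  have h0 : X K 71 (σ u - u) = X K 46 0 := by
    rw [sub_eq_add_neg, ← xadd data71.1, hfix, xadd data71.1, add_neg_cancel, xzero data71.1, xzero (by decide)]
  exact absurd ((glSys (rulesE6 K)).x_root_inj hR data71.1 (by decide) (sub_ne_zero.2 hne) h0) (by decide)

/-- The conjugation formula. -/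
theorem conj_lel {e : Fin 30} {t : K} (ht' : Ok hq hK e t) (w : Fin 20 → K) :
    (QuotientGroup.mk ⟨lel hq hK e t, (Subgroup.mem_inf.1 (lel_mem hq hK ht')).2⟩ : CB K) * phi w *
        (QuotientGroup.mk ⟨lel hq hK e t, (Subgroup.mem_inf.1 (lel_mem hq hK ht')).2⟩ : CB K)⁻¹ =
      phi (lapp hq hK src e t w) := by
  by_cases he : p30 e = e
  · simp only [lapp, if_pos he]
    rw [← conj30]
    have : (⟨lel hq hK e t, (Subgroup.mem_inf.1 (lel_mem hq hK ht')).2⟩ : ↥(CC K)) =
        ⟨X K (L30 e) t, x30_mem e t⟩ := Subtype.ext (by simp [lel, he])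
    rw [this]
    rfl
  · simp only [lapp, if_neg he]
    rw [← conj30, ← conj30]
    have : (⟨lel hq hK e t, (Subgroup.mem_inf.1 (lel_mem hq hK ht')).2⟩ : ↥(CC K)) =
        ⟨X K (L30 e) t, x30_mem e t⟩ * ⟨X K (L30 (p30 e)) ((g30 e : K) * σ t), x30_mem _ _⟩ :=
      Subtype.ext (by simp [lel, he])
    rw [this, QuotientGroup.mk_mul]
    simp only [y30, mul_inv_rev, mul_assoc]

/-- A torus element. -/
noncomputable def tor (c : Fin chevE6.rank → Kˣ) : GK :=
  (glSys (rulesE6 K)).tau (rulesE6 K) (rulesE6 K).root.choose_spec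
    (glSys_HMul (rulesE6 K) (rulesE6 K).root.choose_spec) c

/-- The character of a root on torus parameters. -/
def tchar (c : Fin chevE6.rank → Kˣ) (r : ℕ) : Kˣ := ∏ j : Fin chevE6.rank, c j ^ chevE6.cartan j r

theorem tor_conj (c : Fin chevE6.rank → Kˣ) {r : ℕ} (hr : r < chevE6.nroots) (t : K) :
    tor c * X K r t * (tor c)⁻¹ = X K r ((tchar c r : K) * t) :=
  tau_conj _ _ _ c hr t

include hq hK in
theorem tor_mem {c : Fin chevE6.rank → Kˣ} (hc : c ∈ fixTorusE6 K q) : tor c ∈ twistedE6 K q :=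
  tau_mem_E6 hq hK (rulesE6 K).root.choose_spec hc

end Twisted

end Cfsg.Agent.TwE6Deg
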