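import Mathlib.Analysis.Fourier.FiniteAbelian.PontryaginDuality
import Mathlib.RepresentationTheory.Irreducible
import Mathlib.NumberTheory.LegendreSymbol.AddCharacter

/-!
# Character decomposition of a subspace under a finite abelian group of operators (owner: helper35)

`r : A → End V` need only be additive on the subspace it preserves.
-/

set_option autoImplicit false
set_option linter.unusedSectionVars false

namespace Cfsg.Agent.TwE6Deg

open Module (finrank)

variable {V : Type*} [AddCommGroup V] [Module ℂ V] [FiniteDimensional ℂ V]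

/-- An injective map of a subspace into another bounds the dimension. -/
theorem finrank_le_map {S T : Submodule ℂ V} (f : V →ₗ[ℂ] V) (hf : Function.Injective f)
    (h : ∀ x ∈ S, f x ∈ T) : finrank ℂ S ≤ finrank ℂ T :=
  LinearMap.finrank_le_finrank_of_injective (f := f.restrict h) fun _ _ e =>
    Subtype.ext (hf (congrArg Subtype.val e))

section Decomp

variable {A : Type*} [AddCommGroup A]

/-- The eigenspace of a character. -/
def eig (r : A → Module.End ℂ V) (χ : AddChar A ℂ) : Submodule ℂ V where
  carrier := {x | ∀ a, r a x = χ a • x}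
  add_mem' {x y} hx hy a := by rw [map_add, hx a, hy a, smul_add]
  zero_mem' a := by simp
  smul_mem' c x hx a := by rw [map_smul, hx a, smul_comm]

theorem mem_eig {r : A → Module.End ℂ V} {χ : AddChar A ℂ} {x : V} :
    x ∈ eig r χ ↔ ∀ a, r a x = χ a • x := Iff.rfl

/-- `r` is an action of `A` on the subspace `W`. -/
structure ActsOn (r : A → Module.End ℂ V) (W : Submodule ℂ V) : Prop where
  stable : ∀ a, ∀ x ∈ W, r a x ∈ W
  zero : ∀ x ∈ W, r 0 x = x
  add : ∀ a b, ∀ x ∈ W, r (a + b) x = r a (r b x)

theorem ActsOn.inf {r : A → Module.End ℂ V} {W W' : Submodule ℂ V} (h : ActsOn r W)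
    (h' : ∀ a, ∀ x ∈ W', r a x ∈ W') : ActsOn r (W ⊓ W') :=
  ⟨fun a x hx => ⟨h.stable a x hx.1, h' a x hx.2⟩, fun x hx => h.zero x hx.1, fun a b x hx => h.add a b x hx.1⟩

theorem ActsOn.inj {r : A → Module.End ℂ V} {W : Submodule ℂ V} (h : ActsOn r W) (a : A) {x : V} (hx : x ∈ W)
    (e : r a x = 0) : x = 0 := by
  have := h.add (-a) a x hx
  rw [neg_add_cancel, h.zero x hx, e, map_zero] at this
  exact this

variable [Fintype A]

open scoped Classical in
/-- The projector of a character. -/
noncomputable def proj (r : A → Module.End ℂ V) (χ : AddChar A ℂ) : Module.End ℂ V :=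
  (Fintype.card A : ℂ)⁻¹ • ∑ a, χ (-a) • r a

theorem proj_apply (r : A → Module.End ℂ V) (χ : AddChar A ℂ) (x : V) :
    proj r χ x = (Fintype.card A : ℂ)⁻¹ • ∑ a, χ (-a) • r a x := by
  simp [proj, LinearMap.sum_apply]

theorem proj_mem {r : A → Module.End ℂ V} {W : Submodule ℂ V} (h : ActsOn r W) (χ : AddChar A ℂ) {x : V}
    (hx : x ∈ W) : proj r χ x ∈ W ⊓ eig r χ := by
  classical
  refine ⟨by rw [proj_apply]; exact W.smul_mem _ (W.sum_mem fun a _ => W.smul_mem _ (h.stable a x hx)), fun b => ?_⟩
  rw [proj_apply, map_smul, map_sum, smul_comm (χ b) _ (∑ a, χ (-a) • r a x)]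
  congr 1
  rw [Finset.smul_sum]
  refine Fintype.sum_equiv (Equiv.addLeft b) _ _ fun a => ?_
  rw [map_smul, ← h.add b a x hx, Equiv.coe_addLeft, smul_smul, ← AddChar.map_add_eq_mul, neg_add_rev,
    add_left_comm, add_neg_cancel, add_zero]

open scoped Classical in
theorem proj_eig {r : A → Module.End ℂ V} (χ φ : AddChar A ℂ) {x : V} (hx : x ∈ eig r φ) :
    proj r χ x = if φ = χ then x else 0 := by
  rw [proj_apply, Finset.sum_congr rfl fun a _ => by rw [hx a, smul_smul, ← AddChar.neg_apply,
    ← AddChar.add_apply], ← Finset.sum_smul, AddChar.sum_eq_ite, smul_smul]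
  split_ifs with h1 h2 h2
  · rw [inv_mul_cancel₀ (Nat.cast_ne_zero.2 Fintype.card_ne_zero), one_smul]
  · exact absurd (neg_add_eq_zero.1 h1).symm h2
  · exact absurd (h2 ▸ neg_add_cancel _) h1
  · rw [mul_zero, zero_smul]

open scoped Classical in
theorem sum_proj {r : A → Module.End ℂ V} {W : Submodule ℂ V} (h : ActsOn r W) {x : V} (hx : x ∈ W) :
    ∑ χ : AddChar A ℂ, proj r χ x = x := by
  simp only [proj_apply, ← Finset.smul_sum]
  rw [Finset.sum_comm]
  simp only [← Finset.sum_smul, AddChar.sum_apply_eq_ite, neg_eq_zero, ite_smul, zero_smul, Finset.sum_ite_eq',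
    Finset.mem_univ, if_true, h.zero x hx, smul_smul]
  rw [inv_mul_cancel₀ (Nat.cast_ne_zero.2 Fintype.card_ne_zero), one_smul]

/-- The dimension of a subspace is the sum over its character parts. -/
theorem finrank_eq_sum {r : A → Module.End ℂ V} {W : Submodule ℂ V} (h : ActsOn r W) :
    finrank ℂ W = ∑ χ : AddChar A ℂ, finrank ℂ ↥(W ⊓ eig r χ) := by
  classical
  rw [← Module.finrank_pi_fintype ℂ]
  refine LinearEquiv.finrank_eq
    { toFun := fun x χ => ⟨proj r χ x, proj_mem h χ x.2⟩
      map_add' := fun x y => funext fun χ => Subtype.ext (by simp)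
      map_smul' := fun c x => funext fun χ => Subtype.ext (by simp)
      invFun := fun f => ⟨∑ χ, (f χ : V), W.sum_mem fun χ _ => (f χ).2.1⟩
      left_inv := fun x => Subtype.ext (sum_proj h x.2)
      right_inv := fun f => funext fun χ => Subtype.ext ?_ }
  simp only [map_sum]
  rw [Finset.sum_eq_single χ (fun φ _ hne => by rw [proj_eig χ φ (f φ).2.2, if_neg hne])
    (fun hn => absurd (Finset.mem_univ χ) hn), proj_eig χ χ (f χ).2.2, if_pos rfl]

end Decomp

section Field

variable {F : Type*} [Field F] [Fintype F]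

/-- All characters of the additive group of a finite field are multiples of a non-trivial one. -/
theorem mulShift_bijective {ψ : AddChar F ℂ} (hψ : ψ ≠ 0) :
    Function.Bijective fun c : F => AddChar.mulShift ψ c := by
  refine (Fintype.bijective_iff_injective_and_card _).2 ⟨?_, (AddChar.card_eq (α := F)).symm⟩
  exact AddChar.to_mulShift_inj_of_isPrimitive (AddChar.IsPrimitive.of_ne_one hψ)

end Field

end Cfsg.Agent.TwE6Deg
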