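import Cfsg.Agent.TwE6Deg.Cells
import Cfsg.Agent.TwE6Deg.Elems
import Cfsg.Agent.TwE6Deg.Rep

/-!
# The radical of ²E₆(q) in a representation (owner: helper35)

`fixZ` is the fixed space of the highest root group `Z`; the radical modulo `Z` acts on it through its characters,
whose multiplicities `mult` satisfy `Mult`. Comparing the fixed space of `Z` with that of a conjugate root group in
the radical gives the dimension of the other isotypic parts of `Z`.
-/

set_option autoImplicit false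
set_option linter.unusedSectionVars false
set_option linter.unusedSimpArgs false

namespace Cfsg.Agent.TwE6Deg

open Cfsg.Lie Cfsg.Agent.ChevGrp Cfsg.Agent.ChevTw
open Module (finrank)

variable {K : Type*} [Field K] [Fintype K] {q : ℕ} (hq : IsPrimePow q) (hK : Fintype.card K = q ^ 2)

local notation "σ" => frobE6 hq hK
local notation "GK" => GL chevE6.Idx K

/-- The fixed field as a type. -/
abbrev FqT : Type _ := ↥(Fq hq hK)

/-- The coordinates as a type. -/
abbrev MdT : Type _ := ↥(Md hq hK)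

noncomputable instance instFintypeFqT : Fintype (FqT hq hK) := Fintype.ofFinite _

noncomputable instance instFintypeMdT : Fintype (MdT hq hK) := Fintype.ofFinite _

theorem fq_mem {t : K} (h : σ t = t) : t ∈ Fq hq hK := h

theorem card_FqT : Fintype.card (FqT hq hK) = q := by
  exact (Fintype.card_of_subtype (p := fun x => x ∈ Fq hq hK) (FqF hq hK) fun x => mem_FqF hq hK).trans (card_FqF hq hK)

/-- A root element of the group with parameter in the fixed field. -/
noncomputable def zEl {r : ℕ} (hr : r ∈ ([46, 70, 71, 39, 44, 60] : List ℕ)) (a : FqT hq hK) :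
    ↥(twistedE6 K q) :=
  ⟨X K r (a : K), root_mem hq hK hr (fq_apply hq hK a)⟩

theorem zEl_add {r : ℕ} (hr : r ∈ ([46, 70, 71, 39, 44, 60] : List ℕ)) (a b : FqT hq hK) :
    zEl hq hK hr (a + b) = zEl hq hK hr a * zEl hq hK hr b :=
  Subtype.ext (by simp only [zEl, Subgroup.coe_mul, Subfield.coe_add, xadd (dataFix r hr).1])

theorem zEl_zero {r : ℕ} (hr : r ∈ ([46, 70, 71, 39, 44, 60] : List ℕ)) : zEl hq hK hr 0 = 1 :=
  Subtype.ext (by simp only [zEl, ZeroMemClass.coe_zero, xzero (dataFix r hr).1, Subgroup.coe_one])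

/-- An element of the lift. -/
noncomputable def qEl (m : MdT hq hK) : ↥(twistedE6 K q) :=
  ⟨lift20 (m : Fin 20 → K), (Subgroup.mem_inf.1 (lift20_mem hq hK m.2)).1⟩

variable {V : Type*} [AddCommGroup V] [Module ℂ V] [FiniteDimensional ℂ V]
  (ρ : Representation ℂ ↥(twistedE6 K q) V)

theorem rho_mul (g h : ↥(twistedE6 K q)) (x : V) : ρ (g * h) x = ρ g (ρ h x) := by
  rw [map_mul]; rfl

theorem rho_inj (g : ↥(twistedE6 K q)) : Function.Injective (ρ g) := fun x y e => by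
  have := congrArg (ρ g⁻¹) e
  simpa [← rho_mul ρ] using this

/-- The action of the highest root group. -/
noncomputable def rz (a : FqT hq hK) : Module.End ℂ V := ρ (zEl hq hK (r := 71) (by simp) a)

/-- The action of the lift of the radical. -/
noncomputable def rq (m : MdT hq hK) : Module.End ℂ V := ρ (qEl hq hK m)

/-- The fixed space of the highest root group. -/
noncomputable def fixZ : Submodule ℂ V := eig (rz hq hK ρ) 0

theorem mem_fixZ {x : V} : x ∈ fixZ hq hK ρ ↔ ∀ a, rz hq hK ρ a x = x := by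
  simp [fixZ, mem_eig]

theorem actsOn_root {r : ℕ} (hr : r ∈ ([46, 70, 71, 39, 44, 60] : List ℕ)) :
    ActsOn (fun a => ρ (zEl hq hK hr a)) ⊤ :=
  ⟨fun _ _ _ => trivial, fun x _ => by simp [zEl_zero hq hK hr], fun a b x _ => by
    rw [zEl_add hq hK hr, rho_mul ρ]⟩

theorem actsOn_rz : ActsOn (rz hq hK ρ) ⊤ := actsOn_root hq hK ρ _

theorem cc_stable {g : ↥(twistedE6 K q)} (hg : (g : GK) ∈ CC K) {x : V} (hx : x ∈ fixZ hq hK ρ) :
    ρ g x ∈ fixZ hq hK ρ := by
  rw [mem_fixZ] at hx ⊢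
  intro a
  have e : zEl hq hK (r := 71) (by simp) a * g = g * zEl hq hK (r := 71) (by simp) a :=
    Subtype.ext ((Subgroup.mem_centralizer_iff.1 hg) _ ⟨(a : K), rfl⟩)
  rw [rz, ← rho_mul ρ, e, rho_mul ρ]
  exact congrArg (ρ g) (hx a)

/-- The action on the fixed space only depends on the class modulo the highest root group. -/
theorem mod_z {g h : ↥(twistedE6 K q)} (hg : (g : GK) ∈ CC K) (hh : (h : GK) ∈ CC K)
    (e : (QuotientGroup.mk ⟨(g : GK), hg⟩ : CB K) = QuotientGroup.mk ⟨(h : GK), hh⟩) {x : V}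
    (hx : x ∈ fixZ hq hK ρ) : ρ h x = ρ g x := by
  obtain ⟨w, hw⟩ := eq_mul_x71 hq hK (g := (g : GK)) (h := (h : GK)) ⟨g.2, hg⟩ ⟨h.2, hh⟩ e
  rw [show h = g * zEl hq hK (r := 71) (by simp) w from Subtype.ext hw, rho_mul ρ]
  exact congrArg (ρ g) ((mem_fixZ hq hK ρ).1 hx w)

theorem qEl_cc (m : MdT hq hK) : (qEl hq hK m : GK) ∈ CC K := (Subgroup.mem_inf.1 (lift20_mem hq hK m.2)).2

theorem mk_qEl (m : MdT hq hK) :
    (QuotientGroup.mk ⟨(qEl hq hK m : GK), qEl_cc hq hK m⟩ : CB K) = phi (m : Fin 20 → K) :=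
  mk_lift20 hq hK m.2

theorem actsOn_rq : ActsOn (rq hq hK ρ) (fixZ hq hK ρ) := by
  refine ⟨fun m x hx => cc_stable hq hK ρ (qEl_cc hq hK m) hx, fun x hx => ?_, fun a b x hx => ?_⟩
  · rw [rq, mod_z hq hK ρ (g := 1) (h := qEl hq hK 0) (one_mem _) (qEl_cc hq hK 0) ?_ hx, map_one]
    · rfl
    · rw [mk_qEl, ZeroMemClass.coe_zero, phi_zero]
      rfl
  · rw [rq, rq, rq, ← rho_mul ρ]
    refine mod_z hq hK ρ (g := qEl hq hK a * qEl hq hK b) (mul_mem (qEl_cc hq hK a) (qEl_cc hq hK b))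
      (qEl_cc hq hK _) ?_ hx
    rw [mk_qEl, AddSubgroup.coe_add, phi_add, ← mk_qEl hq hK a, ← mk_qEl hq hK b, ← QuotientGroup.mk_mul]
    rfl

variable (ψ : AddChar (FqT hq hK) ℂ)

/-- The pairing with a fixed element. -/
noncomputable def pairHom (v : MdT hq hK) : MdT hq hK →+ FqT hq hK :=
  AddMonoidHom.mk' (fun m => ⟨pairing (v : Fin 20 → K) m, sig_pairing hq hK v.2 m.2⟩) fun a b =>
    Subtype.ext (by simp [pairing, mul_add, Finset.sum_add_distrib])

/-- The character of a coordinate vector. -/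
noncomputable def chiM (v : MdT hq hK) : AddChar (MdT hq hK) ℂ := ψ.compAddMonoidHom (pairHom hq hK v)

theorem chiM_zero : chiM hq hK ψ 0 = 0 := by
  refine DFunLike.ext _ _ fun m => ?_
  have : pairHom hq hK 0 m = 0 := Subtype.ext (by simp [pairHom, pairing])
  simp [chiM, this]

theorem chiM_apply (v m : MdT hq hK) (y : FqT hq hK) (h : (y : K) = pairing (v : Fin 20 → K) m) :
    chiM hq hK ψ v m = ψ y :=
  congrArg ψ (Subtype.ext h.symm)

theorem addChar_ne_zero {A : Type*} [AddGroup A] (φ : AddChar A ℂ) (b : A) : φ b ≠ 0 := fun h => by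
  have h1 := AddChar.map_add_eq_mul φ b (-b)
  rw [add_neg_cancel, AddChar.map_zero_eq_one, h, zero_mul] at h1
  exact one_ne_zero h1

/-- A vector pairing trivially with all coordinate vectors vanishes. -/
theorem pairing_nondeg {v : Fin 20 → K} (hv : v ∈ Md hq hK)
    (h : ∀ m ∈ Md hq hK, pairing v m = 0) : v = 0 := by
  funext i
  rcases eq_or_ne (p20 i) i with hi | hi
  · have hm : (Pi.single i 1 : Fin 20 → K) ∈ Md hq hK := fun j => by
      rcases eq_or_ne j i with rfl | hj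
      · simp [hi, (data20 j).2.2.2.2.2.2.2 hi]
      · have : p20 j ≠ i := fun e => hj (by rw [← (data20 j).2.2.1, e, hi])
        simp [Pi.single_eq_of_ne this, Pi.single_eq_of_ne hj]
    have := h _ hm
    simpa [pairing, Pi.single_apply] using this
  · by_contra hne
    obtain ⟨t, ht'⟩ := exists_trace_mul hq hK (x := v i) hne
    obtain ⟨-, -, hinv, hg, hgg, -⟩ := data20 i
    have hgg' : (g20 i : K) * g20 i = 1 := by rw [← Int.cast_mul, hgg, Int.cast_one]
    have hm : (Pi.single i t + Pi.single (p20 i) ((g20 i : K) * σ t) : Fin 20 → K) ∈ Md hq hK := fun j => by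
      rcases eq_or_ne j i with rfl | hj
      · simp [hi, Ne.symm hi]
      rcases eq_or_ne j (p20 i) with rfl | hj'
      · simp [hinv, hi, Ne.symm hi, hg, map_mul, sig2 hq hK, ← mul_assoc, hgg']
      · have e1 : p20 j ≠ i := fun e => hj' (by rw [← e, (data20 j).2.2.1])
        have e2 : p20 j ≠ p20 i := fun e => hj (by rw [← (data20 j).2.2.1, e, hinv])
        simp [e1, e2, hj, hj']
    have := h _ hm
    simp [pairing, mul_add, Finset.sum_add_distrib, Pi.single_apply] at this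
    rw [hv i] at this
    refine ht' ?_
    rw [map_mul]
    linear_combination this - σ t * σ (v i) * hgg'

variable {ψ} (hψ : ψ ≠ 0)

include hψ in
theorem chiM_bijective : Function.Bijective (chiM hq hK ψ) := by
  refine (Fintype.bijective_iff_injective_and_card _).2 ⟨fun v v' e => ?_, (AddChar.card_eq (α := MdT hq hK)).symm⟩
  refine Subtype.ext (sub_eq_zero.1 (pairing_nondeg hq hK (sub_mem v.2 v'.2) fun m hm => ?_))
  set y : FqT hq hK := ⟨pairing ((v : Fin 20 → K) - (v' : Fin 20 → K)) m, sig_pairing hq hK (sub_mem v.2 v'.2) hm⟩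
  have hy : AddChar.mulShift ψ y = AddChar.mulShift ψ 0 := by
    refine DFunLike.ext _ _ fun a => ?_
    have ha : (fun i => (a : K) * m i) ∈ Md hq hK := fun i => by
      show (a : K) * m (p20 i) = (g20 i : K) * σ ((a : K) * m i)
      rw [map_mul, fq_apply hq hK a, mul_left_comm, hm i]
    have e' := DFunLike.congr_fun e ⟨_, ha⟩
    rw [chiM_apply hq hK ψ v _ (pairHom hq hK v ⟨_, ha⟩) rfl,
      chiM_apply hq hK ψ v' _ (pairHom hq hK v' ⟨_, ha⟩) rfl] at e'
    have hsub : y * a + pairHom hq hK v' ⟨_, ha⟩ = pairHom hq hK v ⟨_, ha⟩ := Subtype.ext (by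
      show pairing ((v : Fin 20 → K) - (v' : Fin 20 → K)) m * (a : K) + _ = _
      simp only [pairHom, pairing, AddMonoidHom.mk'_apply, Finset.sum_mul, ← Finset.sum_add_distrib]
      exact Finset.sum_congr rfl fun i _ => by simp [Pi.sub_apply]; ring)
    rw [← hsub, AddChar.map_add_eq_mul, mul_eq_right₀ (addChar_ne_zero ψ _)] at e'
    simpa [AddChar.mulShift_apply] using e'
  exact congrArg Subtype.val ((mulShift_bijective hψ).1 hy)

variable (ψ)

open scoped Classical in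
/-- The multiplicities of the characters of the radical on the fixed space. -/
noncomputable def mult (v : Fin 20 → K) : ℕ :=
  if h : v ∈ Md hq hK then finrank ℂ ↥(fixZ hq hK ρ ⊓ eig (rq hq hK ρ) (chiM hq hK ψ ⟨v, h⟩)) else 0

theorem mult_mem {v : Fin 20 → K} (h : v ∈ Md hq hK) :
    mult hq hK ρ ψ v = finrank ℂ ↥(fixZ hq hK ρ ⊓ eig (rq hq hK ρ) (chiM hq hK ψ ⟨v, h⟩)) := by
  rw [mult, dif_pos h]

/-- Transport of multiplicities by an element normalising the radical. -/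
theorem mult_le {g : ↥(twistedE6 K q)} (hgW : ∀ x ∈ fixZ hq hK ρ, ρ g x ∈ fixZ hq hK ρ)
    (f : MdT hq hK → MdT hq hK)
    (hrel : ∀ m, ∀ x ∈ fixZ hq hK ρ, rq hq hK ρ m (ρ g x) = ρ g (rq hq hK ρ (f m) x))
    {v v' : Fin 20 → K} (hv : v ∈ Md hq hK) (hv' : v' ∈ Md hq hK)
    (hp : ∀ m : MdT hq hK, pairing v (f m : Fin 20 → K) = pairing v' (m : Fin 20 → K)) :
    mult hq hK ρ ψ v ≤ mult hq hK ρ ψ v' := by
  rw [mult_mem hq hK ρ ψ hv, mult_mem hq hK ρ ψ hv']
  refine finrank_le_map (ρ g) (rho_inj ρ g) fun x hx => ⟨hgW x hx.1, fun m => ?_⟩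
  rw [hrel m x hx.1, hx.2 (f m), map_smul,
    chiM_apply hq hK ψ ⟨v', hv'⟩ m (pairHom hq hK ⟨v, hv⟩ (f m)) (hp m)]
  rfl

theorem lapp_src_mem {e : Fin 30} {t : K} (ht' : Ok hq hK e t) (m : MdT hq hK) :
    lapp hq hK src e t (m : Fin 20 → K) ∈ Md hq hK :=
  lapp_mem hq hK dataSrc (fun e i => (dataComp e i).2) ht' m.2

/-- The action of a Levi root element on the operators of the radical. -/
theorem lel_rel {e : Fin 30} {t : K} (ht' : Ok hq hK e t) (m : MdT hq hK) {x : V} (hx : x ∈ fixZ hq hK ρ) :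
    rq hq hK ρ m (ρ ⟨lel hq hK e t, (Subgroup.mem_inf.1 (lel_mem hq hK ht')).1⟩ x) =
      ρ ⟨lel hq hK e t, (Subgroup.mem_inf.1 (lel_mem hq hK ht')).1⟩
        (rq hq hK ρ ⟨lapp hq hK src e (-t) (m : Fin 20 → K), lapp_src_mem hq hK (ok_neg hq hK ht') m⟩ x) := by
  set g : ↥(twistedE6 K q) := ⟨lel hq hK e t, (Subgroup.mem_inf.1 (lel_mem hq hK ht')).1⟩
  have hg : (g : GK) ∈ CC K := (Subgroup.mem_inf.1 (lel_mem hq hK ht')).2
  have hC := fun e i => (dataComp e i).2
  set m' : MdT hq hK := ⟨lapp hq hK src e (-t) (m : Fin 20 → K), lapp_src_mem hq hK (ok_neg hq hK ht') m⟩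
  rw [rq, rq, ← rho_mul ρ, ← rho_mul ρ]
  refine mod_z hq hK ρ (g := g * qEl hq hK m') (h := qEl hq hK m * g) (mul_mem hg (qEl_cc hq hK _))
    (mul_mem (qEl_cc hq hK m) hg) ?_ hx
  have h1 := conj_lel hq hK ht' (m' : Fin 20 → K)
  have h2 : lapp hq hK src e t (m' : Fin 20 → K) = (m : Fin 20 → K) := by
    have h0 : ∀ e i, ((src e i).all fun p => (src e p.1).isNone) = true := by decide +kernel
    simpa [m'] using lapp_neg hq hK hC h0 e (-t) (m : Fin 20 → K)
  rw [h2, mul_inv_eq_iff_eq_mul, ← mk_qEl hq hK m', ← mk_qEl hq hK m, ← QuotientGroup.mk_mul,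
    ← QuotientGroup.mk_mul] at h1
  exact h1

theorem mult_lapp_le {e : Fin 30} {t : K} (ht' : Ok hq hK e t) {v : Fin 20 → K} (hv : v ∈ Md hq hK) :
    mult hq hK ρ ψ v ≤ mult hq hK ρ ψ (lapp hq hK tgt e (-t) v) :=
  mult_le hq hK ρ ψ
    (fun _ hx => cc_stable hq hK ρ (g := ⟨lel hq hK e t, (Subgroup.mem_inf.1 (lel_mem hq hK ht')).1⟩)
      (Subgroup.mem_inf.1 (lel_mem hq hK ht')).2 hx)
    (fun m => ⟨lapp hq hK src e (-t) (m : Fin 20 → K), lapp_src_mem hq hK (ok_neg hq hK ht') m⟩)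
    (fun m _ hx => lel_rel hq hK ρ ht' m hx) hv (tgt_mem hq hK (ok_neg hq hK ht') hv)
    fun m => pairing_lapp hq hK e (-t) v m

theorem mult_scale_le {j : Fin chevE6.rank} (hj : j.val = 1 ∨ j.val = 3) {u : Kˣ} (hu : σ (u : K) = (u : K))
    {v : Fin 20 → K} (hv : v ∈ Md hq hK) :
    (fun i => ((u ^ chevE6.cartan j (L20 i) : Kˣ) : K)) * v ∈ Md hq hK ∧
      mult hq hK ρ ψ v ≤ mult hq hK ρ ψ ((fun i => ((u ^ chevE6.cartan j (L20 i) : Kˣ) : K)) * v) := by
  have hpw : ∀ z : ℤ, σ ((u ^ z : Kˣ) : K) = ((u ^ z : Kˣ) : K) := fun z => by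
    rw [Units.val_zpow_eq_zpow_val, map_zpow₀, hu]
  have hsc : ∀ (u' : Kˣ), (∀ z : ℤ, σ ((u' ^ z : Kˣ) : K) = ((u' ^ z : Kˣ) : K)) → ∀ w ∈ Md hq hK,
      (fun i => ((u' ^ chevE6.cartan j (L20 i) : Kˣ) : K)) * w ∈ Md hq hK := by
    intro u' hu' w hw i
    simp only [Pi.mul_apply]
    rw [cartan_sym j hj i, hw i, map_mul, hu', mul_left_comm]
  refine ⟨hsc u hpw v hv, ?_⟩
  set c : Fin chevE6.rank → Kˣ := Pi.mulSingle j u⁻¹
  have hui : σ ((u⁻¹ : Kˣ) : K) = ((u⁻¹ : Kˣ) : K) := by simpa using hpw (-1)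
  set g : ↥(twistedE6 K q) := ⟨tor c, tor_mem hq hK (single_fix hq hK hj hui)⟩
  let f : MdT hq hK → MdT hq hK := fun m =>
    ⟨(fun i => ((u ^ chevE6.cartan j (L20 i) : Kˣ) : K)) * (m : Fin 20 → K), hsc u hpw _ m.2⟩
  refine mult_le hq hK ρ ψ (g := g) ?_ f (fun m x hx => ?_) hv (hsc u hpw v hv) fun m => ?_
  · intro x hx
    rw [mem_fixZ] at hx ⊢
    intro a
    set b : FqT hq hK := ⟨((u ^ chevE6.cartan j 71 : Kˣ) : K) * a, by
      show σ _ = _
      rw [map_mul, hpw, fq_apply hq hK a]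
      rfl⟩
    have e : zEl hq hK (r := 71) (by simp) a * g = g * zEl hq hK (r := 71) (by simp) b := by
      refine Subtype.ext ?_
      show X K 71 (a : K) * tor c = tor c * X K 71 (b : K)
      rw [mul_inv_eq_iff_eq_mul.1 (tor_conj c data71.1 (b : K)), tchar_single, inv_zpow]
      simp only [b, ← mul_assoc, ← Units.val_mul, inv_mul_cancel, Units.val_one, one_mul]
    rw [rz, ← rho_mul ρ, e, rho_mul ρ]
    exact congrArg (ρ g) (hx b)
  · rw [rq, rq, ← rho_mul ρ, ← rho_mul ρ]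
    congr 2
    refine Subtype.ext ?_
    show lift20 (m : Fin 20 → K) * tor c = tor c * lift20 (f m : Fin 20 → K)
    rw [mul_inv_eq_iff_eq_mul.1 (tor_lift20 c (f m : Fin 20 → K))]
    congr 2
    funext i
    rw [tchar_single, inv_zpow]
    simp only [f, Pi.mul_apply, ← mul_assoc, ← Units.val_mul, inv_mul_cancel, Units.val_one, one_mul]
  · simp only [f, pairing, Pi.mul_apply]
    exact Finset.sum_congr rfl fun i _ => by ring

/-- The multiplicities satisfy the hypotheses of the orbit computation. -/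
theorem mult_mult : Mult hq hK (mult hq hK ρ ψ) := by
  refine ⟨fun e t ht' v hv => ?_, fun a ha ha0 => ?_⟩
  · refine le_antisymm ?_ ?_
    · have := mult_lapp_le hq hK ρ ψ ht' (tgt_mem hq hK ht' hv)
      rwa [tgt_neg] at this
    · simpa using mult_lapp_le hq hK ρ ψ (ok_neg hq hK ht') hv
  · set u : Kˣ := (Units.mk0 a ha0)⁻¹
    have hu : σ (u : K) = (u : K) := by simp [u, ha]
    have hu' : σ ((u⁻¹ : Kˣ) : K) = ((u⁻¹ : Kˣ) : K) := by simp [u, ha]
    set j : Fin chevE6.rank := ⟨3, by decide⟩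
    refine ⟨fun i => ((u ^ chevE6.cartan j (L20 i) : Kˣ) : K), ?_, fun i => Units.ne_zero _, fun v => ?_⟩
    · show ((u ^ chevE6.cartan 3 (L20 0) : Kˣ) : K) = a
      rw [cartan_val.2.2, zpow_neg_one]
      simp [u]
    set χ : Fin 20 → K := fun i => ((u ^ chevE6.cartan j (L20 i) : Kˣ) : K)
    have hback : (fun i => (((u⁻¹) ^ chevE6.cartan j (L20 i) : Kˣ) : K)) * (χ * v) = v := by
      funext i
      simp only [χ, Pi.mul_apply, ← mul_assoc, ← Units.val_mul, inv_zpow, inv_mul_cancel, Units.val_one, one_mul]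
    by_cases hv : v ∈ Md hq hK
    · obtain ⟨h1, h2⟩ := mult_scale_le hq hK ρ ψ (j := j) (Or.inr rfl) hu hv
      refine ⟨iff_of_true h1 hv, le_antisymm ?_ h2⟩
      obtain ⟨-, h3⟩ := mult_scale_le hq hK ρ ψ (j := j) (Or.inr rfl) hu' h1
      rwa [hback] at h3
    · have h1 : χ * v ∉ Md hq hK := fun h => hv (by
        have := (mult_scale_le hq hK ρ ψ (j := j) (Or.inr rfl) hu' h).1
        rwa [hback] at this)
      exact ⟨iff_of_false h1 hv, by rw [mult, mult, dif_neg h1, dif_neg hv]⟩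

include hψ in
/-- The fixed space decomposes by the characters. -/
theorem finrank_fixZ : finrank ℂ ↥(fixZ hq hK ρ) = ∑ v ∈ MdF hq hK, mult hq hK ρ ψ v := by
  classical
  rw [finrank_eq_sum (actsOn_rq hq hK ρ),
    Finset.sum_subtype (MdF hq hK) (fun x => mem_MdF hq hK) (mult hq hK ρ ψ)]
  exact (Fintype.sum_bijective (chiM hq hK ψ) (chiM_bijective hq hK hψ) _ _
    fun v => mult_mem hq hK ρ ψ v.2).symm

/-- The isotypic part of the highest root group. -/
noncomputable def partZ (c : FqT hq hK) : Submodule ℂ V := eig (rz hq hK ρ) (AddChar.mulShift ψ c)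

theorem partZ_zero : partZ hq hK ρ ψ 0 = fixZ hq hK ρ := by
  rw [partZ, fixZ, AddChar.mulShift_zero]
  rfl

theorem finrank_partZ {c : FqT hq hK} (hc : c ≠ 0) :
    finrank ℂ ↥(partZ hq hK ρ ψ c) = finrank ℂ ↥(partZ hq hK ρ ψ 1) := by
  have key : ∀ c u : FqT hq hK, u ≠ 0 → finrank ℂ ↥(partZ hq hK ρ ψ c) ≤ finrank ℂ ↥(partZ hq hK ρ ψ (c * u)) := by
    intro c u hu
    have hu0 : (u : K) ≠ 0 := fun h => hu (Subtype.ext h)
    set w : Kˣ := (Units.mk0 (u : K) hu0)⁻¹
    have hw : σ (w : K) = (w : K) := by simp [w, fq_apply hq hK u]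
    set g : ↥(twistedE6 K q) := ⟨tor (Pi.mulSingle ⟨1, by decide⟩ w), tor_mem hq hK (single_fix hq hK (Or.inl rfl) hw)⟩
    refine finrank_le_map (ρ g) (rho_inj ρ g) fun x hx a => ?_
    have e : zEl hq hK (r := 71) (by simp) a * g = g * zEl hq hK (r := 71) (by simp) (u * a) := by
      refine Subtype.ext ?_
      show X K 71 (a : K) * tor _ = tor _ * X K 71 ((u : K) * a)
      rw [mul_inv_eq_iff_eq_mul.1 (tor_conj _ data71.1 ((u : K) * a)), tchar_single, cartan_val.1, zpow_one]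
      congr 2
      simp [w, hu0]
    rw [rz, ← rho_mul ρ, e, rho_mul ρ, show ρ (zEl hq hK (r := 71) (by simp) (u * a)) x = _ from hx (u * a),
      map_smul]
    simp [AddChar.mulShift_apply, mul_assoc]
  refine le_antisymm ?_ ?_
  · exact (key c c⁻¹ (inv_ne_zero hc)).trans_eq (by rw [mul_inv_cancel₀ hc])
  · exact (key 1 c hc).trans_eq (by rw [one_mul])

include hψ in
theorem finrank_split : finrank ℂ V = finrank ℂ ↥(fixZ hq hK ρ) + (q - 1) * finrank ℂ ↥(partZ hq hK ρ ψ 1) := by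
  classical
  rw [← finrank_top ℂ V, finrank_eq_sum (actsOn_rz hq hK ρ),
    ← Fintype.sum_bijective (fun c => AddChar.mulShift ψ c) (mulShift_bijective hψ)
      (fun c => finrank ℂ ↥(partZ hq hK ρ ψ c)) (fun χ => finrank ℂ ↥((⊤ : Submodule ℂ V) ⊓ eig (rz hq hK ρ) χ))
      (fun c => by rw [top_inf_eq]; rfl),
    ← Finset.add_sum_erase _ _ (Finset.mem_univ (0 : FqT hq hK)), partZ_zero,
    Finset.sum_congr rfl fun c hc => finrank_partZ hq hK ρ ψ (Finset.ne_of_mem_erase hc)]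
  rw [Finset.sum_const, Finset.card_erase_of_mem (Finset.mem_univ _), Finset.card_univ, card_FqT, smul_eq_mul]

/-- The action of the root group of `46`. -/
noncomputable def r46 (a : FqT hq hK) : Module.End ℂ V := ρ (zEl hq hK (r := 46) (by simp) a)

theorem commute_46_71 (a b : FqT hq hK) : zEl hq hK (r := 46) (by simp) a * zEl hq hK (r := 71) (by simp) b =
    zEl hq hK (r := 71) (by simp) b * zEl hq hK (r := 46) (by simp) a :=
  Subtype.ext ((Subgroup.mem_centralizer_iff.1 (x20_mem (K := K) 0 (a : K))) _ ⟨(b : K), rfl⟩).symm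

theorem stable_part (a : FqT hq hK) {χ : AddChar (FqT hq hK) ℂ} {x : V} (hx : x ∈ eig (rz hq hK ρ) χ) :
    r46 hq hK ρ a x ∈ eig (rz hq hK ρ) χ := fun b => by
  rw [rz, r46, ← rho_mul ρ, ← commute_46_71, rho_mul ρ]
  exact (congrArg (ρ (zEl hq hK (r := 46) (by simp) a)) (hx b)).trans (map_smul _ _ _)

include hψ in
theorem finrank_partZ_fix {c : FqT hq hK} (hc : c ≠ 0) :
    finrank ℂ ↥(partZ hq hK ρ ψ 1) = q * finrank ℂ ↥(eig (r46 hq hK ρ) 0 ⊓ partZ hq hK ρ ψ c) := by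
  classical
  have hA : ActsOn (r46 hq hK ρ) (partZ hq hK ρ ψ c) :=
    ⟨fun a x hx => stable_part hq hK ρ a hx, fun x _ => (actsOn_root hq hK ρ (r := 46) (by simp)).zero x trivial,
      fun a b x _ => (actsOn_root hq hK ρ (r := 46) (by simp)).add a b x trivial⟩
  have key : ∀ b t : FqT hq hK,
      finrank ℂ ↥(partZ hq hK ρ ψ c ⊓ eig (r46 hq hK ρ) (AddChar.mulShift ψ b)) ≤
        finrank ℂ ↥(partZ hq hK ρ ψ c ⊓ eig (r46 hq hK ρ) (AddChar.mulShift ψ (b + c * t))) := by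
    intro b t
    set g := zEl hq hK (r := 70) (by simp) t
    obtain ⟨-, -, -, -, -, hc70, h1, h2, ⟨h3, h4, h5⟩, -⟩ := data25
    have e : ∀ s : FqT hq hK, zEl hq hK (r := 46) (by simp) s * g =
        g * (zEl hq hK (r := 46) (by simp) s * zEl hq hK (r := 71) (by simp) (t * s)) := by
      intro s
      refine Subtype.ext ?_
      show X K 46 (s : K) * X K 70 (t : K) = X K 70 (t : K) * (X K 46 (s : K) * X K 71 ((t : K) * s))
      have := xconj (K := K) (r := 70) (s := 46) (c := 71) (C := -1) (by decide +kernel) (by decide +kernel) h1 h2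
        hc70 data71.1 ⟨h3, h4, h5⟩ (-(t : K)) (s : K)
      rw [← xinv (by decide +kernel), inv_inv, Int.cast_neg, Int.cast_one, neg_one_mul, neg_neg] at this
      rw [← this]
      simp [mul_assoc]
    refine finrank_le_map (ρ g) (rho_inj ρ g) fun x hx => ⟨fun a => ?_, fun s => ?_⟩
    · have e' : zEl hq hK (r := 71) (by simp) a * g = g * zEl hq hK (r := 71) (by simp) a := by
        refine Subtype.ext ?_
        exact (xcomm (by decide +kernel) data71.1 h3 h4 h5 (t : K) (a : K)).eq.symm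
      rw [rz, ← rho_mul ρ, e', rho_mul ρ]
      exact (congrArg (ρ g) (hx.1 a)).trans (map_smul _ _ _)
    · rw [r46, ← rho_mul ρ, e s, rho_mul ρ, rho_mul ρ,
        show ρ (zEl hq hK (r := 71) (by simp) (t * s)) x = _ from hx.1 (t * s), map_smul,
        show ρ (zEl hq hK (r := 46) (by simp) s) x = _ from hx.2 s, smul_smul, map_smul]
      simp only [AddChar.mulShift_apply, add_mul, AddChar.map_add_eq_mul]
      rw [mul_comm (ψ _) (ψ (b * s)), mul_assoc c t s]
  have hconst : ∀ b : FqT hq hK, finrank ℂ ↥(partZ hq hK ρ ψ c ⊓ eig (r46 hq hK ρ) (AddChar.mulShift ψ b)) =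
      finrank ℂ ↥(eig (r46 hq hK ρ) 0 ⊓ partZ hq hK ρ ψ c) := by
    intro b
    have e0 : AddChar.mulShift ψ 0 = (0 : AddChar (FqT hq hK) ℂ) := by rw [AddChar.mulShift_zero]; rfl
    rw [inf_comm (eig _ 0), ← e0]
    refine le_antisymm ?_ ?_
    · exact (key b (-b / c)).trans_eq (by rw [mul_div_cancel₀ _ hc, add_neg_cancel])
    · exact (key 0 (b / c)).trans_eq (by rw [mul_div_cancel₀ _ hc, zero_add])
  rw [← finrank_partZ hq hK ρ ψ hc, finrank_eq_sum hA,
    ← Fintype.sum_bijective (fun b => AddChar.mulShift ψ b) (mulShift_bijective hψ)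
      (fun b => finrank ℂ ↥(partZ hq hK ρ ψ c ⊓ eig (r46 hq hK ρ) (AddChar.mulShift ψ b)))
      (fun χ => finrank ℂ ↥(partZ hq hK ρ ψ c ⊓ eig (r46 hq hK ρ) χ)) (fun b => rfl),
    Finset.sum_congr rfl fun b _ => hconst b, Finset.sum_const, Finset.card_univ, card_FqT, smul_eq_mul]

theorem finrank_fix46 : finrank ℂ ↥(eig (r46 hq hK ρ) 0) = finrank ℂ ↥(fixZ hq hK ρ) := by
  obtain ⟨g, hg, a, ha0, ha, hga⟩ := exists_conj71 hq hK
  set G : ↥(twistedE6 K q) := ⟨g, hg⟩
  have e : ∀ t : FqT hq hK, zEl hq hK (r := 46) (by simp) (⟨a, ha⟩ * t) * G = G * zEl hq hK (r := 71) (by simp) t :=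
    fun t => Subtype.ext (mul_inv_eq_iff_eq_mul.1 (hga (t : K))).symm
  have hA : (⟨a, ha⟩ : FqT hq hK) ≠ 0 := fun h => ha0 (congrArg Subtype.val h)
  refine le_antisymm (finrank_le_map (ρ G⁻¹) (rho_inj ρ _) fun x hx => ?_)
    (finrank_le_map (ρ G) (rho_inj ρ _) fun x hx s => ?_)
  · rw [mem_fixZ]
    intro t
    have e' : zEl hq hK (r := 71) (by simp) t * G⁻¹ = G⁻¹ * zEl hq hK (r := 46) (by simp) (⟨a, ha⟩ * t) := by
      rw [eq_inv_mul_iff_mul_eq, ← mul_assoc, ← e, mul_inv_cancel_right]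
    rw [rz, ← rho_mul ρ, e', rho_mul ρ, show ρ (zEl hq hK (r := 46) (by simp) _) x = _ from hx _]
    simp
  · have h := e ((⟨a, ha⟩ : FqT hq hK)⁻¹ * s)
    rw [mul_inv_cancel_left₀ hA] at h
    rw [r46, ← rho_mul ρ, h, rho_mul ρ, show ρ (zEl hq hK (r := 71) (by simp) _) x = x from
      (mem_fixZ hq hK ρ).1 hx _]
    simp

include hψ in
open scoped Classical in
/-- The equation of fixed spaces. -/
theorem part_eq : q * ∑ v ∈ (MdF hq hK).filter (fun v => v 0 ≠ 0), mult hq hK ρ ψ v =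
    (q - 1) * finrank ℂ ↥(partZ hq hK ρ ψ 1) := by
  set F := eig (r46 hq hK ρ) 0 with hF
  have hAz : ActsOn (rz hq hK ρ) F := by
    refine ⟨fun b x hx a => ?_, fun x _ => (actsOn_rz hq hK ρ).zero x trivial,
      fun a b x _ => (actsOn_rz hq hK ρ).add a b x trivial⟩
    rw [r46, rz, ← rho_mul ρ, commute_46_71, rho_mul ρ]
    exact (congrArg (ρ (zEl hq hK (r := 71) (by simp) b)) (hx a)).trans (map_smul _ _ _)
  have s0 : ∀ a : FqT hq hK, (Pi.single 0 (a : K) : Fin 20 → K) ∈ Md hq hK := fun a i => by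
    rcases eq_or_ne i 0 with rfl | hi
    · simp [p20, g20, fq_apply hq hK a]
    · have : p20 i ≠ 0 := fun e => hi (by rw [← (data20 i).2.2.1, e]; rfl)
      simp [Pi.single_eq_of_ne this, Pi.single_eq_of_ne hi]
  have h46 : ∀ a : FqT hq hK, ∀ x ∈ fixZ hq hK ρ, r46 hq hK ρ a x = rq hq hK ρ ⟨_, s0 a⟩ x := by
    intro a x hx
    refine mod_z hq hK ρ (qEl_cc hq hK _) (x20_mem (K := K) 0 (a : K)) ?_ hx
    rw [mk_qEl, phi_single]
    rfl
  have hAq : ActsOn (rq hq hK ρ) (F ⊓ fixZ hq hK ρ) := by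
    refine ⟨fun m x hx => ⟨fun a => ?_, (actsOn_rq hq hK ρ).stable m x hx.2⟩,
      fun x hx => (actsOn_rq hq hK ρ).zero x hx.2, fun a b x hx => (actsOn_rq hq hK ρ).add a b x hx.2⟩
    have hx1 : r46 hq hK ρ a x = _ := hx.1 a
    rw [h46 a x hx.2] at hx1
    rw [h46 a _ ((actsOn_rq hq hK ρ).stable m x hx.2), ← (actsOn_rq hq hK ρ).add _ _ x hx.2, add_comm,
      (actsOn_rq hq hK ρ).add _ _ x hx.2, hx1, map_smul]
  have h1 : finrank ℂ ↥(F ⊓ fixZ hq hK ρ) =
      ∑ v ∈ (MdF hq hK).filter (fun v => v 0 = 0), mult hq hK ρ ψ v := by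
    rw [finrank_eq_sum hAq, ← Fintype.sum_bijective (chiM hq hK ψ) (chiM_bijective hq hK hψ)
      (fun v => finrank ℂ ↥(F ⊓ fixZ hq hK ρ ⊓ eig (rq hq hK ρ) (chiM hq hK ψ v))) _ (fun v => rfl),
      Finset.sum_filter, Finset.sum_subtype (MdF hq hK) (fun x => mem_MdF hq hK) _]
    refine Finset.sum_congr rfl fun v _ => ?_
    have hval : ∀ a : FqT hq hK, pairing (v : Fin 20 → K) (Pi.single 0 (a : K)) = (v : Fin 20 → K) 0 * a := fun a => by
      simp [pairing, Pi.single_apply]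
    split_ifs with h0
    · rw [mult_mem hq hK ρ ψ v.2]
      refine congrArg (fun S : Submodule ℂ V => finrank ℂ ↥S) ?_
      refine le_antisymm (inf_le_inf_right _ inf_le_right) fun x hx => ⟨⟨fun a => ?_, hx.1⟩, hx.2⟩
      rw [h46 a x hx.1, hx.2, chiM_apply hq hK ψ v ⟨_, s0 a⟩ 0 (by rw [hval, h0, zero_mul]; rfl)]
      simp
    · suffices h : F ⊓ fixZ hq hK ρ ⊓ eig (rq hq hK ρ) (chiM hq hK ψ v) = ⊥ by rw [h, finrank_bot]
      refine eq_bot_iff.2 fun x hx => (Submodule.mem_bot ℂ).2 ?_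
      obtain ⟨a, ha⟩ := AddChar.ne_zero_iff.1 hψ
      set w : FqT hq hK := ⟨(v : Fin 20 → K) 0, (md_long hq hK v.2).1⟩
      have hw : w ≠ 0 := fun h => h0 (congrArg Subtype.val h)
      have e := hx.1.1 (w⁻¹ * a)
      rw [h46 _ x hx.1.2, hx.2, chiM_apply hq hK ψ v ⟨_, s0 _⟩ (w * (w⁻¹ * a)) (by rw [hval]; rfl),
        mul_inv_cancel_left₀ hw] at e
      simp only [AddChar.zero_apply, one_smul] at e
      have : (ψ a - 1) • x = 0 := by rw [sub_smul, e, one_smul, sub_self]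
      exact (smul_eq_zero.1 this).resolve_left (sub_ne_zero.2 ha)
  have h2 := finrank_eq_sum hAz
  rw [finrank_fix46, ← Fintype.sum_bijective (fun c => AddChar.mulShift ψ c) (mulShift_bijective hψ)
      (fun c => finrank ℂ ↥(F ⊓ partZ hq hK ρ ψ c)) _ (fun c => rfl),
    ← Finset.add_sum_erase _ _ (Finset.mem_univ (0 : FqT hq hK)), partZ_zero, h1,
    finrank_fixZ hq hK ρ ψ hψ, ← Finset.sum_filter_add_sum_filter_not (MdF hq hK) (fun v => v 0 = 0)] at h2
  have h3 := Nat.add_left_cancel h2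
  rw [h3, Finset.mul_sum, Finset.sum_congr rfl fun c hc =>
    (finrank_partZ_fix hq hK ρ ψ hψ (Finset.ne_of_mem_erase hc)).symm]
  rw [Finset.sum_const, Finset.card_erase_of_mem (Finset.mem_univ _), Finset.card_univ, card_FqT, smul_eq_mul]

end Cfsg.Agent.TwE6Deg
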