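import Cfsg.Agent.TwE6Deg.Sub

/-!
# One level of the Heisenberg chain (owner: helper35)

A root group `z` over a finite field `F`, acting on a subspace `W`: its non-trivial isotypic parts are permuted
transitively, each is at least as large as an abelian group `al` paired with translations `bl` by `z`, and each
contains a vector fixed by a further root group `y`.
-/

set_option autoImplicit false
set_option linter.unusedSectionVars false

namespace Cfsg.Agent.TwE6Deg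

open Module (finrank)

variable {G : Type*} [Group G] {V : Type*} [AddCommGroup V] [Module ℂ V] [FiniteDimensional ℂ V]
  (ρ : Representation ℂ G V) {F : Type*} [Field F] [Fintype F] (ψ : AddChar F ℂ)

/-- The isotypic part of a root group in a subspace. -/
noncomputable def part (W : Submodule ℂ V) (z : F → G) (c : F) : Submodule ℂ V :=
  W ⊓ eig (fun a => ρ (z a)) (AddChar.mulShift ψ c)

variable {ψ}

/-- All non-trivial parts are alike. -/
theorem parts_bound (hψ : ψ ≠ 0) {W : Submodule ℂ V} {z : F → G} (hz : ActsOn (fun a => ρ (z a)) W)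
    (hs : ∀ u : F, u ≠ 0 → ∃ g ∈ St ρ W, ∀ a, z a * g = g * z (u * a))
    (hne : ∃ x ∈ W, ∃ a, ρ (z a) x ≠ x) :
    (∀ c : F, c ≠ 0 → part ρ ψ W z c ≠ ⊥) ∧
      ∀ m : ℕ, (∀ c : F, c ≠ 0 → part ρ ψ W z c ≠ ⊥ → m ≤ finrank ℂ ↥(part ρ ψ W z c)) →
        (Fintype.card F - 1) * m + finrank ℂ ↥(W ⊓ eig (fun a => ρ (z a)) 0) ≤ finrank ℂ ↥W := by
  classical
  have hsum : finrank ℂ ↥W = finrank ℂ ↥(W ⊓ eig (fun a => ρ (z a)) 0) +
      ∑ c ∈ Finset.univ.erase (0 : F), finrank ℂ ↥(part ρ ψ W z c) := by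
    rw [finrank_eq_sum hz, ← Fintype.sum_bijective (fun c => AddChar.mulShift ψ c) (mulShift_bijective hψ)
      (fun c => finrank ℂ ↥(part ρ ψ W z c)) _ (fun c => rfl),
      ← Finset.add_sum_erase _ _ (Finset.mem_univ (0 : F))]
    congr 1
    rw [part, AddChar.mulShift_zero]
    rfl
  have hle : ∀ c u : F, u ≠ 0 → finrank ℂ ↥(part ρ ψ W z c) ≤ finrank ℂ ↥(part ρ ψ W z (c * u)) := by
    intro c u hu
    obtain ⟨g, hg, e⟩ := hs u hu
    refine finrank_le_map (ρ g) (fun x y h => by simpa [rho_inv_left] using congrArg (ρ g⁻¹) h)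
      fun x hx => ⟨(hg x).2 hx.1, fun a => ?_⟩
    rw [← rho_mul' ρ, e a, rho_mul' ρ, show ρ (z (u * a)) x = _ from hx.2 (u * a), map_smul]
    simp only [AddChar.mulShift_apply, mul_assoc]
  have hall : ∀ c : F, c ≠ 0 → part ρ ψ W z c ≠ ⊥ := by
    intro c hc h0
    have hz0 : ∀ d ∈ Finset.univ.erase (0 : F), finrank ℂ ↥(part ρ ψ W z d) = 0 := fun d hd => by
      have h1 := hle d (c / d) (div_ne_zero hc (Finset.ne_of_mem_erase hd))
      rw [mul_div_cancel₀ _ (Finset.ne_of_mem_erase hd), h0, finrank_bot] at h1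
      omega
    rw [Finset.sum_eq_zero hz0, add_zero] at hsum
    have heq : W ⊓ eig (fun a => ρ (z a)) 0 = W := Submodule.eq_of_le_of_finrank_eq inf_le_left hsum.symm
    obtain ⟨x, hx, a, ha⟩ := hne
    rw [← heq] at hx
    exact ha (by simpa using hx.2 a)
  refine ⟨hall, fun m hm => ?_⟩
  rw [hsum, add_comm]
  refine Nat.add_le_add_left ?_ _
  calc (Fintype.card F - 1) * m = ∑ _c ∈ Finset.univ.erase (0 : F), m := by simp
    _ ≤ _ := Finset.sum_le_sum fun c hc =>
      hm c (Finset.ne_of_mem_erase hc) (hall c (Finset.ne_of_mem_erase hc))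

variable {A : Type*} [AddCommGroup A] [Fintype A]

/-- The hypotheses on the pair of abelian groups at one level. -/
structure Trans (W : Submodule ℂ V) (z : F → G) (al : A → G) : Prop where
  acts : ActsOn (fun a => ρ (al a)) W
  comm : ∀ a c, al a * z c = z c * al a
  trans : ∃ (bl : A → G) (ω : A →+ A →+ F), (∀ b, bl b ∈ St ρ W) ∧ (∀ b c, bl b * z c = z c * bl b) ∧
    (∀ b, ω b = 0 → b = 0) ∧ (∀ b x, ∀ r : F, ∃ x' : A, ω b x' = r * ω b x) ∧
    ∀ b a, al a * bl b = bl b * (al a * z (ω b a))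

theorem Trans.acts_part {W : Submodule ℂ V} {z : F → G} {al : A → G} (h : Trans ρ W z al) (c : F) :
    ActsOn (fun a => ρ (al a)) (part ρ ψ W z c) := by
  refine h.acts.inf fun a x hx d => ?_
  rw [← rho_mul' ρ, ← h.comm, rho_mul' ρ, show ρ (z d) x = _ from hx d, map_smul]

/-- Every non-trivial part is at least as large as the abelian group and meets each of its eigenspaces. -/
theorem Trans.bound (hψ : ψ ≠ 0) {W : Submodule ℂ V} {z : F → G} {al : A → G} (h : Trans ρ W z al) {c : F}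
    (hc : c ≠ 0) (hne : part ρ ψ W z c ≠ ⊥) :
    Fintype.card A ≤ finrank ℂ ↥(part ρ ψ W z c) ∧ part ρ ψ W z c ⊓ eig (fun a => ρ (al a)) 0 ≠ ⊥ := by
  classical
  obtain ⟨bl, ω, hb, hbz, hω, hlin, hrel⟩ := h.trans
  let Φ : A → AddChar A ℂ := fun b => (AddChar.mulShift ψ c).compAddMonoidHom (ω b)
  have hΦ : Function.Bijective Φ := by
    refine (Fintype.bijective_iff_injective_and_card _).2 ⟨fun b b' e => ?_, (AddChar.card_eq (α := A)).symm⟩
    refine sub_eq_zero.1 (hω _ ?_)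
    by_contra hne'
    obtain ⟨x, hx⟩ : ∃ x, ω (b - b') x ≠ 0 := by
      by_contra hh
      push Not at hh
      exact hne' (AddMonoidHom.ext hh)
    obtain ⟨r, hr⟩ := AddChar.ne_zero_iff.1 hψ
    obtain ⟨x', hx'⟩ := hlin (b - b') x (r / (c * ω (b - b') x))
    have e' := DFunLike.congr_fun e x'
    simp only [Φ, AddChar.compAddMonoidHom_apply, AddChar.mulShift_apply] at e'
    have e1 : c * ω (b - b') x' = r := by
      rw [hx', ← mul_assoc, mul_comm c, mul_assoc, div_mul_cancel₀ _ (mul_ne_zero hc hx)]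
    have e2 : c * ω b x' = r + c * ω b' x' := by
      rw [← e1, map_sub, AddMonoidHom.sub_apply]; ring
    rw [e2, AddChar.map_add_eq_mul] at e'
    refine hr (mul_right_cancel₀ (b := ψ (c * ω b' x')) ?_ (e'.trans (one_mul _).symm))
    intro h0
    have h1 := AddChar.map_add_eq_mul ψ (c * ω b' x') (-(c * ω b' x'))
    rw [add_neg_cancel, AddChar.map_zero_eq_one, h0, zero_mul] at h1
    exact one_ne_zero h1
  have hmove : ∀ (χ : AddChar A ℂ) (b : A), finrank ℂ ↥(part ρ ψ W z c ⊓ eig (fun a => ρ (al a)) χ) ≤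
      finrank ℂ ↥(part ρ ψ W z c ⊓ eig (fun a => ρ (al a)) (χ + Φ b)) := by
    intro χ b
    refine finrank_le_map (ρ (bl b)) (fun x y e => by simpa [rho_inv_left] using congrArg (ρ (bl b)⁻¹) e)
      fun x hx => ⟨⟨(hb b x).2 hx.1.1, fun d => ?_⟩, fun a => ?_⟩
    · rw [← rho_mul' ρ, ← hbz, rho_mul' ρ, show ρ (z d) x = _ from hx.1.2 d, map_smul]
    · rw [← rho_mul' ρ, hrel, rho_mul' ρ, rho_mul' ρ, show ρ (z (ω b a)) x = _ from hx.1.2 (ω b a), map_smul,
        show ρ (al a) x = _ from hx.2 a, smul_smul, map_smul, AddChar.add_apply, mul_comm]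
      rfl
  have hconst : ∀ χ χ' : AddChar A ℂ, finrank ℂ ↥(part ρ ψ W z c ⊓ eig (fun a => ρ (al a)) χ) ≤
      finrank ℂ ↥(part ρ ψ W z c ⊓ eig (fun a => ρ (al a)) χ') := fun χ χ' => by
    obtain ⟨b, hb⟩ := hΦ.2 (χ' - χ)
    exact (hmove χ b).trans_eq (by rw [hb, add_sub_cancel])
  have hsum := finrank_eq_sum (h.acts_part ρ (ψ := ψ) c)
  have h0 : 1 ≤ finrank ℂ ↥(part ρ ψ W z c ⊓ eig (fun a => ρ (al a)) 0) := by
    by_contra h0
    have hzero : finrank ℂ ↥(part ρ ψ W z c) = 0 := by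
      rw [hsum]
      exact Finset.sum_eq_zero fun χ _ => by have := hconst χ 0; omega
    exact hne (Submodule.finrank_eq_zero.1 hzero)
  refine ⟨?_, fun e => by rw [e, finrank_bot] at h0; omega⟩
  rw [hsum, ← AddChar.card_eq (α := A), ← Finset.card_univ, Finset.card_eq_sum_ones]
  exact Finset.sum_le_sum fun χ _ => h0.trans (hconst 0 χ)

/-- A vector in a non-trivial part fixed by the next root group. -/
theorem Trans.exists_fixed (hψ : ψ ≠ 0) {W : Submodule ℂ V} {z y : F → G} {al : A → G} (h : Trans ρ W z al)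
    (hy : ActsOn (fun s => ρ (y s)) W) (hyz : ∀ s c, y s * z c = z c * y s) (hya : ∀ s a, y s * al a = al a * y s)
    (hd : ∀ d : F, ∃ g ∈ St ρ W, (∀ c, g * z c = z c * g) ∧ ∀ s, ∃ a, y s * g = g * (y s * al a * z (d * s)))
    {c : F} (hc : c ≠ 0) (hne : part ρ ψ W z c ≠ ⊥) :
    ∃ x ∈ W, (∀ s, ρ (y s) x = x) ∧ ∃ a, ρ (z a) x ≠ x := by
  classical
  obtain ⟨-, hE⟩ := h.bound ρ hψ hc hne
  set E := part ρ ψ W z c ⊓ eig (fun a => ρ (al a)) 0
  have hEy : ActsOn (fun s => ρ (y s)) E := by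
    refine ⟨fun s x hx => ⟨⟨hy.stable s x hx.1.1, fun d => ?_⟩, fun a => ?_⟩, fun x hx => hy.zero x hx.1.1,
      fun a b x hx => hy.add a b x hx.1.1⟩
    · rw [← rho_mul' ρ, ← hyz, rho_mul' ρ, show ρ (z d) x = _ from hx.1.2 d, map_smul]
    · rw [← rho_mul' ρ, ← hya, rho_mul' ρ, show ρ (al a) x = _ from hx.2 a, map_smul]
  obtain ⟨χ, hχ⟩ : ∃ χ : AddChar F ℂ, finrank ℂ ↥(E ⊓ eig (fun s => ρ (y s)) χ) ≠ 0 := by
    by_contra hh
    push Not at hh
    exact hE (Submodule.finrank_eq_zero.1 ((finrank_eq_sum hEy).trans (Finset.sum_eq_zero fun χ _ => hh χ)))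
  obtain ⟨e, rfl⟩ := (mulShift_bijective hψ).2 χ
  obtain ⟨x, hx, hx0⟩ := Submodule.exists_mem_ne_zero_of_ne_bot
    (p := E ⊓ eig (fun s => ρ (y s)) (AddChar.mulShift ψ e)) fun h0 => hχ (by rw [h0, finrank_bot])
  obtain ⟨g, hg, hgz, hrel⟩ := hd (-e / c)
  have hzx : ∀ r, ρ (z r) x = ψ (c * r) • x := fun r => by simpa using hx.1.1.2 r
  refine ⟨ρ g x, (hg x).2 hx.1.1.1, fun s => ?_, ?_⟩
  · obtain ⟨a, ha⟩ := hrel s
    rw [← rho_mul' ρ, ha, rho_mul' ρ, rho_mul' ρ, rho_mul' ρ, hzx, map_smul,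
      show ρ (al a) x = _ from hx.1.2 a, AddChar.zero_apply, one_smul, map_smul,
      show ρ (y s) x = _ from hx.2 s, smul_smul, map_smul, AddChar.mulShift_apply, ← AddChar.map_add_eq_mul,
      ← mul_assoc c, mul_div_cancel₀ _ hc, ← add_mul, neg_add_cancel, zero_mul, AddChar.map_zero_eq_one, one_smul]
  · obtain ⟨a, ha⟩ := AddChar.ne_zero_iff.1 hψ
    refine ⟨c⁻¹ * a, fun h0 => ?_⟩
    rw [← rho_mul' ρ, ← hgz, rho_mul' ρ, hzx, mul_inv_cancel_left₀ hc, map_smul] at h0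
    have : (ψ a - 1) • ρ g x = 0 := by rw [sub_smul, h0, one_smul, sub_self]
    rcases smul_eq_zero.1 this with h1 | h1
    · exact ha (sub_eq_zero.1 h1)
    · exact hx0 (by simpa [rho_inv_left] using congrArg (ρ g⁻¹) h1)

end Cfsg.Agent.TwE6Deg
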