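import Cfsg.Agent.TwE6Deg.Chain

/-!
# The monomial element of the node `1` of ²E₆(q) and parameters of elements (owner: helper35)
-/

set_option autoImplicit false
set_option linter.unusedSectionVars false
set_option linter.unusedSimpArgs false

namespace Cfsg.Agent.TwE6Deg

open Cfsg.Lie Cfsg.Agent.ChevGrp Cfsg.Agent.ChevTw

variable {K : Type*} [Field K] [Fintype K] {q : ℕ} (hq : IsPrimePow q) (hK : Fintype.card K = q ^ 2)

local notation "σ" => frobE6 hq hK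
local notation "GK" => GL chevE6.Idx K

/-- The parameter of a root element of a fixed root with trivial sign lies in the fixed field. -/
theorem mem_single {r s : ℕ} (hs : s < chevE6.nroots) (hne : r ≠ s)
    (hr : r < chevE6.nroots ∧ twE6.root r = r ∧ symE6.sgn r = 1) {t : K} (h : X K r t ∈ twistedE6 K q) :
    σ t = t := by
  obtain ⟨h1, h3, h4⟩ := hr
  have hfix := (grpE6 hq hK).fixed h
  rw [sig_x hq hK _ h1, h3, h4, Int.cast_one, one_mul] at hfix
  obtain ⟨len, hR⟩ := (rulesE6 K).root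
  by_contra hne'
  have h0 : X K r (σ t - t) = X K s 0 := by
    rw [sub_eq_add_neg, ← xadd h1, hfix, xadd h1, add_neg_cancel, xzero h1, xzero hs]
  exact hne ((glSys (rulesE6 K)).x_root_inj hR h1 hs (sub_ne_zero.2 hne') h0)

/-- The second parameter of a pair. -/
theorem mem_pair {r r' : ℕ} {g : ℤ}
    (hr : r < chevE6.nroots ∧ r' < chevE6.nroots ∧ twE6.root r' = r ∧ r ≠ r') {x y : K}
    (hpair : X K r x * X K r' ((g : K) * σ x) ∈ twistedE6 K q) (h : X K r x * X K r' y ∈ twistedE6 K q) :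
    y = (g : K) * σ x := by
  obtain ⟨h1, h2, hroot, hne⟩ := hr
  obtain ⟨len, hR⟩ := (rulesE6 K).root
  have hu : X K r' (y - (g : K) * σ x) ∈ twistedE6 K q := by
    have := mul_mem (inv_mem hpair) h
    rwa [mul_inv_rev, xinv h2, xinv h1, mul_assoc, ← mul_assoc (X K r (-x)), xadd h1, neg_add_cancel, xzero h1,
      one_mul, xadd h2, neg_add_eq_sub] at this
  have hfix := (grpE6 hq hK).fixed hu
  rw [sig_x hq hK _ h2, hroot] at hfix
  by_contra hne'
  exact hne ((glSys (rulesE6 K)).x_root_inj hR h2 h1 (sub_ne_zero.2 hne') hfix.symm).symm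

/-- The monomial element of the node `1`. -/
noncomputable def n1 : ↥(twistedE6 K q) := ⟨(glSys (rulesE6 K)).nI ⟨1, by decide⟩, nI1_mem hq hK⟩

theorem n1_eq : (n1 hq hK : GK) = X K 46 1 * X K 25 (-1) * X K 46 1 := by
  show (glSys (rulesE6 K)).nI ⟨1, by decide⟩ = _
  rw [nI_eq, show chevE6.simple 1 = 46 from negE6.2.2.2.2.2.2.2.1, negE6.1]

/-- Conjugation by a fundamental monomial element, with its sign. -/
theorem nI_root (i : Fin chevE6.rank) {r r' : ℕ} (hr : r < chevE6.nroots) (h : chevE6.reflectRoot i r = r') :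
    ∃ a : K, (a = 1 ∨ a = -1) ∧
      ∀ t : K, (glSys (rulesE6 K)).nI i * X K r t * ((glSys (rulesE6 K)).nI i)⁻¹ = X K r' (a * t) := by
  obtain ⟨len, hR⟩ := (rulesE6 K).root
  refine ⟨(((rulesE6 K).eta i r : ℤ) : K), ?_, fun t => ?_⟩
  · rcases (rulesE6 K).eta_sq i hr with e | e <;> simp [e]
  · exact ((glSys (rulesE6 K)).conj_all (rulesE6 K) hR i ((glSys (rulesE6 K)).nEl_mem_rankOne i 1) (Or.inr rfl)
      (fun s => (((rulesE6 K).eta i s : ℤ) : K))
      (fun s hs t => (glSys (rulesE6 K)).θ_nI_conj (rulesE6 K) hR i hs t) r hr t).trans (by rw [act_singleton, h])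

theorem n1_inv_conj {r r' : ℕ} (hr' : r' < chevE6.nroots) (h : chevE6.reflectRoot (⟨1, by decide⟩ : Fin chevE6.rank) r' = r) :
    ∃ a : K, (a = 1 ∨ a = -1) ∧ ∀ t : K, (n1 hq hK : GK)⁻¹ * X K r t * (n1 hq hK : GK) = X K r' (a * t) := by
  obtain ⟨a, ha, e⟩ := nI_root (K := K) ⟨1, by decide⟩ hr' h
  refine ⟨a, ha, fun t => ?_⟩
  have e' := e (a * t)
  rw [← mul_assoc a a, show a * a = 1 by rcases ha with rfl | rfl <;> simp, one_mul] at e'
  rw [← e']
  show ((glSys (rulesE6 K)).nI ⟨1, by decide⟩)⁻¹ * _ * (glSys (rulesE6 K)).nI ⟨1, by decide⟩ = _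
  group

/-- The torus element `h₄₆(u)`. -/
noncomputable def h1G (u : Kˣ) (hu : σ (u : K) = (u : K)) : ↥(twistedE6 K q) :=
  tG hq hK (Pi.mulSingle ⟨1, by decide⟩ u) (single_fix hq hK (Or.inl rfl) hu)

theorem h1G_val (u : Kˣ) (hu : σ (u : K) = (u : K)) :
    (h1G hq hK u hu : GK) = (glSys (rulesE6 K)).hEl (chevE6.simple 1) (u : K) := by
  show tor _ = _
  rw [tor, Sys.tau, MonoidHom.noncommPiCoprod_mulSingle]
  rfl

theorem nEl46 (u : Kˣ) (hu : σ (u : K) = (u : K)) :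
    (glSys (rulesE6 K)).nEl 46 (u : K) = (h1G hq hK u hu : GK) * (n1 hq hK : GK) := by
  obtain ⟨len, hR⟩ := (rulesE6 K).root
  rw [h1G_val, show chevE6.simple 1 = 46 from negE6.2.2.2.2.2.2.2.1,
    (glSys (rulesE6 K)).nEl_eq hR (dataFix 46 (by simp)).1]
  show _ * _ = _ * (glSys (rulesE6 K)).nI ⟨1, by decide⟩
  rw [Sys.nI, show chevE6.simple 1 = 46 from negE6.2.2.2.2.2.2.2.1]

theorem n1_nEl_neg : (n1 hq hK : GK)⁻¹ = (glSys (rulesE6 K)).nEl 46 (-1) := by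
  obtain ⟨len, hR⟩ := (rulesE6 K).root
  show ((glSys (rulesE6 K)).nI ⟨1, by decide⟩)⁻¹ = _
  rw [Sys.nI, show chevE6.simple 1 = 46 from negE6.2.2.2.2.2.2.2.1,
    (glSys (rulesE6 K)).nEl_inv hR (dataFix 46 (by simp)).1]

theorem n1_sq : ∃ h : ↥(twistedE6 K q), (∃ hu, h = h1G hq hK (-1) hu) ∧ n1 hq hK * n1 hq hK = h⁻¹ := by
  have hu : σ (((-1 : Kˣ)) : K) = ((-1 : Kˣ) : K) := by simp
  refine ⟨h1G hq hK (-1) hu, ⟨hu, rfl⟩, eq_inv_of_mul_eq_one_right (Subtype.ext ?_)⟩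
  have e := nEl46 hq hK (-1) hu
  rw [Units.val_neg, Units.val_one, ← n1_nEl_neg hq hK] at e
  rw [Subgroup.coe_mul, Subgroup.coe_mul, ← mul_assoc, ← e, inv_mul_cancel]
  rfl

/-- The lower root group of `46` through the monomial element. -/
theorem x25_eq {u : K} (hu : u ≠ 0) :
    X K 25 u = X K 46 u⁻¹ * (glSys (rulesE6 K)).nEl 46 (-u⁻¹) * X K 46 u⁻¹ := by
  simp only [Sys.nEl, negE6.1, inv_neg, inv_inv, neg_neg]
  have h : X K 46 u⁻¹ * X K 46 (-u⁻¹) = 1 := by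
    rw [xadd (dataFix 46 (by simp)).1, add_neg_cancel, xzero (dataFix 46 (by simp)).1]
  have h' : X K 46 (-u⁻¹) * X K 46 u⁻¹ = 1 := by
    rw [xadd (dataFix 46 (by simp)).1, neg_add_cancel, xzero (dataFix 46 (by simp)).1]
  simp only [← mul_assoc]
  rw [h, one_mul, mul_assoc (X K 25 u), h', mul_one]

/-- The torus element of `39` moves `n₁` by a torus element. -/
theorem h39_n1 (b : Kˣ) (hb : σ (b : K) = (b : K)) :
    ∃ h : ↥(twistedE6 K q), (∃ hu, h = h1G hq hK b⁻¹ hu) ∧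
      tG hq hK (Pi.mulSingle ⟨3, by decide⟩ b) (single_fix hq hK (Or.inr rfl) hb) * n1 hq hK =
        h * n1 hq hK * tG hq hK (Pi.mulSingle ⟨3, by decide⟩ b) (single_fix hq hK (Or.inr rfl) hb) := by
  have hu : σ ((b⁻¹ : Kˣ) : K) = ((b⁻¹ : Kˣ) : K) := by simp [hb]
  refine ⟨h1G hq hK b⁻¹ hu, ⟨hu, rfl⟩, Subtype.ext ?_⟩
  obtain ⟨len, hR⟩ := (rulesE6 K).root
  set c : Fin chevE6.rank → Kˣ := Pi.mulSingle ⟨3, by decide⟩ b
  obtain ⟨-, h25, -, -, hn25, -⟩ := data25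
  have e : tor c * (n1 hq hK : GK) * (tor c)⁻¹ = (glSys (rulesE6 K)).nEl 46 ((b⁻¹ : Kˣ) : K) := by
    rw [n1_eq, show tor c * (X K 46 1 * X K 25 (-1) * X K 46 1) * (tor c)⁻¹ =
      (tor c * X K 46 1 * (tor c)⁻¹) * (tor c * X K 25 (-1) * (tor c)⁻¹) * (tor c * X K 46 1 * (tor c)⁻¹) by group,
      tor_conj c (dataFix 46 (by simp)).1, tor_conj c data25.1, tchar_single, tchar_single,
      show chevE6.cartan 3 46 = -1 by decide +kernel, show chevE6.cartan 3 25 = 1 by decide +kernel]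
    simp [Sys.nEl, negE6.1]
  rw [nEl46 hq hK b⁻¹ hu] at e
  exact mul_inv_eq_iff_eq_mul.1 e

end Cfsg.Agent.TwE6Deg
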