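import Cfsg.Agent.TwE6Deg.Coord
import Cfsg.Agent.ChevTw.TwA1

/-!
# The orbit of the highest weight vector in characters of the radical of ²E₆(q) (owner: helper35)

`n` is the multiplicity function of the characters. If the slice `v 0 = 1`, `key v = 0` carries total multiplicity
one, the multiplicities on `v 0 ≠ 0` are those of an orbit with `q ^ 9` points for each value of `v 0`, and the eight
cells given by the first non-zero long coordinate account for all non-trivial characters.
-/

set_option autoImplicit false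
set_option linter.unusedSectionVars false
set_option linter.unusedSimpArgs false

namespace Cfsg.Agent.TwE6Deg

open Cfsg.Lie Cfsg.Agent.ChevGrp Cfsg.Agent.ChevTw

variable {K : Type*} [Field K] [Fintype K] {q : ℕ} (hq : IsPrimePow q) (hK : Fintype.card K = q ^ 2)

local notation "σ" => frobE6 hq hK

/-- What the multiplicity function satisfies. -/
structure Mult (n : (Fin 20 → K) → ℕ) : Prop where
  move : ∀ (e : Fin 30) (t : K), Ok hq hK e t → ∀ v ∈ Md hq hK, n (lapp hq hK tgt e t v) = n v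
  scale : ∀ a : K, σ a = a → a ≠ 0 → ∃ χ : Fin 20 → K, χ 0 = a ∧ (∀ i, χ i ≠ 0) ∧
    ∀ v, (χ * v ∈ Md hq hK ↔ v ∈ Md hq hK) ∧ n (χ * v) = n v

/-- The coordinates parametrising the big cell. -/
def key (v : Fin 20 → K) : Fin 7 → K := ![v 0, v 1, v 2, v 3, v 8, v 10, v 12]

/-- The equations of the orbit on the big cell. -/
def Rel (v : Fin 20 → K) : Prop :=
  v 4 * v 0 = v 1 * v 2 - v 8 * v 9 ∧ v 5 * v 0 = v 1 * v 3 - v 10 * v 11 ∧
  v 6 * v 0 = v 2 * v 3 - v 12 * v 13 ∧ v 14 * v 0 = v 1 * v 12 - v 9 * v 10 ∧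
  v 15 * v 0 = v 1 * v 13 - v 8 * v 11 ∧ v 16 * v 0 = -(v 2 * v 10) + v 8 * v 12 ∧
  v 17 * v 0 = -(v 2 * v 11) + v 9 * v 13 ∧ v 18 * v 0 = v 3 * v 8 - v 10 * v 13 ∧
  v 19 * v 0 = v 3 * v 9 - v 11 * v 12 ∧
  v 7 * v 0 ^ 2 = v 1 * v 2 * v 3 - v 1 * v 12 * v 13 - v 2 * v 10 * v 11 - v 3 * v 8 * v 9 +
    v 8 * v 11 * v 12 + v 9 * v 10 * v 13

theorem md_long {v : Fin 20 → K} (hv : v ∈ Md hq hK) :
    σ (v 0) = v 0 ∧ σ (v 1) = v 1 ∧ σ (v 2) = v 2 ∧ σ (v 3) = v 3 := by
  have h : ∀ i, p20 i = i → σ (v i) = v i := fun i hi => by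
    have h1 := hv i
    rw [hi, (data20 i).2.2.2.2.2.2.2 hi, Int.cast_one, one_mul] at h1
    exact h1.symm
  exact ⟨h 0 rfl, h 1 rfl, h 2 rfl, h 3 rfl⟩

theorem md_pair {v : Fin 20 → K} (hv : v ∈ Md hq hK) :
    v 9 = σ (v 8) ∧ v 11 = -σ (v 10) ∧ v 13 = -σ (v 12) ∧ v 15 = -σ (v 14) ∧ v 17 = -σ (v 16) ∧
      v 19 = σ (v 18) := by
  refine ⟨?_, ?_, ?_, ?_, ?_, ?_⟩
  · simpa [p20, g20] using hv 8
  · simpa [p20, g20] using hv 10
  · simpa [p20, g20] using hv 12
  · simpa [p20, g20] using hv 14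
  · simpa [p20, g20] using hv 16
  · simpa [p20, g20] using hv 18

theorem tgt_mem {e : Fin 30} {t : K} (ht' : Ok hq hK e t) {v : Fin 20 → K} (hv : v ∈ Md hq hK) :
    lapp hq hK tgt e t v ∈ Md hq hK :=
  lapp_mem hq hK dataTgt (fun e i => (dataComp e i).1) ht' hv

theorem tgt_neg (e : Fin 30) (t : K) (v : Fin 20 → K) :
    lapp hq hK tgt e (-t) (lapp hq hK tgt e t v) = v :=
  lapp_neg hq hK (fun e i => (dataComp e i).1) (fun e i => (data3020 e i).2.2.2) e t v

theorem tgt_neg' (e : Fin 30) (t : K) (v : Fin 20 → K) :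
    lapp hq hK tgt e t (lapp hq hK tgt e (-t) v) = v := by
  simpa using tgt_neg hq hK e (-t) v

theorem ok_neg {e : Fin 30} {t : K} (ht' : Ok hq hK e t) : Ok hq hK e (-t) := fun h => by
  rw [map_neg, ht' h]

theorem ok_pair {e : Fin 30} (h : p30 e ≠ e) (t : K) : Ok hq hK e t := fun h' => absurd h' h

section Sum

open scoped Classical in
/-- The finite set of characters. -/
noncomputable def MdF : Finset (Fin 20 → K) := Finset.univ.filter (· ∈ Md hq hK)

theorem mem_MdF {v : Fin 20 → K} : v ∈ MdF hq hK ↔ v ∈ Md hq hK := by simp [MdF]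

open scoped Classical in
/-- The fixed field as a finite set. -/
noncomputable def FqF : Finset K := Finset.univ.filter fun a => σ a = a

theorem mem_FqF {a : K} : a ∈ FqF hq hK ↔ σ a = a := by simp [FqF]

theorem card_FqF : (FqF hq hK).card = q := by
  classical
  rw [FqF, ← Fintype.card_subtype, ← Nat.card_eq_fintype_card]
  simp only [frobE6_apply]
  exact card_fixed hq.one_lt hK

variable (n : (Fin 20 → K) → ℕ)

open scoped Classical in
/-- The multiplicity over a key. -/
noncomputable def fib (x : Fin 7 → K) : ℕ := ∑ v ∈ (MdF hq hK).filter (fun v => key v = x), n v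

open scoped Classical in
/-- The multiplicity of the slice. -/
noncomputable def sliceN : ℕ := fib hq hK n (Pi.single 0 1)

/-- The slice carries only the weight vector. -/
def Conc : Prop := ∀ v ∈ Md hq hK, key v = Pi.single 0 1 → n v ≠ 0 → v = Pi.single 0 1

/-- What is propagated from key to key. -/
def Good (x : Fin 7 → K) : Prop :=
  fib hq hK n x = sliceN hq hK n ∧ (Conc hq hK n → ∀ v ∈ Md hq hK, key v = x → n v ≠ 0 → Rel v)

variable {n}

theorem base (hn : Mult hq hK n) {a : K} (ha : σ a = a) (h0 : a ≠ 0) : Good hq hK n (Pi.single 0 a) := by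
  classical
  obtain ⟨χ, hχ0, hχ, hχv⟩ := hn.scale a ha h0
  have hkey : ∀ v : Fin 20 → K, key (χ * v) = Pi.single 0 a ↔ key v = Pi.single 0 1 := by
    intro v
    simp only [funext_iff, key, Fin.forall_fin_succ, Fin.forall_fin_zero_pi, IsEmpty.forall_iff, Pi.mul_apply]
    simp [hχ0, hχ, h0]
  have hinv : ∀ v : Fin 20 → K, χ * (χ⁻¹ * v) = v := fun v => funext fun i => by simp [hχ i]
  refine ⟨?_, ?_⟩
  · refine (Finset.sum_nbij' (fun v => χ * v) (fun v => χ⁻¹ * v) ?_ ?_ ?_ ?_ ?_).symm
    · intro v hv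
      simp only [Finset.mem_coe, Finset.mem_filter, mem_MdF] at hv ⊢
      exact ⟨(hχv v).1.2 hv.1, (hkey v).2 hv.2⟩
    · intro v hv
      simp only [Finset.mem_coe, Finset.mem_filter, mem_MdF] at hv ⊢
      rw [← hinv v] at hv
      exact ⟨(hχv _).1.1 hv.1, (hkey _).1 hv.2⟩
    · exact fun v _ => funext fun i => by simp [hχ i]
    · exact fun v _ => hinv v
    · exact fun v _ => (hχv v).2.symm
  · intro hc v hv hk hne
    rw [← hinv v] at hv hk hne ⊢
    rw [(hχv _).2] at hne
    rw [hc _ ((hχv _).1.1 hv) ((hkey _).1 hk) hne]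
    simp [Rel]

theorem step (hn : Mult hq hK n) {e : Fin 30} {t : K} (ht' : Ok hq hK e t) {x y : Fin 7 → K}
    (hk : ∀ v ∈ Md hq hK, key v = x → key (lapp hq hK tgt e t v) = y)
    (hk' : ∀ v ∈ Md hq hK, key v = y → key (lapp hq hK tgt e (-t) v) = x)
    (hr : ∀ v ∈ Md hq hK, Rel v → Rel (lapp hq hK tgt e t v)) (hx : Good hq hK n x) : Good hq hK n y := by
  classical
  refine ⟨hx.1 ▸ Finset.sum_nbij' (lapp hq hK tgt e (-t)) (lapp hq hK tgt e t) ?_ ?_ ?_ ?_ ?_, ?_⟩
  · intro v hv
    simp only [Finset.mem_coe, Finset.mem_filter, mem_MdF] at hv ⊢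
    exact ⟨tgt_mem hq hK (ok_neg hq hK ht') hv.1, hk' v hv.1 hv.2⟩
  · intro v hv
    simp only [Finset.mem_coe, Finset.mem_filter, mem_MdF] at hv ⊢
    exact ⟨tgt_mem hq hK ht' hv.1, hk v hv.1 hv.2⟩
  · exact fun v _ => tgt_neg' hq hK e t v
  · exact fun v _ => tgt_neg hq hK e t v
  · intro v hv
    simp only [Finset.mem_filter, mem_MdF] at hv
    exact (hn.move e (-t) (ok_neg hq hK ht') v hv.1).symm
  · intro hc v hv hkv hne
    have hw := tgt_mem hq hK (ok_neg hq hK ht') hv
    rw [← tgt_neg' hq hK e t v]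
    refine hr _ hw (hx.2 hc _ hw (hk' v hv hkv) ?_)
    rwa [hn.move e (-t) (ok_neg hq hK ht') v hv]

theorem key_ext {v : Fin 20 → K} {x : Fin 7 → K} : key v = x ↔
    v 0 = x 0 ∧ v 1 = x 1 ∧ v 2 = x 2 ∧ v 3 = x 3 ∧ v 8 = x 4 ∧ v 10 = x 5 ∧ v 12 = x 6 := by
  constructor
  · rintro rfl
    exact ⟨rfl, rfl, rfl, rfl, rfl, rfl, rfl⟩
  · rintro ⟨a, b, c, d, e, f, g⟩
    funext i
    fin_cases i <;> assumption

theorem key_shift {e : Fin 30} {j : Fin 7} {C : K} {t a : K} {v : Fin 20 → K} {x : Fin 7 → K}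
    (h : key (lapp hq hK tgt e t v) = key v + Pi.single j (C * t * v 0)) (hv : key v = x) (ha : x 0 = a) :
    key (lapp hq hK tgt e t v) = x + Pi.single j (C * t * a) := by
  rw [h, hv, ← ha, ← hv]
  rfl

set_option maxHeartbeats 1000000 in
/-- Every key is good. -/
theorem good (hn : Mult hq hK n) {x : Fin 7 → K} (h0 : σ (x 0) = x 0) (h0' : x 0 ≠ 0) (h1 : σ (x 1) = x 1)
    (h2 : σ (x 2) = x 2) (h3 : σ (x 3) = x 3) : Good hq hK n x := by
  classical
  have fq : ∀ b : K, σ b = b → σ (b / x 0) = b / x 0 := fun b hb => by rw [map_div₀, hb, h0]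
  have shift : ∀ (e : Fin 30) (j : Fin 7) (C : K), C * C = 1 → j ≠ 0 →
      (∀ (t : K) (v : Fin 20 → K), key (lapp hq hK tgt e t v) = key v + Pi.single j (C * t * v 0)) →
      Ok hq hK e (C * (x j / x 0)) →
      (∀ t : K, Ok hq hK e t → ∀ v ∈ Md hq hK, Rel v → Rel (lapp hq hK tgt e t v)) →
      ∀ y z : Fin 7 → K, y 0 = x 0 → z = y + Pi.single j (x j) → Good hq hK n y → Good hq hK n z := by
    intro e j C hC hj hkey hok hrel y z hy hz hg
    have hC' : C * (C * (x j / x 0)) * x 0 = x j := by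
      rw [← mul_assoc C C, hC, one_mul, div_mul_cancel₀ _ h0']
    refine step hq hK hn hok (fun v _ hv => ?_) (fun v _ hv => ?_) (hrel _ hok) hg
    · rw [key_shift hq hK (hkey _ v) hv hy, hC', hz]
    · have hz0 : z 0 = x 0 := by rw [hz, Pi.add_apply, hy, Pi.single_eq_of_ne (Ne.symm hj), add_zero]
      rw [key_shift hq hK (hkey _ v) hv hz0, mul_neg, neg_mul, hC', hz, Pi.single_neg, add_neg_cancel_right]
  have g0 : Good hq hK n ![x 0, 0, 0, 0, 0, 0, 0] := by
    have := base hq hK hn h0 h0'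
    convert this using 1
    funext i
    fin_cases i <;> rfl
  have g1 : Good hq hK n ![x 0, x 1, 0, 0, 0, 0, 0] := by
    refine shift 11 1 1 (one_mul 1) (by decide) (fun t v => ?_) ?_ ?_ ![x 0, 0, 0, 0, 0, 0, 0] (![x 0, x 1, 0, 0, 0, 0, 0]) rfl ?_ g0
    · funext i; fin_cases i <;> simp [key, lapp, app, tgt, p30]
    · exact fun _ => by rw [one_mul]; exact fq _ h1
    · rintro t - v - ⟨r4, r5, r6, r14, r15, r16, r17, r18, r19, r7⟩
      simp only [Rel]
      simp [lapp, app, tgt, p30]
      refine ⟨?_, ?_, ?_, ?_, ?_, ?_, ?_, ?_, ?_, ?_⟩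
      · linear_combination r4
      · linear_combination r5
      · linear_combination r6
      · linear_combination r14
      · linear_combination r15
      · linear_combination r16
      · linear_combination r17
      · linear_combination r18
      · linear_combination r19
      · linear_combination r7 + t * v 0 * r6
    · funext i; fin_cases i <;> simp
  have g2 : Good hq hK n ![x 0, x 1, x 2, 0, 0, 0, 0] := by
    refine shift 6 2 (-1) (by ring) (by decide) (fun t v => ?_) ?_ ?_ ![x 0, x 1, 0, 0, 0, 0, 0] (![x 0, x 1, x 2, 0, 0, 0, 0]) rfl ?_ g1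
    · funext i; fin_cases i <;> simp [key, lapp, app, tgt, p30]
    · exact fun _ => by rw [map_mul, map_neg, map_one, fq _ h2]
    · rintro t - v - ⟨r4, r5, r6, r14, r15, r16, r17, r18, r19, r7⟩
      simp only [Rel]
      simp [lapp, app, tgt, p30]
      refine ⟨?_, ?_, ?_, ?_, ?_, ?_, ?_, ?_, ?_, ?_⟩
      · linear_combination r4
      · linear_combination r5
      · linear_combination r6
      · linear_combination r14
      · linear_combination r15
      · linear_combination r16
      · linear_combination r17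
      · linear_combination r18
      · linear_combination r19
      · linear_combination r7 - t * v 0 * r5
    · funext i; fin_cases i <;> simp
  have g3 : Good hq hK n ![x 0, x 1, x 2, x 3, 0, 0, 0] := by
    refine shift 0 3 (-1) (by ring) (by decide) (fun t v => ?_) ?_ ?_ ![x 0, x 1, x 2, 0, 0, 0, 0] (![x 0, x 1, x 2, x 3, 0, 0, 0]) rfl ?_ g2
    · funext i; fin_cases i <;> simp [key, lapp, app, tgt, p30]
    · exact fun _ => by rw [map_mul, map_neg, map_one, fq _ h3]
    · rintro t - v - ⟨r4, r5, r6, r14, r15, r16, r17, r18, r19, r7⟩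
      simp only [Rel]
      simp [lapp, app, tgt, p30]
      refine ⟨?_, ?_, ?_, ?_, ?_, ?_, ?_, ?_, ?_, ?_⟩
      · linear_combination r4
      · linear_combination r5
      · linear_combination r6
      · linear_combination r14
      · linear_combination r15
      · linear_combination r16
      · linear_combination r17
      · linear_combination r18
      · linear_combination r19
      · linear_combination r7 - t * v 0 * r4
    · funext i; fin_cases i <;> simp
  have g4 : Good hq hK n ![x 0, x 1, x 2, x 3, x 4, 0, 0] := by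
    refine shift 10 4 1 (one_mul 1) (by decide) (fun t v => ?_) (ok_pair hq hK (by decide) _) ?_ ![x 0, x 1, x 2, x 3, 0, 0, 0] (![x 0, x 1, x 2, x 3, x 4, 0, 0]) rfl ?_ g3
    · funext i; fin_cases i <;> simp [key, lapp, app, tgt, p30, g30]
    · rintro t - v - ⟨r4, r5, r6, r14, r15, r16, r17, r18, r19, r7⟩
      simp only [Rel]
      simp [lapp, app, tgt, p30, g30]
      refine ⟨?_, ?_, ?_, ?_, ?_, ?_, ?_, ?_, ?_, ?_⟩
      · linear_combination r4
      · linear_combination r5
      · linear_combination r6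
      · linear_combination r14
      · linear_combination r15
      · linear_combination r16
      · linear_combination r17
      · linear_combination r18
      · linear_combination r19
      · linear_combination r7 - t * v 0 * r19 - σ t * v 0 * r18
    · funext i; fin_cases i <;> simp
  have g5 : Good hq hK n ![x 0, x 1, x 2, x 3, x 4, x 5, 0] := by
    refine shift 9 5 1 (one_mul 1) (by decide) (fun t v => ?_) (ok_pair hq hK (by decide) _) ?_ ![x 0, x 1, x 2, x 3, x 4, 0, 0] (![x 0, x 1, x 2, x 3, x 4, x 5, 0]) rfl ?_ g4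
    · funext i; fin_cases i <;> simp [key, lapp, app, tgt, p30, g30]
    · rintro t - v - ⟨r4, r5, r6, r14, r15, r16, r17, r18, r19, r7⟩
      simp only [Rel]
      simp [lapp, app, tgt, p30, g30]
      refine ⟨?_, ?_, ?_, ?_, ?_, ?_, ?_, ?_, ?_, ?_⟩
      · linear_combination r4
      · linear_combination r5
      · linear_combination r6
      · linear_combination r14
      · linear_combination r15
      · linear_combination r16
      · linear_combination r17
      · linear_combination r18
      · linear_combination r19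
      · linear_combination r7 + t * v 0 * r17 - σ t * v 0 * r16
    · funext i; fin_cases i <;> simp
  refine shift 5 6 (-1) (by ring) (by decide) (fun t v => ?_) (ok_pair hq hK (by decide) _) ?_ ![x 0, x 1, x 2, x 3, x 4, x 5, 0] x rfl ?_ g5
  · funext i; fin_cases i <;> simp [key, lapp, app, tgt, p30, g30]
  · rintro t - v - ⟨r4, r5, r6, r14, r15, r16, r17, r18, r19, r7⟩
    simp only [Rel]
    simp [lapp, app, tgt, p30, g30]
    refine ⟨?_, ?_, ?_, ?_, ?_, ?_, ?_, ?_, ?_, ?_⟩
    · linear_combination r4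
    · linear_combination r5
    · linear_combination r6
    · linear_combination r14
    · linear_combination r15
    · linear_combination r16
    · linear_combination r17
    · linear_combination r18
    · linear_combination r19
    · linear_combination r7 + t * v 0 * r15 - σ t * v 0 * r14
  · funext i; fin_cases i <;> simp

open scoped Classical in
/-- The multiplicity over a box of keys. -/
theorem box_sum (hn : Mult hq hK n) (A : Fin 7 → Finset K) (h0 : ∀ a ∈ A 0, σ a = a ∧ a ≠ 0)
    (hA : ∀ i : Fin 7, i = 1 ∨ i = 2 ∨ i = 3 → ∀ a ∈ A i, σ a = a) :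
    ∑ v ∈ (MdF hq hK).filter (fun v => key v ∈ Fintype.piFinset A), n v = (∏ i, (A i).card) * sliceN hq hK n := by
  rw [← Fintype.card_piFinset,
    ← Finset.sum_fiberwise_of_maps_to (g := key) (t := Fintype.piFinset A) (fun v hv => (Finset.mem_filter.1 hv).2) n,
    ← smul_eq_mul, ← Finset.sum_const]
  refine Finset.sum_congr rfl fun x hx => ?_
  rw [← (good hq hK hn (h0 _ (Fintype.mem_piFinset.1 hx 0)).1 (h0 _ (Fintype.mem_piFinset.1 hx 0)).2
    (hA 1 (by simp) _ (Fintype.mem_piFinset.1 hx 1)) (hA 2 (by simp) _ (Fintype.mem_piFinset.1 hx 2))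
    (hA 3 (by simp) _ (Fintype.mem_piFinset.1 hx 3))).1, fib, Finset.filter_filter]
  refine Finset.sum_congr (Finset.filter_congr fun v _ => ⟨And.right, fun h => ⟨h ▸ hx, h⟩⟩) fun _ _ => rfl

theorem rel_of (hn : Mult hq hK n) (hc : Conc hq hK n) {v : Fin 20 → K} (hv : v ∈ Md hq hK) (h0 : v 0 ≠ 0)
    (hne : n v ≠ 0) : Rel v := by
  obtain ⟨a, b, c, d⟩ := md_long hq hK hv
  exact (good hq hK hn (x := key v) a h0 b c d).2 hc v hv rfl hne

end Sum

end Cfsg.Agent.TwE6Deg
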