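import Cfsg.Agent.TwE6Deg.Inv

/-!
# The fixed space of the radical and elements acting on it (owner: helper35)
-/

set_option autoImplicit false
set_option linter.unusedSectionVars false
set_option linter.unusedSimpArgs false

namespace Cfsg.Agent.TwE6Deg

open Cfsg.Lie Cfsg.Agent.ChevGrp Cfsg.Agent.ChevTw
open Module (finrank)

section Stab

variable {G : Type*} [Group G] {V : Type*} [AddCommGroup V] [Module ℂ V] [FiniteDimensional ℂ V]
  (ρ : Representation ℂ G V)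

theorem rho_mul' (g h : G) (x : V) : ρ (g * h) x = ρ g (ρ h x) := by
  rw [map_mul]; rfl

theorem rho_inv_left (g : G) (x : V) : ρ g⁻¹ (ρ g x) = x := by
  rw [← rho_mul' ρ, inv_mul_cancel, map_one]; rfl

theorem rho_inv_right (g : G) (x : V) : ρ g (ρ g⁻¹ x) = x := by
  rw [← rho_mul' ρ, mul_inv_cancel, map_one]; rfl

/-- The elements fixing a subspace pointwise. -/
def Fx (W : Submodule ℂ V) : Subgroup G where
  carrier := {g | ∀ x ∈ W, ρ g x = x}
  one_mem' := fun x _ => by simp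
  mul_mem' := fun {a b} ha hb x hx => by rw [rho_mul' ρ, hb x hx, ha x hx]
  inv_mem' := fun {a} ha x hx => by
    conv_lhs => rw [← ha x hx]
    exact rho_inv_left ρ a x

/-- The elements preserving a subspace. -/
def St (W : Submodule ℂ V) : Subgroup G where
  carrier := {g | ∀ x, ρ g x ∈ W ↔ x ∈ W}
  one_mem' := fun x => by simp
  mul_mem' := fun {a b} ha hb x => by rw [rho_mul' ρ, ha, hb]
  inv_mem' := fun {a} ha x => by
    rw [← ha (ρ a⁻¹ x), rho_inv_right]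

theorem st_of {W : Submodule ℂ V} {g : G} (h : ∀ x ∈ W, ρ g x ∈ W) : g ∈ St ρ W := by
  have hinj : Function.Injective (ρ g) := fun x y e => by
    have := congrArg (ρ g⁻¹) e
    rwa [rho_inv_left, rho_inv_left] at this
  have hmap : W.map (ρ g) = W := by
    refine Submodule.eq_of_le_of_finrank_eq (Submodule.map_le_iff_le_comap.2 h) ?_
    exact (Submodule.equivMapOfInjective _ hinj W).finrank_eq.symm
  refine fun x => ⟨fun hx => ?_, h x⟩
  rw [← hmap] at hx
  obtain ⟨y, hy, e⟩ := hx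
  exact hinj e ▸ hy

theorem fx_le_st (W : Submodule ℂ V) {g : G} (h : g ∈ Fx ρ W) : g ∈ St ρ W :=
  st_of ρ fun x hx => by rw [h x hx]; exact hx

theorem fx_conj {W : Submodule ℂ V} {g h : G} (hg : g ∈ St ρ W) (hh : h ∈ Fx ρ W) : g * h * g⁻¹ ∈ Fx ρ W := by
  intro x hx
  have hy : ρ g⁻¹ x ∈ W := (inv_mem hg x).2 hx
  rw [rho_mul' ρ, rho_mul' ρ, hh _ hy, rho_inv_right]

theorem fx_mono {W W' : Submodule ℂ V} (h : W' ≤ W) {g : G} (hg : g ∈ Fx ρ W) : g ∈ Fx ρ W' :=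
  fun x hx => hg x (h hx)

/-- An element normalising the operators of a family preserves their fixed space. -/
theorem st_inf_fix {A : Type*} [AddCommGroup A] {W : Submodule ℂ V} (z : A → G) {g : G} (hg : g ∈ St ρ W)
    (h : ∀ a, ∃ a', z a * g = g * z a') : g ∈ St ρ (W ⊓ eig (fun a => ρ (z a)) 0) := by
  refine st_of ρ fun x hx => ⟨(hg x).2 hx.1, fun a => ?_⟩
  obtain ⟨a', e⟩ := h a
  rw [← rho_mul' ρ, e, rho_mul' ρ]
  have := hx.2 a'
  simp only [AddChar.zero_apply, one_smul] at this ⊢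
  rw [this]

end Stab

section Roots

variable {K : Type*} [Field K]

/-- A commutator with one term, commuting with the first factor. -/
abbrev One (r s c : ℕ) (C : ℤ) : Prop :=
  r < chevE6.nroots ∧ s < chevE6.nroots ∧ s ≠ r ∧ s ≠ chevE6.neg r ∧ chevE6.commTerms r s = [(c, C, 1, 1)] ∧
    c < chevE6.nroots ∧ c ≠ r ∧ c ≠ chevE6.neg r ∧ chevE6.commTerms r c = []

/-- A trivial commutator. -/
abbrev Nul (r s : ℕ) : Prop :=
  r < chevE6.nroots ∧ s < chevE6.nroots ∧ s ≠ r ∧ s ≠ chevE6.neg r ∧ chevE6.commTerms r s = []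

theorem one_conj {r s c : ℕ} {C : ℤ} (h : One r s c C) (t u : K) :
    X K r t * X K s u * (X K r t)⁻¹ = X K s u * X K c ((C : K) * t * u) :=
  xconj h.1 h.2.1 h.2.2.1 h.2.2.2.1 h.2.2.2.2.1 h.2.2.2.2.2.1
    ⟨h.2.2.2.2.2.2.1, h.2.2.2.2.2.2.2.1, h.2.2.2.2.2.2.2.2⟩ t u

theorem nul_comm {r s : ℕ} (h : Nul r s) (t u : K) : Commute (X K r t) (X K s u) :=
  xcomm h.1 h.2.1 h.2.2.1 h.2.2.2.1 h.2.2.2.2 t u

/-- A pair of roots moving a single root. -/
theorem pair_conj_root {r r' s c c' d : ℕ} {C C' D : ℤ} (hr : Nul r r') (h1 : One r s c C) (h2 : One r' s c' C')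
    (h3 : One r' c d D) (t u a : K) :
    X K r t * X K r' u * X K s a * (X K r t * X K r' u)⁻¹ =
      X K s a * X K c' ((C' : K) * u * a) * (X K c ((C : K) * t * a) * X K d ((D : K) * u * ((C : K) * t * a))) :=
  calc X K r t * X K r' u * X K s a * (X K r t * X K r' u)⁻¹
      = X K r' u * X K r t * X K s a * (X K r' u * X K r t)⁻¹ := by rw [(nul_comm hr t u).eq]
    _ = X K r' u * (X K r t * X K s a * (X K r t)⁻¹) * (X K r' u)⁻¹ := by group
    _ = X K r' u * X K s a * (X K r' u)⁻¹ * (X K r' u * X K c ((C : K) * t * a) * (X K r' u)⁻¹) := by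
      rw [one_conj h1]; group
    _ = _ := by rw [one_conj h2, one_conj h3]

/-- Two pairs of roots with commutators in one root. -/
theorem pair_conj_pair {r r' a a' d : ℕ} {C C' : ℤ} (h1 : Nul r a) (h2 : One r' a d C) (h3 : One r a' d C')
    (h4 : Nul r' a') (h5 : Nul r' d) (hda : Nul a' d) (t u x y : K) :
    X K r t * X K r' u * (X K a x * X K a' y) * (X K r t * X K r' u)⁻¹ =
      X K a x * X K a' y * X K d ((C : K) * u * x + (C' : K) * t * y) := by
  have e1 : X K r t * X K a x * (X K r t)⁻¹ = X K a x := by rw [(nul_comm h1 t x).eq, mul_inv_cancel_right]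
  have e4 : X K r' u * X K a' y * (X K r' u)⁻¹ = X K a' y := by rw [(nul_comm h4 u y).eq, mul_inv_cancel_right]
  have e5 : ∀ v, X K r' u * X K d v * (X K r' u)⁻¹ = X K d v := fun v => by
    rw [(nul_comm h5 u v).eq, mul_inv_cancel_right]
  have hrd : ∀ v, X K r t * X K d v * (X K r t)⁻¹ = X K d v := fun v => by
    rw [(xcomm h3.1 h3.2.2.2.2.2.1 h3.2.2.2.2.2.2.1 h3.2.2.2.2.2.2.2.1 h3.2.2.2.2.2.2.2.2 t v).eq,
      mul_inv_cancel_right]
  calc X K r t * X K r' u * (X K a x * X K a' y) * (X K r t * X K r' u)⁻¹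
      = X K r t * (X K r' u * X K a x * (X K r' u)⁻¹ * (X K r' u * X K a' y * (X K r' u)⁻¹)) * (X K r t)⁻¹ := by group
    _ = X K r t * (X K a x * X K d ((C : K) * u * x) * X K a' y) * (X K r t)⁻¹ := by rw [one_conj h2, e4]
    _ = X K r t * X K a x * (X K r t)⁻¹ * (X K r t * X K d ((C : K) * u * x) * (X K r t)⁻¹) *
        (X K r t * X K a' y * (X K r t)⁻¹) := by group
    _ = X K a x * X K d ((C : K) * u * x) * (X K a' y * X K d ((C' : K) * t * y)) := by
      rw [e1, hrd, one_conj h3]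
    _ = X K a x * (X K d ((C : K) * u * x) * X K a' y) * X K d ((C' : K) * t * y) := by group
    _ = X K a x * X K a' y * (X K d ((C : K) * u * x) * X K d ((C' : K) * t * y)) := by
      rw [← (nul_comm hda y _).eq]; group
    _ = _ := by rw [xadd h3.2.2.2.2.2.1]

end Roots

section E6

variable {K : Type*} [Field K] [Fintype K] {q : ℕ} (hq : IsPrimePow q) (hK : Fintype.card K = q ^ 2)

local notation "σ" => frobE6 hq hK
local notation "GK" => GL chevE6.Idx K

/-- A twisted root element of the Levi factor in the group. -/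
noncomputable def lG (e : Fin 30) (t : K) (h : Ok hq hK e t) : ↥(twistedE6 K q) :=
  ⟨lel hq hK e t, (Subgroup.mem_inf.1 (lel_mem hq hK h)).1⟩

/-- A twisted root element of a pair. -/
noncomputable def pG (e : Fin 30) (h : p30 e ≠ e) (t : K) : ↥(twistedE6 K q) :=
  lG hq hK e t (ok_pair hq hK h t)

theorem pG_val (e : Fin 30) (h : p30 e ≠ e) (t : K) :
    (pG hq hK e h t : GK) = X K (L30 e) t * X K (L30 (p30 e)) ((g30 e : K) * σ t) := by
  simp [pG, lG, lel, h]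

theorem tchar_sym {c : Fin chevE6.rank → Kˣ} (hc : c ∈ fixTorusE6 K q) {r : ℕ} (hr : r < chevE6.nroots) :
    (tchar c (twE6.root r) : K) = σ (tchar c r : K) := by
  have h1 : ∀ (j : Fin chevE6.rank) (r : Fin chevE6.nroots),
      chevE6.cartan (pE6 j) (twE6.root r) = chevE6.cartan j r := by decide +kernel
  have h2 : Function.Involutive pE6 := show ∀ j, pE6 (pE6 j) = j by decide +kernel
  have h3 : ∀ j, c (pE6 j) = c j ^ q := by
    have h := (mem_mk_iff c).1 hc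
    intro j
    obtain ⟨a, b, d, e, f, g⟩ := h
    revert j
    rw [forallE6]
    simp only [show pE6 ⟨0, by decide⟩ = ⟨5, by decide⟩ from by decide +kernel,
      show pE6 ⟨1, by decide⟩ = ⟨1, by decide⟩ from by decide +kernel,
      show pE6 ⟨2, by decide⟩ = ⟨4, by decide⟩ from by decide +kernel,
      show pE6 ⟨3, by decide⟩ = ⟨3, by decide⟩ from by decide +kernel,
      show pE6 ⟨4, by decide⟩ = ⟨2, by decide⟩ from by decide +kernel,
      show pE6 ⟨5, by decide⟩ = ⟨0, by decide⟩ from by decide +kernel]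
    exact ⟨g.symm, b.symm, f.symm, e.symm, d.symm, a.symm⟩
  simp only [tchar, Units.coe_prod, map_prod]
  refine (Fintype.prod_equiv h2.toPerm _ _ fun j => ?_).symm
  rw [Function.Involutive.coe_toPerm, h1 j ⟨r, hr⟩, h3, frobE6_apply, Units.val_zpow_eq_zpow_val,
    Units.val_zpow_eq_zpow_val, Units.val_pow_eq_pow_val, ← zpow_natCast ((c j : K) ^ chevE6.cartan j r) q,
    ← zpow_mul, ← zpow_natCast (c j : K) q, ← zpow_mul, mul_comm]

theorem tchar_fixed {c : Fin chevE6.rank → Kˣ} (hc : c ∈ fixTorusE6 K q) {r : ℕ}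
    (hr : r ∈ ([46, 70, 71, 39, 44, 60] : List ℕ)) : σ (tchar c r : K) = (tchar c r : K) := by
  rw [← tchar_sym hq hK hc (dataFix r hr).1, (dataFix r hr).2.2.1]

/-- A torus element in the group. -/
noncomputable def tG (c : Fin chevE6.rank → Kˣ) (hc : c ∈ fixTorusE6 K q) : ↥(twistedE6 K q) :=
  ⟨tor c, tor_mem hq hK hc⟩

theorem zEl_mul_tG {r : ℕ} (hr : r ∈ ([46, 70, 71, 39, 44, 60] : List ℕ)) {c : Fin chevE6.rank → Kˣ}
    (hc : c ∈ fixTorusE6 K q) (b : FqT hq hK) :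
    tG hq hK c hc * zEl hq hK hr b = zEl hq hK hr (⟨(tchar c r : K), tchar_fixed hq hK hc hr⟩ * b) * tG hq hK c hc :=
  Subtype.ext (mul_inv_eq_iff_eq_mul.1 (tor_conj c (dataFix r hr).1 (b : K)))

theorem exists_zEl_tG {r : ℕ} (hr : r ∈ ([46, 70, 71, 39, 44, 60] : List ℕ)) {c : Fin chevE6.rank → Kˣ}
    (hc : c ∈ fixTorusE6 K q) (a : FqT hq hK) :
    ∃ a', zEl hq hK hr a * tG hq hK c hc = tG hq hK c hc * zEl hq hK hr a' := by
  refine ⟨(⟨(tchar c r : K), tchar_fixed hq hK hc hr⟩ : FqT hq hK)⁻¹ * a, ?_⟩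
  rw [zEl_mul_tG, mul_inv_cancel_left₀ fun h => Units.ne_zero _ (congrArg Subtype.val h)]

variable {V : Type*} [AddCommGroup V] [Module ℂ V] [FiniteDimensional ℂ V]
  (ρ : Representation ℂ ↥(twistedE6 K q) V)

/-- The fixed space of the radical. -/
noncomputable def fixQ : Submodule ℂ V := fixZ hq hK ρ ⊓ eig (rq hq hK ρ) 0

theorem finrank_fixQ (ψ : AddChar (FqT hq hK) ℂ) : finrank ℂ ↥(fixQ hq hK ρ) = mult hq hK ρ ψ 0 := by
  rw [mult_mem hq hK ρ ψ (zero_mem _), show (⟨0, zero_mem _⟩ : MdT hq hK) = 0 from rfl, chiM_zero]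
  rfl

theorem rq_fixQ {x : V} (hx : x ∈ fixQ hq hK ρ) (m : MdT hq hK) : rq hq hK ρ m x = x := by
  simpa using hx.2 m

theorem fx_qEl (m : MdT hq hK) : qEl hq hK m ∈ Fx ρ (fixQ hq hK ρ) := fun _ hx => rq_fixQ hq hK ρ hx m

theorem fx_z71 (a : FqT hq hK) : zEl hq hK (r := 71) (by simp) a ∈ Fx ρ (fixQ hq hK ρ) :=
  fun _ hx => (mem_fixZ hq hK ρ).1 hx.1 a

theorem fx_class {g : ↥(twistedE6 K q)} (hg : (g : GK) ∈ CC K) {w : Fin 20 → K} (hw : w ∈ Md hq hK)
    (e : (QuotientGroup.mk ⟨(g : GK), hg⟩ : CB K) = phi w) : g ∈ Fx ρ (fixQ hq hK ρ) := fun x hx => by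
  rw [mod_z hq hK ρ (g := qEl hq hK ⟨w, hw⟩) (qEl_cc hq hK _) hg ((mk_qEl hq hK _).trans e.symm) hx.1]
  exact rq_fixQ hq hK ρ hx _

theorem fx_z46 (a : FqT hq hK) : zEl hq hK (r := 46) (by simp) a ∈ Fx ρ (fixQ hq hK ρ) := by
  refine fx_class hq hK ρ (x20_mem (K := K) 0 (a : K)) (w := Pi.single 0 (a : K)) (fun i => ?_) ?_
  · rcases eq_or_ne i 0 with rfl | hi
    · simp [p20, g20, fq_apply hq hK a]
    · have : p20 i ≠ 0 := fun e => hi (by rw [← (data20 i).2.2.1, e]; rfl)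
      simp [Pi.single_eq_of_ne this, Pi.single_eq_of_ne hi]
  · rw [phi_single]
    rfl

theorem st_lG {e : Fin 30} {t : K} (h : Ok hq hK e t) : lG hq hK e t h ∈ St ρ (fixQ hq hK ρ) := by
  refine st_of ρ fun x hx => ⟨cc_stable hq hK ρ (Subgroup.mem_inf.1 (lel_mem hq hK h)).2 hx.1, fun m => ?_⟩
  simp only [AddChar.zero_apply, one_smul]
  rw [lG, lel_rel hq hK ρ h m hx.1, rq_fixQ hq hK ρ hx]

theorem st_pG {e : Fin 30} (h : p30 e ≠ e) (t : K) : pG hq hK e h t ∈ St ρ (fixQ hq hK ρ) := st_lG hq hK ρ _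

theorem st_zEl {r : ℕ} (hr : r ∈ ([46, 70, 71, 39, 44, 60] : List ℕ)) (hr' : r = 39 ∨ r = 44 ∨ r = 60)
    (a : FqT hq hK) : zEl hq hK hr a ∈ St ρ (fixQ hq hK ρ) := by
  have ha : σ (a : K) = (a : K) := fq_apply hq hK a
  rcases hr' with rfl | rfl | rfl
  · have e : zEl hq hK hr a = lG hq hK 18 (a : K) (fun _ => ha) :=
      Subtype.ext (by simp [zEl, lG, lel, p30, L30])
    rw [e]; exact st_lG hq hK ρ _
  · have e : zEl hq hK hr a = lG hq hK 23 (a : K) (fun _ => ha) :=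
      Subtype.ext (by simp [zEl, lG, lel, p30, L30])
    rw [e]; exact st_lG hq hK ρ _
  · have e : zEl hq hK hr a = lG hq hK 29 (a : K) (fun _ => ha) :=
      Subtype.ext (by simp [zEl, lG, lel, p30, L30])
    rw [e]; exact st_lG hq hK ρ _

theorem st_tG {c : Fin chevE6.rank → Kˣ} (hc : c ∈ fixTorusE6 K q) : tG hq hK c hc ∈ St ρ (fixQ hq hK ρ) := by
  refine st_of ρ fun x hx => ⟨(mem_fixZ hq hK ρ).2 fun a => ?_, fun m => ?_⟩
  · obtain ⟨a', e⟩ := exists_zEl_tG hq hK (r := 71) (by simp) hc a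
    rw [rz, ← rho_mul ρ, e, rho_mul ρ]
    exact congrArg (ρ _) ((mem_fixZ hq hK ρ).1 hx.1 a')
  · simp only [AddChar.zero_apply, one_smul]
    set w : Fin 20 → K := fun i => ((tchar c (L20 i))⁻¹ : Kˣ) * (m : Fin 20 → K) i
    have hw : w ∈ Md hq hK := fun i => by
      obtain ⟨h1, -, -, -, -, hroot, -⟩ := data20 i
      simp only [w, Units.val_inv_eq_inv_val]
      rw [← hroot, tchar_sym hq hK hc h1, m.2 i, map_mul, map_inv₀, mul_left_comm]
    have e : qEl hq hK m * tG hq hK c hc = tG hq hK c hc * qEl hq hK ⟨w, hw⟩ := by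
      refine Subtype.ext ?_
      show lift20 (m : Fin 20 → K) * tor c = tor c * lift20 w
      rw [mul_inv_eq_iff_eq_mul.1 (tor_lift20 c w)]
      congr 2
      funext i
      simp [w]
    rw [rq, ← rho_mul ρ, e, rho_mul ρ]
    exact congrArg (ρ _) (rq_fixQ hq hK ρ hx _)

/-- The monomial element of the node pair `{0, 5}`. -/
noncomputable def n05 : ↥(twistedE6 K q) :=
  pG hq hK 25 (by decide) 1 * pG hq hK 4 (by decide) (-1) * pG hq hK 25 (by decide) 1

/-- The monomial element of the node pair `{2, 4}`. -/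
noncomputable def n24 : ↥(twistedE6 K q) :=
  pG hq hK 21 (by decide) 1 * pG hq hK 8 (by decide) (-1) * pG hq hK 21 (by decide) 1

/-- The monomial element of the node `3`. -/
noncomputable def n3 : ↥(twistedE6 K q) :=
  lG hq hK 18 1 (fun _ => map_one _) * lG hq hK 11 (-1) (fun _ => by rw [map_neg, map_one]) *
    lG hq hK 18 1 (fun _ => map_one _)

theorem st_n05 : n05 hq hK ∈ St ρ (fixQ hq hK ρ) :=
  mul_mem (mul_mem (st_pG hq hK ρ _ _) (st_pG hq hK ρ _ _)) (st_pG hq hK ρ _ _)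

theorem st_n24 : n24 hq hK ∈ St ρ (fixQ hq hK ρ) :=
  mul_mem (mul_mem (st_pG hq hK ρ _ _) (st_pG hq hK ρ _ _)) (st_pG hq hK ρ _ _)

theorem st_n3 : n3 hq hK ∈ St ρ (fixQ hq hK ρ) :=
  mul_mem (mul_mem (st_lG hq hK ρ _) (st_lG hq hK ρ _)) (st_lG hq hK ρ _)

theorem n3_val : (n3 hq hK : GK) = (glSys (rulesE6 K)).nI ⟨3, by decide⟩ := by
  rw [nI_eq, show chevE6.simple 3 = 39 from negE6.2.2.2.2.2.2.2.2.2.1, negE6.2.1]
  simp [n3, lG, lel, p30, L30]

theorem n05_val : (n05 hq hK : GK) =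
    (glSys (rulesE6 K)).nI ⟨0, by decide⟩ * (glSys (rulesE6 K)).nI ⟨5, by decide⟩ := by
  obtain ⟨-, -, -, -, n56, n36, s0, -, -, -, -, s5⟩ := negE6
  rw [nI_eq, nI_eq, show chevE6.simple 0 = 56 from s0, show chevE6.simple 5 = 36 from s5, n56, n36,
    triple_mul (nul_comm (r := 56) (s := 36) (by decide +kernel) _ _)
      (nul_comm (r := 15) (s := 36) (by decide +kernel) _ _) (nul_comm (r := 56) (s := 35) (by decide +kernel) _ _)]
  simp [n05, pG_val, p30, L30, g30]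

theorem n24_val : (n24 hq hK : GK) =
    (glSys (rulesE6 K)).nI ⟨2, by decide⟩ * (glSys (rulesE6 K)).nI ⟨4, by decide⟩ := by
  obtain ⟨-, -, n42, n37, -, -, -, -, s2, -, s4, -⟩ := negE6
  rw [nI_eq, nI_eq, show chevE6.simple 2 = 42 from s2, show chevE6.simple 4 = 37 from s4, n42, n37,
    triple_mul (nul_comm (r := 42) (s := 37) (by decide +kernel) _ _)
      (nul_comm (r := 29) (s := 37) (by decide +kernel) _ _) (nul_comm (r := 42) (s := 34) (by decide +kernel) _ _)]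
  simp [n24, pG_val, p30, L30, g30]

theorem nI_conj (w : List (Fin chevE6.rank)) (g : GK) (hg : g = (glSys (rulesE6 K)).nW w) {r r' : ℕ}
    (hr : r < chevE6.nroots) (hact : act chevE6 w r = r') :
    ∃ a : K, a ≠ 0 ∧ ∀ t : K, g * X K r t * g⁻¹ = X K r' (a * t) := by
  obtain ⟨len, hR⟩ := (rulesE6 K).root
  obtain ⟨a, ha, hga⟩ := (glSys (rulesE6 K)).conjP_nW (rulesE6 K) hR w
  refine ⟨a r, right_ne_zero_of_mul_eq_one (ha r hr), fun t => ?_⟩
  rw [hg]
  exact (hga r hr t).trans (by rw [hact])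

/-- Transport of fixed long root elements by a monomial element. -/
theorem zEl_conj {g : ↥(twistedE6 K q)} (w : List (Fin chevE6.rank))
    (hg : (g : GK) = (glSys (rulesE6 K)).nW w) {r r' : ℕ} (hr : r ∈ ([46, 70, 71, 39, 44, 60] : List ℕ))
    (hr' : r' ∈ ([46, 70, 71, 39, 44, 60] : List ℕ)) (hact : act chevE6 w r = r') :
    ∃ a : FqT hq hK, a ≠ 0 ∧ ∀ t, g * zEl hq hK hr t = zEl hq hK hr' (a * t) * g := by
  obtain ⟨a, ha, h⟩ := nI_conj w (g : GK) hg (dataFix r hr).1 hact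
  have h1 := h 1
  rw [mul_one] at h1
  have ha' : σ a = a := fix_param hq hK hr' (h1 ▸ mul_mem (mul_mem g.2 (root_mem hq hK hr (map_one _))) (inv_mem g.2))
  exact ⟨⟨a, ha'⟩, fun e => ha (congrArg Subtype.val e), fun t =>
    Subtype.ext (mul_inv_eq_iff_eq_mul.1 (h (t : K)))⟩

theorem actN : act chevE6 (wd [0, 5]) 44 = 60 ∧ act chevE6 (wd [0, 5]) 60 = 44 ∧ act chevE6 (wd [2, 4]) 39 = 44 ∧
    act chevE6 (wd [2, 4]) 44 = 39 ∧ act chevE6 (wd [2, 4]) 60 = 60 ∧ act chevE6 (wd [3]) 39 = 32 ∧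
    act chevE6 (wd [1]) 46 = 25 ∧ act chevE6 (wd [1]) 25 = 46 ∧ act chevE6 (wd [3, 1]) 39 = 46 := by
  decide +kernel

theorem n05_nW : (n05 hq hK : GK) = (glSys (rulesE6 K)).nW (wd [0, 5]) := by
  rw [n05_val, show wd [0, 5] = [⟨0, by decide⟩, ⟨5, by decide⟩] from rfl]
  simp [Sys.nW]

theorem n24_nW : (n24 hq hK : GK) = (glSys (rulesE6 K)).nW (wd [2, 4]) := by
  rw [n24_val, show wd [2, 4] = [⟨2, by decide⟩, ⟨4, by decide⟩] from rfl]
  simp [Sys.nW]

theorem n3_nW : (n3 hq hK : GK) = (glSys (rulesE6 K)).nW (wd [3]) := by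
  rw [n3_val, show wd [3] = [⟨3, by decide⟩] from rfl]
  simp [Sys.nW]

end E6

end Cfsg.Agent.TwE6Deg
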